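import Mathlib
import Cfsg.Agent.Helper13.AlpP

set_option autoImplicit false

namespace Cfsg.Agent.Helper23

open Cfsg Cfsg.Agent.Helper17 Cfsg.Agent.Helper13

section AlperinDec

variable {G : Type*} [Group G] [Finite G] {p : ℕ} [Fact p.Prime]

theorem tame_self' (P : Sylow p G) :
    ¬ p ∣ ((P : Subgroup G) ⊓ Subgroup.normalizer ((P : Subgroup G) : Set G)).relIndex
      (Subgroup.normalizer ((P : Subgroup G) : Set G)) := by
  rw [inf_eq_left.mpr Subgroup.le_normalizer]
  intro hdvd
  apply P.not_dvd_index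
  rw [← Subgroup.relIndex_mul_index (Subgroup.le_normalizer (H := (P : Subgroup G)))]
  exact Dvd.dvd.mul_right hdvd _

/-- **Alperin's fusion theorem**: if `Q ≤ P` and `g⁻¹ Q g ≤ P`, then `g` is a product of
elements of normalizers of tame intersections `P ∩ Q_i` (each a `p`-element unless `Q_i = P`),
through which `Q` is conjugated step by step. -/
theorem alperin_dec (P : Sylow p G) (Q : Subgroup G) (hQ : Q ≤ (P : Subgroup G)) (g : G)
    (hg : rc g Q ≤ (P : Subgroup G)) : SDec (astp P) Q g := by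
  obtain ⟨Q', hQ'⟩ := exists_sylow_rc g⁻¹ P
  have hgQ : rc g (Q' : Subgroup G) = P := by rw [hQ']; exact rc_rc_inv g _
  have hQQ' : Q ≤ (Q' : Subgroup G) := by
    rw [hQ']
    have := rc_mono (x := g⁻¹) hg
    rwa [rc_inv_rc] at this
  have hc : Nat.card ((P : Subgroup G) ⊓ (Q' : Subgroup G) : Subgroup G) ≤
      Nat.card (P : Subgroup G) :=
    Subgroup.card_le_of_le inf_le_left
  obtain ⟨x, hx1, hx2⟩ := alperin_main P
    (Nat.card (P : Subgroup G) - Nat.card ((P : Subgroup G) ⊓ (Q' : Subgroup G) : Subgroup G)) Q'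
    (by omega)
  have hy : x⁻¹ * g ∈ Subgroup.normalizer ((P : Subgroup G) : Set G) := by
    have h1 : rc (x⁻¹ * g) (P : Subgroup G) = P := by
      rw [rc_mul]
      have e : rc x⁻¹ (P : Subgroup G) = Q' := by rw [← hx2, rc_inv_rc]
      rw [e]; exact hgQ
    rw [rc_eq_cj] at h1
    have h2 := mem_normalizer_of_cj_eq_self h1
    simpa using Subgroup.inv_mem _ h2
  have hstepP : astp P (P : Subgroup G) (x⁻¹ * g) :=
    ⟨P, (inf_idem _).symm, hy, tame_self' P, tame_self' P, Or.inl rfl⟩
  have hfull : SDec (astp P) ((P : Subgroup G) ⊓ (Q' : Subgroup G)) (x * (x⁻¹ * g)) := by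
    refine hx1.trans (SDec.single hstepP) ?_
    rw [← hx2]; exact rc_mono inf_le_right
  have hxg : x * (x⁻¹ * g) = g := by group
  rw [hxg] at hfull
  exact hfull.mono (le_inf hQ hQQ')

end AlperinDec

section SDecGen

variable {G : Type*} [Group G]

/-- generic transfer from a decomposition to a relation (copy of `SDec.gen`) -/
theorem sdec_gen {stp : Subgroup G → G → Prop} (Φ : Subgroup G → G → Prop) (hone : ∀ R, Φ R 1)
    (htrans : ∀ (R : Subgroup G) (g₁ g₂ : G), Φ R g₁ → Φ (rc g₁ R) g₂ → Φ R (g₁ * g₂)) (c : ℕ)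
    (hstep : ∀ D x, stp D x → ∀ R : Subgroup G, R ≤ D → Nat.card R = c → Φ R x)
    {R : Subgroup G} {g : G} (h : SDec stp R g) (hc : Nat.card R = c) : Φ R g := by
  induction h with
  | nil R => exact hone R
  | cons R D x g hD hRD _ ih =>
    exact htrans R x g (hstep D x hD R hRD hc) (ih (by rw [card_rc]; exact hc))

end SDecGen

end Cfsg.Agent.Helper23
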