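import Mathlib

set_option autoImplicit false

namespace Cfsg.Agent.Helper23.AltPQ

open Equiv Equiv.Perm

/-- a `q`-subgroup of the symmetric group of degree `n < q²` is abelian. -/
theorem pgroup_comm_of_lt_sq {n q : ℕ} [hq : Fact q.Prime] (hn : n < q ^ 2)
    (Q : Subgroup (Perm (Fin n))) (hQ : IsPGroup q Q) :
    ∀ g ∈ Q, ∀ h ∈ Q, g * h = h * g := by
  intro g hg h hh
  ext x
  -- stabilizer of x in Q
  set S : Subgroup Q := MulAction.stabilizer Q x with hS
  have hidx : S.index = Nat.card (MulAction.orbit Q x) := MulAction.index_stabilizer Q x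
  obtain ⟨k, hk⟩ := hQ.card_orbit x
  have hle : Nat.card (MulAction.orbit Q x) ≤ n := by
    have h1 := Finite.card_subtype_le (fun y : Fin n => y ∈ MulAction.orbit Q x)
    simpa using h1
  have hk1 : k ≤ 1 := by
    by_contra hcon
    have h2 : 2 ≤ k := by omega
    have h3 : q ^ 2 ≤ q ^ k := Nat.pow_le_pow_right hq.out.pos h2
    rw [hk] at hle
    omega
  have hcomm : (⟨g, hg⟩ : Q)⁻¹ * (⟨h, hh⟩ : Q)⁻¹ * ⟨g, hg⟩ * ⟨h, hh⟩ ∈ S := by
    interval_cases k
    · -- index 1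
      have h1 : S.index = 1 := by rw [hidx, hk, pow_zero]
      rw [Subgroup.index_eq_one.mp h1]
      trivial
    · -- index q
      have h1 : S.index = q := by rw [hidx, hk, pow_one]
      obtain ⟨j, hj⟩ := IsPGroup.iff_card.mp hQ
      have hj0 : j ≠ 0 := by
        rintro rfl
        rw [pow_zero] at hj
        have h2 : S.index ∣ Nat.card Q := Subgroup.index_dvd_card S
        rw [hj, h1] at h2
        exact hq.out.one_lt.ne' (Nat.dvd_one.mp h2)
      haveI : S.Normal := by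
        apply Subgroup.normal_of_index_eq_minFac_card
        rw [h1, hj, Nat.pow_minFac hj0, hq.out.minFac_eq]
      have hc : Nat.card (Q ⧸ S) = q := by rw [← Subgroup.index_eq_card, h1]
      haveI : IsCyclic (Q ⧸ S) := isCyclic_of_prime_card hc
      letI : CommGroup (Q ⧸ S) := IsCyclic.commGroup
      rw [← QuotientGroup.eq_one_iff]
      have e : ((((⟨g, hg⟩ : Q)⁻¹ * (⟨h, hh⟩ : Q)⁻¹ * ⟨g, hg⟩ * ⟨h, hh⟩ : Q) : Q ⧸ S)) =
          ((⟨g, hg⟩ : Q) : Q ⧸ S)⁻¹ * ((⟨h, hh⟩ : Q) : Q ⧸ S)⁻¹ * ((⟨g, hg⟩ : Q) : Q ⧸ S) *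
            ((⟨h, hh⟩ : Q) : Q ⧸ S) := rfl
      rw [e]
      have e2 : ∀ a b : Q ⧸ S, a⁻¹ * b⁻¹ * a * b = 1 := by
        intro a b
        rw [mul_comm a⁻¹ b⁻¹, mul_assoc b⁻¹, inv_mul_cancel, mul_one, inv_mul_cancel]
      exact e2 _ _
  have h4 : ((⟨g, hg⟩ : Q)⁻¹ * (⟨h, hh⟩ : Q)⁻¹ * ⟨g, hg⟩ * ⟨h, hh⟩ : Q) • x = x :=
    MulAction.mem_stabilizer_iff.mp hcomm
  have h5 : (g⁻¹ * h⁻¹ * g * h) x = x := h4
  have h6 : (g * h) x = (h * g) ((g⁻¹ * h⁻¹ * g * h) x) := by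
    simp [Perm.mul_apply]
  rw [h6, h5]

/-- an even permutation with a prescribed cycle type. -/
theorem exists_alt_of_multiset (n : ℕ) (m : Multiset ℕ) (hsum : m.sum ≤ n) (h2 : ∀ a ∈ m, 2 ≤ a)
    (heven : Even (m.sum + Multiset.card m)) :
    ∃ σ : Perm (Fin n), σ ∈ alternatingGroup (Fin n) ∧ orderOf σ = m.lcm := by
  obtain ⟨σ, hσ⟩ := (Equiv.Perm.exists_with_cycleType_iff (α := Fin n) (m := m)).mpr
    ⟨by simpa using hsum, h2⟩
  refine ⟨σ, ?_, ?_⟩
  · rw [Equiv.Perm.mem_alternatingGroup, Equiv.Perm.sign_of_cycleType, hσ]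
    exact heven.neg_one_pow
  · rw [← Equiv.Perm.lcm_cycleType, hσ]

theorem exists_alt_order_odd (n p q : ℕ) (hp : p.Prime) (hq : q.Prime) (hpq : p ≠ q)
    (hp2 : p ≠ 2) (hq2 : q ≠ 2) (hn : p + q ≤ n) :
    ∃ σ : Perm (Fin n), σ ∈ alternatingGroup (Fin n) ∧ orderOf σ = p * q := by
  obtain ⟨σ, hσ, ho⟩ := exists_alt_of_multiset n ({p, q} : Multiset ℕ)
    (by simpa using hn)
    (by
      intro a ha
      simp only [Multiset.insert_eq_cons, Multiset.mem_cons, Multiset.mem_singleton] at ha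
      rcases ha with rfl | rfl
      · exact hp.two_le
      · exact hq.two_le)
    (by
      have h1 : Odd p := hp.odd_of_ne_two hp2
      have h2 : Odd q := hq.odd_of_ne_two hq2
      have h3 : Even (p + q) := h1.add_odd h2
      simpa using h3.add (by decide : Even 2))
  refine ⟨σ, hσ, ?_⟩
  rw [ho]
  have hc : Nat.Coprime p q := (Nat.coprime_primes hp hq).mpr hpq
  have e : ({p, q} : Multiset ℕ).lcm = Nat.lcm p q := by
    rw [show ({p, q} : Multiset ℕ) = p ::ₘ {q} from rfl, Multiset.lcm_cons, Multiset.lcm_singleton,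
      normalize_eq]
    rfl
  rw [e, hc.lcm_eq_mul]

theorem exists_alt_order_two (n q : ℕ) (hq : q.Prime) (hq2 : q ≠ 2) (hn : q + 4 ≤ n) :
    ∃ σ : Perm (Fin n), σ ∈ alternatingGroup (Fin n) ∧ orderOf σ = 2 * q := by
  obtain ⟨σ, hσ, ho⟩ := exists_alt_of_multiset n ({2, 2, q} : Multiset ℕ)
    (by simp; omega)
    (by
      intro a ha
      simp only [Multiset.insert_eq_cons, Multiset.mem_cons, Multiset.mem_singleton] at ha
      rcases ha with rfl | rfl | rfl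
      · exact le_refl 2
      · exact le_refl 2
      · exact hq.two_le)
    (by
      have h2 : Odd q := hq.odd_of_ne_two hq2
      have h3 : Even (q + 7) := h2.add_odd (by decide)
      have e : ({2, 2, q} : Multiset ℕ).sum + Multiset.card ({2, 2, q} : Multiset ℕ) = q + 7 := by
        simp; omega
      rw [e]; exact h3)
  refine ⟨σ, hσ, ?_⟩
  rw [ho]
  have hc : Nat.Coprime 2 q := (Nat.coprime_primes Nat.prime_two hq).mpr (Ne.symm hq2)
  have e : ({2, 2, q} : Multiset ℕ).lcm = Nat.lcm 2 (Nat.lcm 2 q) := by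
    rw [show ({2, 2, q} : Multiset ℕ) = 2 ::ₘ 2 ::ₘ {q} from rfl, Multiset.lcm_cons,
      Multiset.lcm_cons, Multiset.lcm_singleton, normalize_eq]
    rfl
  rw [e, hc.lcm_eq_mul]
  exact Nat.lcm_eq_right (Dvd.intro _ rfl)

end Cfsg.Agent.Helper23.AltPQ
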