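import Mathlib
import Cfsg.Agent.Helper14.AutAlt

set_option autoImplicit false

namespace Cfsg.Agent.Helper23.AltPQ

open Equiv Equiv.Perm

theorem card_three :
    (Finset.univ.filter (fun g : Perm (Fin 6) => g.cycleType = {3})).card = 40 := by
  rw [Equiv.Perm.card_of_cycleType]
  decide

theorem card_three_three :
    (Finset.univ.filter (fun g : Perm (Fin 6) => g.cycleType = {3, 3})).card = 40 := by
  rw [Equiv.Perm.card_of_cycleType]
  decide

/-- the automorphism maps `3`-cycles to `3`-cycles. -/
def Pres (φ : MulAut (alternatingGroup (Fin 6))) : Prop :=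
  ∀ g : alternatingGroup (Fin 6), IsThreeCycle (g : Perm (Fin 6)) →
    IsThreeCycle ((φ g : alternatingGroup (Fin 6)) : Perm (Fin 6))

theorem pres_one : Pres 1 := fun _ hg => hg

theorem pres_mul {φ ψ : MulAut (alternatingGroup (Fin 6))} (hφ : Pres φ) (hψ : Pres ψ) :
    Pres (φ * ψ) := fun g hg => hφ _ (hψ g hg)

theorem pres_pow {φ : MulAut (alternatingGroup (Fin 6))} (hφ : Pres φ) (k : ℕ) :
    Pres (φ ^ k) := by
  induction k with
  | zero => rw [pow_zero]; exact pres_one
  | succ k ih => rw [pow_succ]; exact pres_mul ih hφ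

/-- one `3`-cycle mapped to a `3`-cycle suffices. -/
theorem pres_of_one (φ : MulAut (alternatingGroup (Fin 6))) (g₀ : alternatingGroup (Fin 6))
    (h₀ : IsThreeCycle (g₀ : Perm (Fin 6)))
    (h₁ : IsThreeCycle ((φ g₀ : alternatingGroup (Fin 6)) : Perm (Fin 6))) : Pres φ := by
  intro g hg
  have hc : IsConj g₀ g := alternatingGroup.isThreeCycle_isConj (by simp) h₀ hg
  obtain ⟨c, hc⟩ := isConj_iff.mp hc
  have e : φ g = φ c * φ g₀ * (φ c)⁻¹ := by rw [← hc, map_mul, map_mul, map_inv]
  rw [e]
  unfold IsThreeCycle at h₁ ⊢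
  rw [Subgroup.coe_mul, Subgroup.coe_mul, Subgroup.coe_inv, cycleType_conj]
  exact h₁

/-- an element of order three of `A₆` is a `3`-cycle or has cycle type `{3, 3}`. -/
theorem order_three_cases (g : alternatingGroup (Fin 6)) (ho : orderOf g = 3) :
    IsThreeCycle (g : Perm (Fin 6)) ∨ (g : Perm (Fin 6)).cycleType = {3, 3} := by
  have ho' : orderOf (g : Perm (Fin 6)) = 3 := by rw [Subgroup.orderOf_coe]; exact ho
  obtain ⟨k, hk⟩ := cycleType_prime_order (σ := (g : Perm (Fin 6))) (by rw [ho']; norm_num)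
  rw [ho'] at hk
  have hsum := sum_cycleType_le (g : Perm (Fin 6))
  rw [hk, Multiset.sum_replicate, smul_eq_mul] at hsum
  simp only [Fintype.card_fin] at hsum
  have hk' : k = 0 ∨ k = 1 := by omega
  rcases hk' with rfl | rfl
  · left; exact hk
  · right; rw [hk]; rfl

theorem order_three_of_three (φ : MulAut (alternatingGroup (Fin 6)))
    (g : alternatingGroup (Fin 6)) (hg : IsThreeCycle (g : Perm (Fin 6))) : orderOf (φ g) = 3 := by
  rw [MulEquiv.orderOf_eq, ← Subgroup.orderOf_coe, hg.orderOf]

theorem order_three_of_tt (φ : MulAut (alternatingGroup (Fin 6)))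
    (g : alternatingGroup (Fin 6)) (hg : (g : Perm (Fin 6)).cycleType = {3, 3}) :
    orderOf (φ g) = 3 := by
  rw [MulEquiv.orderOf_eq, ← Subgroup.orderOf_coe, ← lcm_cycleType, hg]
  rfl

/-- if `φ` does not preserve `3`-cycles then `φ * φ` does. -/
theorem pres_sq_of_not (φ : MulAut (alternatingGroup (Fin 6))) (hφ : ¬ Pres φ) :
    Pres (φ * φ) := by
  classical
  -- no 3-cycle is mapped to a 3-cycle
  have hno : ∀ g : alternatingGroup (Fin 6), IsThreeCycle (g : Perm (Fin 6)) →
      ((φ g : alternatingGroup (Fin 6)) : Perm (Fin 6)).cycleType = {3, 3} := by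
    intro g hg
    rcases order_three_cases (φ g) (order_three_of_three φ g hg) with h | h
    · exact absurd (pres_of_one φ g hg h) hφ
    · exact h
  set T : Finset (alternatingGroup (Fin 6)) :=
    Finset.univ.filter (fun g => IsThreeCycle (g : Perm (Fin 6))) with hT
  set T' : Finset (alternatingGroup (Fin 6)) :=
    Finset.univ.filter (fun g => (g : Perm (Fin 6)).cycleType = {3, 3}) with hT'
  have hTcard : 40 ≤ T.card := by
    rw [← card_three]
    apply Finset.card_le_card_of_injOn
      (fun σ => if h : σ ∈ alternatingGroup (Fin 6) then ⟨σ, h⟩ else 1)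
    · intro σ hσ
      have hσ' : IsThreeCycle σ := by simpa [IsThreeCycle] using hσ
      have hmem : σ ∈ alternatingGroup (Fin 6) := hσ'.mem_alternatingGroup
      show (if h : σ ∈ alternatingGroup (Fin 6) then (⟨σ, h⟩ : alternatingGroup (Fin 6)) else 1) ∈ (T : Set _)
      rw [dif_pos hmem, hT, Finset.mem_coe, Finset.mem_filter]
      exact ⟨Finset.mem_univ _, hσ'⟩
    · intro σ hσ τ hτ hστ
      have hσ' : IsThreeCycle σ := by simpa [IsThreeCycle] using hσ
      have hτ' : IsThreeCycle τ := by simpa [IsThreeCycle] using hτ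
      simp only [dif_pos hσ'.mem_alternatingGroup, dif_pos hτ'.mem_alternatingGroup] at hστ
      exact congrArg Subtype.val hστ
  have hT'card : T'.card ≤ 40 := by
    rw [← card_three_three]
    apply Finset.card_le_card_of_injOn (fun g : alternatingGroup (Fin 6) => (g : Perm (Fin 6)))
    · intro g hg
      simpa [hT'] using hg
    · intro g _ g' _ h
      exact Subtype.ext h
  have himg : T.image φ = T' := by
    apply Finset.eq_of_subset_of_card_le
    · intro y hy
      obtain ⟨g, hg, rfl⟩ := Finset.mem_image.mp hy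
      rw [hT, Finset.mem_filter] at hg
      rw [hT', Finset.mem_filter]
      exact ⟨Finset.mem_univ _, hno g hg.2⟩
    · rw [Finset.card_image_of_injective _ φ.injective]
      omega
  intro g hg
  show IsThreeCycle ((φ (φ g) : alternatingGroup (Fin 6)) : Perm (Fin 6))
  have h1 := hno g hg
  rcases order_three_cases (φ (φ g)) (order_three_of_tt φ (φ g) h1) with h | h
  · exact h
  · exfalso
    have hmem : φ (φ g) ∈ T' := by
      rw [hT', Finset.mem_filter]; exact ⟨Finset.mem_univ _, h⟩
    rw [← himg] at hmem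
    obtain ⟨t, ht, hte⟩ := Finset.mem_image.mp hmem
    have h2 : t = φ g := φ.injective hte
    rw [hT, Finset.mem_filter] at ht
    have h3 : IsThreeCycle ((φ g : alternatingGroup (Fin 6)) : Perm (Fin 6)) := h2 ▸ ht.2
    unfold IsThreeCycle at h3
    rw [h1] at h3
    exact absurd h3 (by decide)

/-- automorphisms of odd order of `A₆` preserve `3`-cycles. -/
theorem pres_of_odd (φ : MulAut (alternatingGroup (Fin 6))) (hodd : Odd (orderOf φ)) :
    Pres φ := by
  have h2 : Pres (φ * φ) := by
    by_cases h : Pres φ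
    · exact pres_mul h h
    · exact pres_sq_of_not φ h
  obtain ⟨k, hk⟩ := hodd
  have e : φ = (φ * φ) ^ (k + 1) := by
    rw [← pow_two, ← pow_mul]
    have e2 : 2 * (k + 1) = orderOf φ + 1 := by omega
    rw [e2, pow_succ, pow_orderOf_eq_one, one_mul]
  rw [e]
  exact pres_pow h2 _

end Cfsg.Agent.Helper23.AltPQ
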