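import Mathlib
import Cfsg.Agent.Helper14.AutAlt
import Cfsg.Agent.Helper23.AltPQ1
import Cfsg.Agent.Helper23.AltPQ2

set_option autoImplicit false

namespace Cfsg.Agent.Helper23.AltPQ

open Equiv Equiv.Perm

/-- automorphisms of odd order of `A_n`, `n ≥ 5`, are induced by permutations. -/
theorem mem_range_of_odd (n : ℕ) (hn : 5 ≤ n) (φ : MulAut (alternatingGroup (Fin n)))
    (hodd : Odd (orderOf φ)) :
    φ ∈ (MulAut.conjNormal : Perm (Fin n) →* MulAut (alternatingGroup (Fin n))).range := by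
  by_cases h6 : n = 6
  · subst h6
    have hp := pres_of_odd φ hodd
    exact Cfsg.Agent.Helper14.AutAlt.conj_of_pres φ (0 : Fin 6) 1 2 3 (by decide) (by decide)
      (by decide) (by decide) (by decide) (by decide) hp
  · obtain ⟨σ, hσ⟩ := (Cfsg.Agent.Helper14.AutAlt.aut_alt (α := Fin n) (by simp; omega)
      (by simpa using h6)).2 φ
    exact ⟨σ, hσ⟩

theorem sylow_comm (n : ℕ) (hn : 5 ≤ n) (G : Subgroup (MulAut (alternatingGroup (Fin n))))
    (r : ℕ) [hr : Fact r.Prime] (hr2 : r ≠ 2) (hnr : n < r ^ 2) (P : Sylow r G) :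
    IsMulCommutative (P : Subgroup G) := by
  have hinj := Cfsg.Agent.Helper14.AutAlt.conj_inj (α := Fin n) (by simp; omega)
  set P' : Subgroup (MulAut (alternatingGroup (Fin n))) := (P : Subgroup G).map G.subtype
    with hP'
  have hP'p : IsPGroup r P' := P.isPGroup'.map _
  have hQp : IsPGroup r (P'.comap
      (MulAut.conjNormal : Perm (Fin n) →* MulAut (alternatingGroup (Fin n)))) :=
    hP'p.comap_of_injective _ hinj
  have hcomm := pgroup_comm_of_lt_sq hnr _ hQp
  have hodd : ∀ φ ∈ P', Odd (orderOf φ) := by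
    intro φ hφ
    obtain ⟨k, hk⟩ := hP'p ⟨φ, hφ⟩
    have h1 : φ ^ r ^ k = 1 := by
      have h0 := congrArg Subtype.val hk
      simpa using h0
    have h2 : orderOf φ ∣ r ^ k := orderOf_dvd_of_pow_eq_one h1
    obtain ⟨j, -, hj⟩ := (Nat.dvd_prime_pow hr.out).mp h2
    rw [hj]
    exact (hr.out.odd_of_ne_two hr2).pow
  refine ⟨⟨fun a b => ?_⟩⟩
  have ha : ((a : G) : MulAut (alternatingGroup (Fin n))) ∈ P' := ⟨a, a.2, rfl⟩
  have hb : ((b : G) : MulAut (alternatingGroup (Fin n))) ∈ P' := ⟨b, b.2, rfl⟩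
  obtain ⟨σ, hσ⟩ := mem_range_of_odd n hn _ (hodd _ ha)
  obtain ⟨τ, hτ⟩ := mem_range_of_odd n hn _ (hodd _ hb)
  have hσQ : σ ∈ P'.comap
      (MulAut.conjNormal : Perm (Fin n) →* MulAut (alternatingGroup (Fin n))) := by
    rw [Subgroup.mem_comap, hσ]; exact ha
  have hτQ : τ ∈ P'.comap
      (MulAut.conjNormal : Perm (Fin n) →* MulAut (alternatingGroup (Fin n))) := by
    rw [Subgroup.mem_comap, hτ]; exact hb
  have hc := hcomm σ hσQ τ hτQ
  apply Subtype.ext
  apply Subtype.ext
  show ((a : G) : MulAut (alternatingGroup (Fin n))) * ((b : G) : MulAut (alternatingGroup (Fin n)))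
    = ((b : G) : MulAut (alternatingGroup (Fin n))) * ((a : G) : MulAut (alternatingGroup (Fin n)))
  rw [← hσ, ← hτ, ← map_mul, ← map_mul, hc]

theorem main (n : ℕ) (hn : 5 ≤ n) (G : Subgroup (MulAut (alternatingGroup (Fin n))))
    (hG : (MulAut.conj : alternatingGroup (Fin n) →* MulAut (alternatingGroup (Fin n))).range ≤ G)
    (p q : ℕ) [hp : Fact p.Prime] [hq : Fact q.Prime] (hpq : p ≠ q)
    (h : ∀ g : G, orderOf g ≠ p * q) :
    (∀ P : Sylow p G, IsMulCommutative (P : Subgroup G)) ∨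
      (∀ Q : Sylow q G, IsMulCommutative (Q : Subgroup G)) := by
  have hinj := Cfsg.Agent.Helper14.AutAlt.conj_inj (α := Fin n) (by simp; omega)
  have hel : ∀ σ : Perm (Fin n), σ ∈ alternatingGroup (Fin n) → orderOf σ ≠ p * q := by
    intro σ hσ ho
    have hmem : (MulAut.conjNormal σ : MulAut (alternatingGroup (Fin n))) ∈ G := by
      apply hG
      refine ⟨⟨σ, hσ⟩, ?_⟩
      apply MulEquiv.ext
      intro x
      apply Subtype.ext
      simp [MulAut.conjNormal_apply, MulAut.conj_apply]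
    apply h ⟨MulAut.conjNormal σ, hmem⟩
    rw [← Subgroup.orderOf_coe]
    show orderOf (MulAut.conjNormal σ : MulAut (alternatingGroup (Fin n))) = p * q
    rw [orderOf_injective _ hinj σ]; exact ho
  by_contra hcon
  rw [not_or] at hcon
  obtain ⟨hP, hQ⟩ := hcon
  have key : ∀ (r : ℕ) [Fact r.Prime], r ≠ 2 →
      ¬ (∀ P : Sylow r G, IsMulCommutative (P : Subgroup G)) → r * r ≤ n := by
    intro r _ hr2 hnot
    by_contra hlt
    exact hnot (fun P => sylow_comm n hn G r hr2 (by rw [pow_two]; omega) P)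
  rcases eq_or_ne p 2 with rfl | hp2
  · have hq2 : q ≠ 2 := fun e => hpq e.symm
    have h1 := key q hq2 hQ
    have h3 : 3 ≤ q := by have := hq.out.two_le; omega
    have h5 : q * 3 ≤ q * q := Nat.mul_le_mul_left q h3
    have h6 : q + 4 ≤ q * 3 := by omega
    obtain ⟨σ, hσ, ho⟩ := exists_alt_order_two n q hq.out hq2 (le_trans h6 (le_trans h5 h1))
    exact hel σ hσ ho
  · rcases eq_or_ne q 2 with rfl | hq2
    · have h1 := key p hp2 hP
      have h3 : 3 ≤ p := by have := hp.out.two_le; omega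
      have h5 : p * 3 ≤ p * p := Nat.mul_le_mul_left p h3
      have h6 : p + 4 ≤ p * 3 := by omega
      obtain ⟨σ, hσ, ho⟩ := exists_alt_order_two n p hp.out hp2 (le_trans h6 (le_trans h5 h1))
      exact hel σ hσ (by rw [ho, mul_comm])
    · have h1 := key p hp2 hP
      have h2 := key q hq2 hQ
      have h3 : 2 ≤ p := hp.out.two_le
      have h4 : 2 ≤ q := hq.out.two_le
      have hsum : p + q ≤ n := by
        rcases le_total p q with hle | hle
        · have h5 : q * 2 ≤ q * q := Nat.mul_le_mul_left q h4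
          have h6 : p + q ≤ q * 2 := by omega
          exact le_trans h6 (le_trans h5 h2)
        · have h5 : p * 2 ≤ p * p := Nat.mul_le_mul_left p h3
          have h6 : p + q ≤ p * 2 := by omega
          exact le_trans h6 (le_trans h5 h1)
      obtain ⟨σ, hσ, ho⟩ := exists_alt_order_odd n p q hp.out hq.out hpq hp2 hq2 hsum
      exact hel σ hσ ho

end Cfsg.Agent.Helper23.AltPQ
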