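import Mathlib

set_option autoImplicit false

namespace Cfsg.Agent.Helper23.ExcInt

/-- Splitting a finite sum at three distinct points. -/
lemma sum_split3 {I : Type*} [Fintype I] [DecidableEq I] (a b c : I) (hab : a ≠ b) (hac : a ≠ c)
    (hbc : b ≠ c) (f : I → ℤ) :
    ∑ i, f i = f a + f b + f c + ∑ i ∈ ((Finset.univ.erase a).erase b).erase c, f i := by
  have h1 : b ∈ (Finset.univ : Finset I).erase a :=
    Finset.mem_erase.mpr ⟨hab.symm, Finset.mem_univ _⟩
  have h2 : c ∈ ((Finset.univ : Finset I).erase a).erase b :=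
    Finset.mem_erase.mpr ⟨hbc.symm, Finset.mem_erase.mpr ⟨hac.symm, Finset.mem_univ _⟩⟩
  rw [← Finset.add_sum_erase Finset.univ f (Finset.mem_univ a),
    ← Finset.add_sum_erase _ f h1, ← Finset.add_sum_erase _ f h2]
  ring

/-- Splitting a finite sum at two distinct points. -/
lemma sum_split2 {I : Type*} [Fintype I] [DecidableEq I] (a b : I) (hab : a ≠ b) (f : I → ℤ) :
    ∑ i, f i = f a + f b + ∑ i ∈ (Finset.univ.erase a).erase b, f i := by
  have h1 : b ∈ (Finset.univ : Finset I).erase a :=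
    Finset.mem_erase.mpr ⟨hab.symm, Finset.mem_univ _⟩
  rw [← Finset.add_sum_erase Finset.univ f (Finset.mem_univ a),
    ← Finset.add_sum_erase _ f h1]
  ring

/-- The combinatorial core of the theory of exceptional characters for a self-centralising
subgroup of prime order with dihedral normaliser. -/
lemma exc_two {I J : Type*} [Fintype I] [DecidableEq I] (one : I) (d : I → ℤ)
    (hd : ∀ i, 0 < d i) (c : J → I → ℤ) (h1 : ∀ ν, c ν one = 1)
    (hsq : ∀ ν, ∑ i, c ν i ^ 2 = 3) (hpair : ∀ ν ν', 2 ≤ ∑ i, c ν i * c ν' i)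
    (hdeg : ∀ ν, ∑ i, c ν i * d i = 0) (hd1 : d one = 1) (ν0 : J) :
    ∃ X Y : I, X ≠ one ∧ Y ≠ one ∧ d Y = d X + 1 ∧
      ((∀ ν, c ν X = 1) ∨ (∀ ν, c ν Y = -1)) := by
  -- a constituent with negative coefficient
  obtain ⟨Y, hY1, hYneg⟩ : ∃ Y : I, Y ≠ one ∧ c ν0 Y < 0 := by
    by_contra hcon
    push Not at hcon
    have h2 := hdeg ν0
    rw [← Finset.add_sum_erase Finset.univ _ (Finset.mem_univ one), h1, hd1] at h2
    have h3 : 0 ≤ ∑ i ∈ Finset.univ.erase one, c ν0 i * d i := by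
      apply Finset.sum_nonneg
      intro i hi
      exact mul_nonneg (hcon i (Finset.ne_of_mem_erase hi)) (hd i).le
    omega
  have hsq0 := hsq ν0
  rw [sum_split2 one Y hY1.symm, h1] at hsq0
  have hR0 : 0 ≤ ∑ i ∈ (Finset.univ.erase one).erase Y, c ν0 i ^ 2 :=
    Finset.sum_nonneg (fun i _ => sq_nonneg _)
  have hYval : c ν0 Y = -1 := by nlinarith
  rw [hYval] at hsq0
  have hR0' : ∑ i ∈ (Finset.univ.erase one).erase Y, c ν0 i ^ 2 = 1 := by omega
  -- the third constituent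
  obtain ⟨X, hXmem, hXne⟩ : ∃ X ∈ (Finset.univ.erase one).erase Y, c ν0 X ≠ 0 := by
    by_contra hcon
    push Not at hcon
    have : ∑ i ∈ (Finset.univ.erase one).erase Y, c ν0 i ^ 2 = 0 := by
      apply Finset.sum_eq_zero
      intro i hi
      rw [hcon i hi]; ring
    omega
  have hXY : X ≠ Y := Finset.ne_of_mem_erase hXmem
  have hX1 : X ≠ one := Finset.ne_of_mem_erase (Finset.mem_of_mem_erase hXmem)
  have hsq0' := hsq ν0
  rw [sum_split3 one X Y hX1.symm hY1.symm hXY, h1, hYval] at hsq0'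
  have hR : 0 ≤ ∑ i ∈ ((Finset.univ.erase one).erase X).erase Y, c ν0 i ^ 2 :=
    Finset.sum_nonneg (fun i _ => sq_nonneg _)
  have hXsq : c ν0 X ^ 2 = 1 := by
    have : 1 ≤ c ν0 X ^ 2 := by
      rcases lt_or_gt_of_ne hXne with h | h <;> nlinarith
    omega
  have hRz : ∑ i ∈ ((Finset.univ.erase one).erase X).erase Y, c ν0 i ^ 2 = 0 := by omega
  have hzero : ∀ i ∈ ((Finset.univ.erase one).erase X).erase Y, c ν0 i = 0 := by
    intro i hi
    have := (Finset.sum_eq_zero_iff_of_nonneg (fun i _ => sq_nonneg (c ν0 i))).mp hRz i hi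
    exact pow_eq_zero_iff (by norm_num) |>.mp this
  have hdeg0 := hdeg ν0
  rw [sum_split3 one X Y hX1.symm hY1.symm hXY, h1, hYval, hd1,
    Finset.sum_eq_zero (fun i hi => by rw [hzero i hi, zero_mul])] at hdeg0
  have hXval : c ν0 X = 1 := by
    have hX' : c ν0 X = 1 ∨ c ν0 X = -1 := by
      have : (c ν0 X - 1) * (c ν0 X + 1) = 0 := by nlinarith
      rcases mul_eq_zero.mp this with h | h
      · left; omega
      · right; omega
    rcases hX' with h | h
    · exact h
    · rw [h] at hdeg0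
      have := hd X
      have := hd Y
      omega
  rw [hXval] at hdeg0
  refine ⟨X, Y, hX1, hY1, by omega, ?_⟩
  -- coefficients of `X` and `Y` in the other vectors
  have hab : ∀ ν, (c ν X = 1 ∧ c ν Y = 0) ∨ (c ν X = 0 ∧ c ν Y = -1) ∨
      (c ν X = 1 ∧ c ν Y = -1) := by
    intro ν
    have hs := hsq ν
    rw [sum_split3 one X Y hX1.symm hY1.symm hXY, h1] at hs
    have hRν : 0 ≤ ∑ i ∈ ((Finset.univ.erase one).erase X).erase Y, c ν i ^ 2 :=
      Finset.sum_nonneg (fun i _ => sq_nonneg _)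
    have hp := hpair ν ν0
    rw [sum_split3 one X Y hX1.symm hY1.symm hXY, h1, h1, hXval, hYval,
      Finset.sum_eq_zero (fun i hi => by rw [hzero i hi, mul_zero])] at hp
    have ha : c ν X ^ 2 ≤ 2 := by nlinarith [sq_nonneg (c ν Y)]
    have hb : c ν Y ^ 2 ≤ 2 := by nlinarith [sq_nonneg (c ν X)]
    have ha' : -1 ≤ c ν X ∧ c ν X ≤ 1 := by constructor <;> nlinarith
    have hb' : -1 ≤ c ν Y ∧ c ν Y ≤ 1 := by constructor <;> nlinarith
    obtain ⟨ha1, ha2⟩ := ha'
    obtain ⟨hb1, hb2⟩ := hb'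
    generalize c ν X = a at *
    generalize c ν Y = b at *
    interval_cases a <;> interval_cases b <;> simp_all <;> omega
  by_contra hcon
  push Not at hcon
  obtain ⟨⟨ν1, hν1⟩, ⟨ν2, hν2⟩⟩ := hcon
  have h1' : c ν1 X = 0 ∧ c ν1 Y = -1 := by
    rcases hab ν1 with h | h | h
    · exact absurd h.1 hν1
    · exact h
    · exact absurd h.1 hν1
  have h2' : c ν2 X = 1 ∧ c ν2 Y = 0 := by
    rcases hab ν2 with h | h | h
    · exact h
    · exact absurd h.2 hν2
    · exact absurd h.2 hν2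
  have hs1 := hsq ν1
  have hs2 := hsq ν2
  have hp := hpair ν1 ν2
  have hd1' := hdeg ν1
  have hd2' := hdeg ν2
  rw [sum_split3 one X Y hX1.symm hY1.symm hXY, h1, h1'.1, h1'.2] at hs1 hd1'
  rw [sum_split3 one X Y hX1.symm hY1.symm hXY, h1, h2'.1, h2'.2] at hs2 hd2'
  rw [sum_split3 one X Y hX1.symm hY1.symm hXY, h1, h1, h1'.1, h1'.2, h2'.1, h2'.2] at hp
  have hdiff : ∑ i ∈ ((Finset.univ.erase one).erase X).erase Y, (c ν1 i - c ν2 i) ^ 2 ≤ 0 := by
    have e : ∑ i ∈ ((Finset.univ.erase one).erase X).erase Y, (c ν1 i - c ν2 i) ^ 2 =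
        ∑ i ∈ ((Finset.univ.erase one).erase X).erase Y, c ν1 i ^ 2 +
        ∑ i ∈ ((Finset.univ.erase one).erase X).erase Y, c ν2 i ^ 2 -
        2 * ∑ i ∈ ((Finset.univ.erase one).erase X).erase Y, c ν1 i * c ν2 i := by
      rw [Finset.mul_sum, ← Finset.sum_add_distrib, ← Finset.sum_sub_distrib]
      apply Finset.sum_congr rfl
      intro i _
      ring
    rw [e]; omega
  have heq : ∀ i ∈ ((Finset.univ.erase one).erase X).erase Y, c ν1 i = c ν2 i := by
    intro i hi
    have h0 : ∑ i ∈ ((Finset.univ.erase one).erase X).erase Y, (c ν1 i - c ν2 i) ^ 2 = 0 :=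
      le_antisymm hdiff (Finset.sum_nonneg (fun i _ => sq_nonneg _))
    have := (Finset.sum_eq_zero_iff_of_nonneg
      (fun i _ => sq_nonneg (c ν1 i - c ν2 i))).mp h0 i hi
    have := pow_eq_zero_iff (by norm_num) |>.mp this
    omega
  have hsame : ∑ i ∈ ((Finset.univ.erase one).erase X).erase Y, c ν1 i * d i =
      ∑ i ∈ ((Finset.univ.erase one).erase X).erase Y, c ν2 i * d i :=
    Finset.sum_congr rfl (fun i hi => by rw [heq i hi])
  have := hd X
  have := hd Y
  rw [hd1] at hd1' hd2'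
  omega

end Cfsg.Agent.Helper23.ExcInt
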