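import Mathlib
import Cfsg.Agent.Helper2.IndExtra
import Cfsg.Agent.Helper25.CharKer
import Cfsg.Agent.Helper25.CharArith
import Cfsg.Agent.Helper25.CharClass
import Cfsg.Agent.Helper1.Burnside
import Cfsg.Agent.Helper1.CharClass
import Cfsg.Agent.S1018
import Cfsg.Agent.Helper23.ExcInt

set_option autoImplicit false

namespace Cfsg.Agent.Helper23.ExcChar

open Cfsg Cfsg.Agent.Helper2 Cfsg.Agent.Helper25
open scoped ComplexConjugate

universe u

variable {G : Type u} [Group G]

/-- Conjugation by `x⁻¹` on a subgroup normalised by `x`. -/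
def cj (P : Subgroup G) (x : G) (hx : x ∈ Subgroup.normalizer (P : Set G)) : P →* P where
  toFun u := ⟨x⁻¹ * u * x, by
    have h := (Subgroup.mem_normalizer_iff.mp (Subgroup.inv_mem _ hx) u).mp u.2
    rwa [inv_inv] at h⟩
  map_one' := Subtype.ext (by simp)
  map_mul' a b := Subtype.ext (by simp [mul_assoc])

lemma cj_coe (P : Subgroup G) (x : G) (hx : x ∈ Subgroup.normalizer (P : Set G)) (u : P) :
    ((cj P x hx u : P) : G) = x⁻¹ * u * x := rfl

lemma cj_surjective (P : Subgroup G) (x : G) (hx : x ∈ Subgroup.normalizer (P : Set G)) :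
    Function.Surjective (cj P x hx) := by
  intro v
  refine ⟨⟨x * v * x⁻¹, (Subgroup.mem_normalizer_iff.mp hx v).mp v.2⟩, Subtype.ext ?_⟩
  rw [cj_coe]
  group

/-- The values on `P` of a function induced from a subgroup `P` of prime order. -/
lemma indFun_apply_mem [Fintype G] (P : Subgroup G)
    [Fintype (Subgroup.normalizer (P : Set G))] (p : ℕ) (hp : p.Prime)
    (hP : Nat.card P = p) (φ : P → ℂ) (hφ : φ 1 = 0) (u : P) :
    indFun P φ u = (Nat.card P : ℂ)⁻¹ *
      ∑ x : Subgroup.normalizer (P : Set G), φ (cj P x x.2 u) := by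
  classical
  rw [indFun_apply]
  congr 1
  rw [← sum_extendByZero (Subgroup.normalizer (P : Set G)) (fun x => φ (cj P x x.2 u))]
  apply Finset.sum_congr rfl
  intro x _
  by_cases hx : x ∈ Subgroup.normalizer (P : Set G)
  · rw [extendByZero_of_mem _ _ hx]
    have hmem : x⁻¹ * (u : G) * x ∈ P := (cj P x hx u).2
    rw [extendByZero_of_mem _ _ hmem]
    rfl
  · rw [extendByZero_of_not_mem _ _ hx]
    by_cases hmem : x⁻¹ * (u : G) * x ∈ P
    · have hu1 : (u : G) = 1 := by
        by_contra hne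
        apply hx
        have h1 := S1018.conj_mem_normalizer hp hP u.2 hne (c := x⁻¹) (by rwa [inv_inv])
        simpa using Subgroup.inv_mem _ h1
      rw [extendByZero_of_mem _ _ hmem]
      have h2 : (⟨x⁻¹ * (u : G) * x, hmem⟩ : P) = 1 := by
        apply Subtype.ext
        show x⁻¹ * (u : G) * x = 1
        rw [hu1]; simp
      rw [h2, hφ]
    · rw [extendByZero_of_not_mem _ _ hmem]

/-- The inner product of two functions induced from a subgroup of prime order. -/
lemma classInner_indFun_indFun [Fintype G] (P : Subgroup G) [Fintype P]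
    [Fintype (Subgroup.normalizer (P : Set G))] (p : ℕ) (hp : p.Prime)
    (hP : Nat.card P = p) (φ φ' : P → ℂ) (hφ' : φ' 1 = 0) :
    classInner (indFun P φ) (indFun P φ') = (Nat.card P : ℂ)⁻¹ *
      ∑ x : Subgroup.normalizer (P : Set G),
        classInner φ (fun u => φ' (cj P x x.2 u)) := by
  rw [frobenius_reciprocity P φ _ (indFun_isClassFunction P φ')]
  unfold classInner
  simp_rw [indFun_apply_mem P p hp hP φ' hφ']
  simp only [map_mul, map_sum, map_inv₀, Complex.conj_natCast, Finset.mul_sum]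
  rw [Finset.sum_comm]
  apply Finset.sum_congr rfl
  intro x _
  apply Finset.sum_congr rfl
  intro u _
  ring

/-- The trivial irreducible character. -/
noncomputable def triv (H : Type u) [Group H] : IrrCharacter H :=
  ⟨fun _ => 1, Helper1.isIrrCharacter_one H⟩

lemma triv_apply (H : Type u) [Group H] (h : H) : (triv H : H → ℂ) h = 1 := rfl

/-- The irreducible characters of a finite commutative group are linear, and there are as
many of them as group elements. -/
lemma irr_of_comm (P : Type u) [Group P] [Finite P] (hcomm : ∀ a b : P, a * b = b * a) :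
    Nat.card (IrrCharacter P) = Nat.card P ∧ ∀ ν : IrrCharacter P, (ν : P → ℂ) 1 = 1 := by
  classical
  letI := Fintype.ofFinite P
  have h1 := Helper25.sum_irr_degree_sq_nat (G := P)
  have h2 : Nat.card (IrrCharacter P) = Nat.card P := by
    rw [Helper1.card_irr]
    have h4 := card_comm_eq_card_conjClasses_mul_card P
    have h5 : Nat.card {p : P × P // Commute p.1 p.2} = Nat.card P * Nat.card P := by
      rw [← Nat.card_prod]
      exact Nat.card_congr (Equiv.subtypeUnivEquiv (fun p => hcomm p.1 p.2))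
    rw [h5] at h4
    exact (Nat.eq_of_mul_eq_mul_right Nat.card_pos h4).symm
  refine ⟨h2, ?_⟩
  have h3 : ∑ χ : IrrCharacter P, 1 = ∑ χ : IrrCharacter P, charDegree (χ : P → ℂ) ^ 2 := by
    rw [h1, Finset.sum_const, Finset.card_univ, smul_eq_mul, mul_one,
      ← Nat.card_eq_fintype_card, h2]
  have hle : ∀ χ ∈ (Finset.univ : Finset (IrrCharacter P)), 1 ≤ charDegree (χ : P → ℂ) ^ 2 := by
    intro χ _
    have := irr_degree_pos χ
    nlinarith
  intro ν
  have h4 := (Finset.sum_eq_sum_iff_of_le hle).mp h3 ν (Finset.mem_univ _)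
  have h5 : charDegree (ν : P → ℂ) = 1 := by
    have := irr_degree_pos ν
    nlinarith
  rw [irr_one_eq_degree, h5, Nat.cast_one]

/-- A nontrivial irreducible character of a group of prime order is faithful. -/
lemma irr_faithful_of_prime_card (P : Type u) [Group P] [Finite P] (p : ℕ) [Fact p.Prime]
    (hP : Nat.card P = p) (ν : IrrCharacter P) (hν1 : (ν : P → ℂ) 1 = 1) (hν : ν ≠ triv P)
    (w : P) (hw : (ν : P → ℂ) w = 1) : w = 1 := by
  by_contra hne
  apply hν
  apply Subtype.ext
  funext v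
  obtain ⟨n, rfl⟩ := mem_powers_of_prime_card hP hne (g' := v)
  have h1 : (ν : P → ℂ) (w ^ n) = (linHom ν hν1) (w ^ n) := rfl
  rw [h1, map_pow]
  have h2 : (linHom ν hν1) w = 1 := hw
  rw [h2, one_pow]
  rfl

/-- **Exceptional characters for a dihedral Sylow normaliser.**  Let `P` be a subgroup of prime
order `p` of a finite group `G` which is its own centraliser and has index two in its
normaliser.  Then `G` has nontrivial irreducible characters `X`, `Y` with
`Y(1) = X(1) + 1` and either `X(1) ≡ 1` or `Y(1) ≡ -1` modulo `p`. -/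
theorem exc_two_degrees {G : Type u} [Group G] [Finite G] (p : ℕ) (hp : p.Prime)
    (P : Subgroup G) (hP : Nat.card P = p)
    (hC : Subgroup.centralizer (P : Set G) = P)
    (hN : Nat.card (Subgroup.normalizer (P : Set G)) = 2 * p) :
    ∃ X Y : IrrCharacter G, X ≠ triv G ∧ Y ≠ triv G ∧
      charDegree (Y : G → ℂ) = charDegree (X : G → ℂ) + 1 ∧
      (charDegree (X : G → ℂ) % p = 1 ∨ charDegree (Y : G → ℂ) % p = p - 1) := by
  classical
  haveI : Fintype G := Fintype.ofFinite G
  haveI : Fintype P := Fintype.ofFinite P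
  haveI : Fintype (Subgroup.normalizer (P : Set G)) := Fintype.ofFinite _
  haveI : Fact p.Prime := ⟨hp⟩
  have hPcomm : ∀ a b : P, a * b = b * a := by
    haveI : IsCyclic P := isCyclic_of_prime_card hP
    intro a b
    exact mul_comm' a b
  obtain ⟨hcardIrr, hlin⟩ := irr_of_comm P hPcomm
  rw [hP] at hcardIrr
  have hPN : P ≤ Subgroup.normalizer (P : Set G) := Subgroup.le_normalizer
  have hcP : (Nat.card P : ℂ) ≠ 0 := by rw [hP]; exact_mod_cast hp.ne_zero
  -- multiplicities of the irreducible characters of `P` in restrictions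
  have hm : ∀ (ψ : IrrCharacter G) (ν : IrrCharacter P), ∃ m : ℕ,
      classInner (fun u : P => (ψ : G → ℂ) u) (ν : P → ℂ) = (m : ℂ) :=
    fun ψ ν => classInner_char_nat (isCharacter_restrict P (irr_isCharacter ψ))
      (irr_isCharacter ν)
  choose m hm using hm
  -- the degree is the sum of the multiplicities
  have hdegsum : ∀ ψ : IrrCharacter G,
      charDegree (ψ : G → ℂ) = ∑ ν : IrrCharacter P, m ψ ν := by
    intro ψ
    have h1 := classFun_eq_sum_classInner (G := P) (θ := fun u : P => (ψ : G → ℂ) u)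
      (isClassFunction_of_isCharacter (isCharacter_restrict P (irr_isCharacter ψ)))
    have h2 := congrFun h1 1
    rw [Finset.sum_apply] at h2
    simp only [Pi.smul_apply, smul_eq_mul, hm, hlin, mul_one] at h2
    have h3 : (ψ : G → ℂ) ((1 : P) : G) = (charDegree (ψ : G → ℂ) : ℂ) := irr_one_eq_degree ψ
    rw [h3, ← Nat.cast_sum] at h2
    exact_mod_cast h2
  -- the induced class functions and their coefficients
  obtain ⟨Φ, hΦ⟩ : ∃ Φ : IrrCharacter P → G → ℂ,
      ∀ ν, Φ ν = indFun P ((triv P : P → ℂ) - (ν : P → ℂ)) := ⟨_, fun _ => rfl⟩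
  obtain ⟨c, hc⟩ : ∃ c : IrrCharacter P → IrrCharacter G → ℤ,
      ∀ ν ψ, c ν ψ = (m ψ (triv P) : ℤ) - (m ψ ν : ℤ) := ⟨_, fun _ _ => rfl⟩
  have hΦcl : ∀ ν, IsClassFunction G (Φ ν) := fun ν => by
    rw [hΦ]; exact indFun_isClassFunction P _
  have hcoef : ∀ (ν : IrrCharacter P) (ψ : IrrCharacter G),
      classInner (Φ ν) (ψ : G → ℂ) = ((c ν ψ : ℤ) : ℂ) := by
    intro ν ψ
    rw [hΦ, frobenius_reciprocity P _ _ (isClassFunction_of_isCharacter (irr_isCharacter ψ)),
      classInner_sub_left, classInner_conj_symm (fun u : P => (ψ : G → ℂ) u) (triv P : P → ℂ),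
      classInner_conj_symm (fun u : P => (ψ : G → ℂ) u) (ν : P → ℂ), hm, hm, hc]
    simp
  have hparseval : ∀ ν ν', classInner (Φ ν) (Φ ν') =
      ((∑ ψ : IrrCharacter G, c ν ψ * c ν' ψ : ℤ) : ℂ) := by
    intro ν ν'
    rw [classInner_eq_sum_mul (hΦcl ν) (Φ ν'), Int.cast_sum]
    apply Finset.sum_congr rfl
    intro ψ _
    rw [hcoef, hcoef]
    simp
  -- twisting a character of `P` by an element of the normaliser
  obtain ⟨tw, htw⟩ : ∃ tw : IrrCharacter P → Subgroup.normalizer (P : Set G) → IrrCharacter P,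
      ∀ ν x u, (tw ν x : P → ℂ) u = (ν : P → ℂ) (cj P x x.2 u) :=
    ⟨fun ν x => ⟨fun u => (ν : P → ℂ) (cj P x x.2 u),
      isIrrCharacter_comp_of_surjective (cj P x x.2) (cj_surjective P x x.2) ν.2⟩,
      fun _ _ _ => rfl⟩
  have htw_ne : ∀ ν x, ν ≠ triv P → tw ν x ≠ triv P := by
    intro ν x hν h
    apply hν
    apply Subtype.ext
    funext v
    obtain ⟨u, rfl⟩ := cj_surjective P x x.2 v
    rw [← htw, h]
    rfl
  -- inner products of the induced class functions
  have hinner : ∀ ν ν', ν ≠ triv P → ν' ≠ triv P → classInner (Φ ν) (Φ ν') =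
      (Nat.card P : ℂ)⁻¹ * ∑ x : Subgroup.normalizer (P : Set G),
        (1 + if ν = tw ν' x then (1 : ℂ) else 0) := by
    intro ν ν' hν hν'
    rw [hΦ, hΦ, classInner_indFun_indFun P p hp hP _ _ (by
      rw [Pi.sub_apply, triv_apply, hlin, sub_self])]
    congr 1
    apply Finset.sum_congr rfl
    intro x _
    have e : (fun u : P => ((triv P : P → ℂ) - (ν' : P → ℂ)) (cj P x x.2 u)) =
        (triv P : P → ℂ) - (tw ν' x : P → ℂ) := by
      funext u
      rw [Pi.sub_apply, Pi.sub_apply, htw, triv_apply, triv_apply]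
    rw [e, classInner_sub_left, classInner_sub_right, classInner_sub_right,
      classInner_irr_irr, classInner_irr_irr, classInner_irr_irr, classInner_irr_irr,
      if_pos rfl, if_neg (htw_ne ν' x hν').symm, if_neg hν]
    ring
  -- inner products in terms of the coefficients
  have hinner' : ∀ ν ν', ν ≠ triv P → ν' ≠ triv P →
      (p : ℤ) * (∑ ψ : IrrCharacter G, c ν ψ * c ν' ψ) = 2 * (p : ℤ) + ((Finset.univ.filter
          (fun x : Subgroup.normalizer (P : Set G) => ν = tw ν' x)).card : ℤ) := by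
    intro ν ν' hν hν'
    have h1 := hinner ν ν' hν hν'
    rw [hparseval, Finset.sum_add_distrib, Finset.sum_const, Finset.card_univ,
      ← Nat.card_eq_fintype_card, hN, hP, Finset.sum_boole] at h1
    have h2 : ((p : ℂ)) * ((∑ ψ : IrrCharacter G, c ν ψ * c ν' ψ : ℤ) : ℂ) =
        ((2 * p : ℕ) : ℂ) + ((Finset.univ.filter
          (fun x : Subgroup.normalizer (P : Set G) => ν = tw ν' x)).card : ℂ) := by
      rw [h1]
      have hp0 : (p : ℂ) ≠ 0 := by exact_mod_cast hp.ne_zero
      field_simp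
      simp
    have h3 : (p : ℤ) * (∑ ψ : IrrCharacter G, c ν ψ * c ν' ψ) =
        ((2 * p : ℕ) : ℤ) + ((Finset.univ.filter
          (fun x : Subgroup.normalizer (P : Set G) => ν = tw ν' x)).card : ℤ) := by
      exact_mod_cast h2
    push_cast at h3
    exact h3
  have hp0 : (0 : ℤ) < p := by exact_mod_cast hp.pos
  -- every pair has inner product at least 2
  have hpair : ∀ ν ν', ν ≠ triv P → ν' ≠ triv P →
      2 ≤ ∑ ψ : IrrCharacter G, c ν ψ * c ν' ψ := by
    intro ν ν' hν hν'
    have h3 := hinner' ν ν' hν hν'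
    nlinarith
  -- the stabiliser of a nontrivial character is `P`
  have htw_iff : ∀ ν, ν ≠ triv P → ∀ x : Subgroup.normalizer (P : Set G),
      ν = tw ν x ↔ (x : G) ∈ P := by
    intro ν hν x
    constructor
    · intro h
      have hxC : (x : G) ∈ Subgroup.centralizer (P : Set G) := by
        rw [Subgroup.mem_centralizer_iff]
        intro u hu
        have h1 : (ν : P → ℂ) (cj P x x.2 ⟨u, hu⟩ * (⟨u, hu⟩ : P)⁻¹) = 1 := by
          have h2 : (ν : P → ℂ) (cj P x x.2 ⟨u, hu⟩ * (⟨u, hu⟩ : P)⁻¹) =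
              (linHom ν (hlin ν)) (cj P x x.2 ⟨u, hu⟩ * (⟨u, hu⟩ : P)⁻¹) := rfl
          rw [h2, map_mul]
          have h3 : (linHom ν (hlin ν)) (cj P x x.2 ⟨u, hu⟩) = (tw ν x : P → ℂ) ⟨u, hu⟩ :=
            (htw ν x ⟨u, hu⟩).symm
          rw [h3, ← h]
          have h4 : (ν : P → ℂ) ⟨u, hu⟩ = (linHom ν (hlin ν)) ⟨u, hu⟩ := rfl
          rw [h4, ← map_mul, mul_inv_cancel, map_one]
        have h5 := irr_faithful_of_prime_card P p hP ν (hlin ν) hν _ h1
        have h6 : cj P x x.2 ⟨u, hu⟩ = ⟨u, hu⟩ := mul_inv_eq_one.mp h5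
        have h7 : (x : G)⁻¹ * u * x = u := congrArg Subtype.val h6
        calc u * (x : G) = x * ((x : G)⁻¹ * u * x) := by group
          _ = x * u := by rw [h7]
      rw [hC] at hxC
      exact hxC
    · intro hx
      apply Subtype.ext
      funext u
      rw [htw]
      have h9 : cj P x x.2 u = u := by
        apply Subtype.ext
        rw [cj_coe]
        have h8 : (x : G) * u = u * x := congrArg Subtype.val (hPcomm ⟨x, hx⟩ u)
        calc (x : G)⁻¹ * u * x = (x : G)⁻¹ * (u * x) := by group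
          _ = (x : G)⁻¹ * ((x : G) * u) := by rw [h8]
          _ = u := by group
      rw [h9]
  have hcount : (Finset.univ.filter
      (fun x : Subgroup.normalizer (P : Set G) => (x : G) ∈ P)).card = p := by
    rw [← hP]
    have e : Nat.card (P.subgroupOf (Subgroup.normalizer (P : Set G))) = Nat.card P :=
      Nat.card_congr (Subgroup.subgroupOfEquivOfLe hPN).toEquiv
    rw [← e, Nat.card_eq_fintype_card]
    exact (Fintype.card_of_subtype _ (fun x => by simp [Subgroup.mem_subgroupOf])).symm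
  -- norms
  have hnorm : ∀ ν, ν ≠ triv P → ∑ ψ : IrrCharacter G, c ν ψ ^ 2 = 3 := by
    intro ν hν
    have h3 := hinner' ν ν hν hν
    rw [Finset.filter_congr (fun x _ => htw_iff ν hν x), hcount] at h3
    have h4 : ∑ ψ : IrrCharacter G, c ν ψ ^ 2 = ∑ ψ : IrrCharacter G, c ν ψ * c ν ψ :=
      Finset.sum_congr rfl (fun ψ _ => by ring)
    rw [h4]
    nlinarith
  -- degrees
  have hdeg : ∀ ν, ν ≠ triv P →
      ∑ ψ : IrrCharacter G, c ν ψ * (charDegree (ψ : G → ℂ) : ℤ) = 0 := by
    intro ν hν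
    have h1 := classFun_eq_sum_classInner (hΦcl ν)
    have h2 := congrFun h1 1
    rw [Finset.sum_apply] at h2
    simp only [Pi.smul_apply, smul_eq_mul, hcoef, irr_one_eq_degree] at h2
    have h3 : Φ ν 1 = 0 := by
      rw [hΦ, indFun_one_apply, Pi.sub_apply, triv_apply, hlin, sub_self, mul_zero]
    rw [h3] at h2
    exact_mod_cast h2.symm
  -- the trivial character
  have hone : ∀ ν, ν ≠ triv P → c ν (triv G) = 1 := by
    intro ν hν
    have e1 : (m (triv G) (triv P) : ℂ) = 1 := by
      rw [← hm]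
      exact (classInner_irr_irr (triv P) (triv P)).trans (if_pos rfl)
    have e2 : (m (triv G) ν : ℂ) = 0 := by
      rw [← hm]
      exact (classInner_irr_irr (triv P) ν).trans (if_neg hν.symm)
    have e1' : m (triv G) (triv P) = 1 := by exact_mod_cast e1
    have e2' : m (triv G) ν = 0 := by exact_mod_cast e2
    rw [hc, e1', e2']
    simp
  have hd1 : (charDegree (triv G : G → ℂ) : ℤ) = 1 := by
    have h1 := irr_one_eq_degree (triv G)
    rw [triv_apply] at h1
    exact_mod_cast h1.symm
  -- a nontrivial character of `P`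
  obtain ⟨ν0, hν0⟩ : ∃ ν0 : IrrCharacter P, ν0 ≠ triv P := by
    apply Fintype.exists_ne_of_one_lt_card
    rw [← Nat.card_eq_fintype_card, hcardIrr]
    exact hp.one_lt
  obtain ⟨X, Y, hX, hY, hXY, halt⟩ := ExcInt.exc_two
    (I := IrrCharacter G) (J := {ν : IrrCharacter P // ν ≠ triv P}) (triv G)
    (fun ψ => (charDegree (ψ : G → ℂ) : ℤ))
    (fun ψ => by exact_mod_cast irr_degree_pos ψ) (fun ν ψ => c ν.1 ψ)
    (fun ν => hone ν.1 ν.2) (fun ν => hnorm ν.1 ν.2) (fun ν ν' => hpair ν.1 ν'.1 ν.2 ν'.2)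
    (fun ν => hdeg ν.1 ν.2) hd1 ⟨ν0, hν0⟩
  refine ⟨X, Y, hX, hY, by exact_mod_cast hXY, ?_⟩
  have hcardErase : ((Finset.univ : Finset (IrrCharacter P)).erase (triv P)).card = p - 1 := by
    rw [Finset.card_erase_of_mem (Finset.mem_univ _), Finset.card_univ,
      ← Nat.card_eq_fintype_card, hcardIrr]
  rcases halt with h | h
  · left
    have h1 : ∀ ν ∈ (Finset.univ : Finset (IrrCharacter P)).erase (triv P),
        m X ν = m X (triv P) - 1 := by
      intro ν hν
      have h2 : c ν X = 1 := h ⟨ν, Finset.ne_of_mem_erase hν⟩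
      rw [hc] at h2
      omega
    have hpos : 1 ≤ m X (triv P) := by
      have h2 : c ν0 X = 1 := h ⟨ν0, hν0⟩
      rw [hc] at h2
      omega
    rw [hdegsum X, ← Finset.add_sum_erase Finset.univ _ (Finset.mem_univ (triv P)),
      Finset.sum_congr rfl h1, Finset.sum_const, hcardErase, smul_eq_mul]
    obtain ⟨M, hM⟩ : ∃ M, m X (triv P) = M + 1 := ⟨m X (triv P) - 1, by omega⟩
    obtain ⟨q, hq⟩ : ∃ q, p = q + 1 := ⟨p - 1, by have := hp.pos; omega⟩
    rw [hM]
    have e : M + 1 + (p - 1) * (M + 1 - 1) = p * M + 1 := by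
      subst hq
      simp only [Nat.add_sub_cancel]
      ring
    rw [e, Nat.mul_add_mod, Nat.mod_eq_of_lt hp.one_lt]
  · right
    have h1 : ∀ ν ∈ (Finset.univ : Finset (IrrCharacter P)).erase (triv P),
        m Y ν = m Y (triv P) + 1 := by
      intro ν hν
      have h2 : c ν Y = -1 := h ⟨ν, Finset.ne_of_mem_erase hν⟩
      rw [hc] at h2
      omega
    rw [hdegsum Y, ← Finset.add_sum_erase Finset.univ _ (Finset.mem_univ (triv P)),
      Finset.sum_congr rfl h1, Finset.sum_const, hcardErase, smul_eq_mul]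
    obtain ⟨q, hq⟩ : ∃ q, p = q + 1 := ⟨p - 1, by have := hp.pos; omega⟩
    have e : m Y (triv P) + (p - 1) * (m Y (triv P) + 1) = p * m Y (triv P) + (p - 1) := by
      subst hq
      simp only [Nat.add_sub_cancel]
      ring
    rw [e, Nat.mul_add_mod, Nat.mod_eq_of_lt (by have := hp.pos; omega)]

end Cfsg.Agent.Helper23.ExcChar
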