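import Mathlib
import Cfsg.Agent.Helper23.ExcChar

set_option autoImplicit false

namespace Cfsg.Agent.Helper23.ExcGen

open Cfsg Cfsg.Agent.Helper2 Cfsg.Agent.Helper25 Cfsg.Agent.Helper23.ExcChar
open scoped ComplexConjugate

universe u

/-- **Exceptional characters, general form.**  Let `P` be a self-centralising subgroup of prime
order `p` of a finite group `G`, of index `e` in its normaliser.  Then there is a family of
`p - 1` integer vectors `c ν`, indexed by the nontrivial irreducible characters of `P` (the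
coefficients of the virtual characters induced from `1 - ν`), with the following properties:
the coefficient of the trivial character is `1`; each vector has norm `e + 1`; two of them are
equal or have inner product `e`; each is orthogonal to the degree vector; every degree is
congruent to minus the sum of its coefficients modulo `p`; and each vector occurs exactly `e`
times in the family. -/
theorem exc_family {G : Type u} [Group G] [Finite G] (p e : ℕ) (hp : p.Prime)
    (P : Subgroup G) (hP : Nat.card P = p)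
    (hC : Subgroup.centralizer (P : Set G) = P)
    (hN : Nat.card (Subgroup.normalizer (P : Set G)) = e * p) :
    ∃ (J : Type u) (_ : Fintype J) (c : J → IrrCharacter G → ℤ),
      Fintype.card J = p - 1 ∧
      (∀ ν, c ν (triv G) = 1) ∧
      (∀ ν, ∑ ψ : IrrCharacter G, c ν ψ ^ 2 = (e : ℤ) + 1) ∧
      (∀ ν ν', ∑ ψ : IrrCharacter G, c ν ψ * c ν' ψ = (e : ℤ) ∨ c ν = c ν') ∧
      (∀ ν, ∑ ψ : IrrCharacter G, c ν ψ * (charDegree (ψ : G → ℂ) : ℤ) = 0) ∧
      (∀ ψ : IrrCharacter G, ∃ M : ℤ,
        (charDegree (ψ : G → ℂ) : ℤ) = (p : ℤ) * M - ∑ ν, c ν ψ) ∧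
      (∀ ν0, Nat.card {ν : J // c ν = c ν0} = e) := by
  classical
  haveI : Fintype G := Fintype.ofFinite G
  haveI : Fintype P := Fintype.ofFinite P
  haveI : Fintype (Subgroup.normalizer (P : Set G)) := Fintype.ofFinite _
  haveI : Fact p.Prime := ⟨hp⟩
  have hPcomm : ∀ a b : P, a * b = b * a := by
    haveI : IsCyclic P := isCyclic_of_prime_card hP
    intro a b
    exact mul_comm' a b
  obtain ⟨hcardIrr, hlin⟩ := irr_of_comm P hPcomm
  rw [hP] at hcardIrr
  have hPN : P ≤ Subgroup.normalizer (P : Set G) := Subgroup.le_normalizer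
  have hcP : (Nat.card P : ℂ) ≠ 0 := by rw [hP]; exact_mod_cast hp.ne_zero
  -- multiplicities of the irreducible characters of `P` in restrictions
  have hm : ∀ (ψ : IrrCharacter G) (ν : IrrCharacter P), ∃ m : ℕ,
      classInner (fun u : P => (ψ : G → ℂ) u) (ν : P → ℂ) = (m : ℂ) :=
    fun ψ ν => classInner_char_nat (isCharacter_restrict P (irr_isCharacter ψ))
      (irr_isCharacter ν)
  choose m hm using hm
  -- the degree is the sum of the multiplicities
  have hdegsum : ∀ ψ : IrrCharacter G,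
      charDegree (ψ : G → ℂ) = ∑ ν : IrrCharacter P, m ψ ν := by
    intro ψ
    have h1 := classFun_eq_sum_classInner (G := P) (θ := fun u : P => (ψ : G → ℂ) u)
      (isClassFunction_of_isCharacter (isCharacter_restrict P (irr_isCharacter ψ)))
    have h2 := congrFun h1 1
    rw [Finset.sum_apply] at h2
    simp only [Pi.smul_apply, smul_eq_mul, hm, hlin, mul_one] at h2
    have h3 : (ψ : G → ℂ) ((1 : P) : G) = (charDegree (ψ : G → ℂ) : ℂ) := irr_one_eq_degree ψ
    rw [h3, ← Nat.cast_sum] at h2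
    exact_mod_cast h2
  -- the induced class functions and their coefficients
  obtain ⟨Φ, hΦ⟩ : ∃ Φ : IrrCharacter P → G → ℂ,
      ∀ ν, Φ ν = indFun P ((triv P : P → ℂ) - (ν : P → ℂ)) := ⟨_, fun _ => rfl⟩
  obtain ⟨c, hc⟩ : ∃ c : IrrCharacter P → IrrCharacter G → ℤ,
      ∀ ν ψ, c ν ψ = (m ψ (triv P) : ℤ) - (m ψ ν : ℤ) := ⟨_, fun _ _ => rfl⟩
  have hΦcl : ∀ ν, IsClassFunction G (Φ ν) := fun ν => by
    rw [hΦ]; exact indFun_isClassFunction P _
  have hcoef : ∀ (ν : IrrCharacter P) (ψ : IrrCharacter G),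
      classInner (Φ ν) (ψ : G → ℂ) = ((c ν ψ : ℤ) : ℂ) := by
    intro ν ψ
    rw [hΦ, frobenius_reciprocity P _ _ (isClassFunction_of_isCharacter (irr_isCharacter ψ)),
      classInner_sub_left, classInner_conj_symm (fun u : P => (ψ : G → ℂ) u) (triv P : P → ℂ),
      classInner_conj_symm (fun u : P => (ψ : G → ℂ) u) (ν : P → ℂ), hm, hm, hc]
    simp
  have hparseval : ∀ ν ν', classInner (Φ ν) (Φ ν') =
      ((∑ ψ : IrrCharacter G, c ν ψ * c ν' ψ : ℤ) : ℂ) := by
    intro ν ν'
    rw [classInner_eq_sum_mul (hΦcl ν) (Φ ν'), Int.cast_sum]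
    apply Finset.sum_congr rfl
    intro ψ _
    rw [hcoef, hcoef]
    simp
  -- twisting a character of `P` by an element of the normaliser
  obtain ⟨tw, htw⟩ : ∃ tw : IrrCharacter P → Subgroup.normalizer (P : Set G) → IrrCharacter P,
      ∀ ν x u, (tw ν x : P → ℂ) u = (ν : P → ℂ) (cj P x x.2 u) :=
    ⟨fun ν x => ⟨fun u => (ν : P → ℂ) (cj P x x.2 u),
      isIrrCharacter_comp_of_surjective (cj P x x.2) (cj_surjective P x x.2) ν.2⟩,
      fun _ _ _ => rfl⟩
  have htw_ne : ∀ ν x, ν ≠ triv P → tw ν x ≠ triv P := by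
    intro ν x hν h
    apply hν
    apply Subtype.ext
    funext v
    obtain ⟨u, rfl⟩ := cj_surjective P x x.2 v
    rw [← htw, h]
    rfl
  -- inner products of the induced class functions
  have hinner : ∀ ν ν', ν ≠ triv P → ν' ≠ triv P → classInner (Φ ν) (Φ ν') =
      (Nat.card P : ℂ)⁻¹ * ∑ x : Subgroup.normalizer (P : Set G),
        (1 + if ν = tw ν' x then (1 : ℂ) else 0) := by
    intro ν ν' hν hν'
    rw [hΦ, hΦ, classInner_indFun_indFun P p hp hP _ _ (by
      rw [Pi.sub_apply, triv_apply, hlin, sub_self])]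
    congr 1
    apply Finset.sum_congr rfl
    intro x _
    have e : (fun u : P => ((triv P : P → ℂ) - (ν' : P → ℂ)) (cj P x x.2 u)) =
        (triv P : P → ℂ) - (tw ν' x : P → ℂ) := by
      funext u
      rw [Pi.sub_apply, Pi.sub_apply, htw, triv_apply, triv_apply]
    rw [e, classInner_sub_left, classInner_sub_right, classInner_sub_right,
      classInner_irr_irr, classInner_irr_irr, classInner_irr_irr, classInner_irr_irr,
      if_pos rfl, if_neg (htw_ne ν' x hν').symm, if_neg hν]
    ring
  -- inner products in terms of the coefficients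
  have hinner' : ∀ ν ν', ν ≠ triv P → ν' ≠ triv P →
      (p : ℤ) * (∑ ψ : IrrCharacter G, c ν ψ * c ν' ψ) = (e : ℤ) * (p : ℤ) + ((Finset.univ.filter
          (fun x : Subgroup.normalizer (P : Set G) => ν = tw ν' x)).card : ℤ) := by
    intro ν ν' hν hν'
    have h1 := hinner ν ν' hν hν'
    rw [hparseval, Finset.sum_add_distrib, Finset.sum_const, Finset.card_univ,
      ← Nat.card_eq_fintype_card, hN, hP, Finset.sum_boole] at h1
    have h2 : ((p : ℂ)) * ((∑ ψ : IrrCharacter G, c ν ψ * c ν' ψ : ℤ) : ℂ) =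
        ((e * p : ℕ) : ℂ) + ((Finset.univ.filter
          (fun x : Subgroup.normalizer (P : Set G) => ν = tw ν' x)).card : ℂ) := by
      rw [h1]
      have hp0 : (p : ℂ) ≠ 0 := by exact_mod_cast hp.ne_zero
      field_simp
      simp
    have h3 : (p : ℤ) * (∑ ψ : IrrCharacter G, c ν ψ * c ν' ψ) =
        ((e * p : ℕ) : ℤ) + ((Finset.univ.filter
          (fun x : Subgroup.normalizer (P : Set G) => ν = tw ν' x)).card : ℤ) := by
      exact_mod_cast h2
    push_cast at h3
    exact h3
  -- the stabiliser of a nontrivial character is `P`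
  have htw_iff : ∀ ν, ν ≠ triv P → ∀ x : Subgroup.normalizer (P : Set G),
      ν = tw ν x ↔ (x : G) ∈ P := by
    intro ν hν x
    constructor
    · intro h
      have hxC : (x : G) ∈ Subgroup.centralizer (P : Set G) := by
        rw [Subgroup.mem_centralizer_iff]
        intro u hu
        have h1 : (ν : P → ℂ) (cj P x x.2 ⟨u, hu⟩ * (⟨u, hu⟩ : P)⁻¹) = 1 := by
          have h2 : (ν : P → ℂ) (cj P x x.2 ⟨u, hu⟩ * (⟨u, hu⟩ : P)⁻¹) =
              (linHom ν (hlin ν)) (cj P x x.2 ⟨u, hu⟩ * (⟨u, hu⟩ : P)⁻¹) := rfl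
          rw [h2, map_mul]
          have h3 : (linHom ν (hlin ν)) (cj P x x.2 ⟨u, hu⟩) = (tw ν x : P → ℂ) ⟨u, hu⟩ :=
            (htw ν x ⟨u, hu⟩).symm
          rw [h3, ← h]
          have h4 : (ν : P → ℂ) ⟨u, hu⟩ = (linHom ν (hlin ν)) ⟨u, hu⟩ := rfl
          rw [h4, ← map_mul, mul_inv_cancel, map_one]
        have h5 := irr_faithful_of_prime_card P p hP ν (hlin ν) hν _ h1
        have h6 : cj P x x.2 ⟨u, hu⟩ = ⟨u, hu⟩ := mul_inv_eq_one.mp h5
        have h7 : (x : G)⁻¹ * u * x = u := congrArg Subtype.val h6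
        calc u * (x : G) = x * ((x : G)⁻¹ * u * x) := by group
          _ = x * u := by rw [h7]
      rw [hC] at hxC
      exact hxC
    · intro hx
      apply Subtype.ext
      funext u
      rw [htw]
      have h9 : cj P x x.2 u = u := by
        apply Subtype.ext
        rw [cj_coe]
        have h8 : (x : G) * u = u * x := congrArg Subtype.val (hPcomm ⟨x, hx⟩ u)
        calc (x : G)⁻¹ * u * x = (x : G)⁻¹ * (u * x) := by group
          _ = (x : G)⁻¹ * ((x : G) * u) := by rw [h8]
          _ = u := by group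
      rw [h9]
  have hcount : (Finset.univ.filter
      (fun x : Subgroup.normalizer (P : Set G) => (x : G) ∈ P)).card = p := by
    rw [← hP]
    have e : Nat.card (P.subgroupOf (Subgroup.normalizer (P : Set G))) = Nat.card P :=
      Nat.card_congr (Subgroup.subgroupOfEquivOfLe hPN).toEquiv
    rw [← e, Nat.card_eq_fintype_card]
    exact (Fintype.card_of_subtype _ (fun x => by simp [Subgroup.mem_subgroupOf])).symm
  -- degrees
  have hdeg : ∀ ν, ν ≠ triv P →
      ∑ ψ : IrrCharacter G, c ν ψ * (charDegree (ψ : G → ℂ) : ℤ) = 0 := by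
    intro ν hν
    have h1 := classFun_eq_sum_classInner (hΦcl ν)
    have h2 := congrFun h1 1
    rw [Finset.sum_apply] at h2
    simp only [Pi.smul_apply, smul_eq_mul, hcoef, irr_one_eq_degree] at h2
    have h3 : Φ ν 1 = 0 := by
      rw [hΦ, indFun_one_apply, Pi.sub_apply, triv_apply, hlin, sub_self, mul_zero]
    rw [h3] at h2
    exact_mod_cast h2.symm
  -- the trivial character
  have hone : ∀ ν, ν ≠ triv P → c ν (triv G) = 1 := by
    intro ν hν
    have e1 : (m (triv G) (triv P) : ℂ) = 1 := by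
      rw [← hm]
      exact (classInner_irr_irr (triv P) (triv P)).trans (if_pos rfl)
    have e2 : (m (triv G) ν : ℂ) = 0 := by
      rw [← hm]
      exact (classInner_irr_irr (triv P) ν).trans (if_neg hν.symm)
    have e1' : m (triv G) (triv P) = 1 := by exact_mod_cast e1
    have e2' : m (triv G) ν = 0 := by exact_mod_cast e2
    rw [hc, e1', e2']
    simp
  have hd1 : (charDegree (triv G : G → ℂ) : ℤ) = 1 := by
    have h1 := irr_one_eq_degree (triv G)
    rw [triv_apply] at h1
    exact_mod_cast h1.symm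
  have hp0 : (0 : ℤ) < p := by exact_mod_cast hp.pos
  -- norms
  have hnorm : ∀ ν, ν ≠ triv P → ∑ ψ : IrrCharacter G, c ν ψ ^ 2 = (e : ℤ) + 1 := by
    intro ν hν
    have h3 := hinner' ν ν hν hν
    rw [Finset.filter_congr (fun x _ => htw_iff ν hν x), hcount] at h3
    have h4 : ∑ ψ : IrrCharacter G, c ν ψ ^ 2 = ∑ ψ : IrrCharacter G, c ν ψ * c ν ψ :=
      Finset.sum_congr rfl (fun ψ _ => by ring)
    rw [h4]
    nlinarith
  -- two vectors are equal or have inner product `e`
  have hpair : ∀ ν ν', ν ≠ triv P → ν' ≠ triv P →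
      (∑ ψ : IrrCharacter G, c ν ψ * c ν' ψ = (e : ℤ) ∧ (Finset.univ.filter
          (fun x : Subgroup.normalizer (P : Set G) => ν = tw ν' x)).card = 0) ∨
      (c ν = c ν' ∧ (Finset.univ.filter
          (fun x : Subgroup.normalizer (P : Set G) => ν = tw ν' x)).card = p) := by
    intro ν ν' hν hν'
    have h3 := hinner' ν ν' hν hν'
    have hn1 := hnorm ν hν
    have hn2 := hnorm ν' hν'
    have hsq : ∑ ψ : IrrCharacter G, (c ν ψ - c ν' ψ) ^ 2 =
        ∑ ψ : IrrCharacter G, c ν ψ ^ 2 + ∑ ψ : IrrCharacter G, c ν' ψ ^ 2 -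
          2 * ∑ ψ : IrrCharacter G, c ν ψ * c ν' ψ := by
      rw [Finset.mul_sum, ← Finset.sum_add_distrib, ← Finset.sum_sub_distrib]
      exact Finset.sum_congr rfl (fun ψ _ => by ring)
    have hnn : 0 ≤ ∑ ψ : IrrCharacter G, (c ν ψ - c ν' ψ) ^ 2 :=
      Finset.sum_nonneg (fun ψ _ => sq_nonneg _)
    rw [hsq, hn1, hn2] at hnn
    generalize (∑ ψ : IrrCharacter G, c ν ψ * c ν' ψ) = S at *
    generalize (Finset.univ.filter
          (fun x : Subgroup.normalizer (P : Set G) => ν = tw ν' x)).card = k at *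
    have hS1 : (e : ℤ) ≤ S := by nlinarith
    have hS2 : S ≤ (e : ℤ) + 1 := by linarith
    rcases (show S = (e : ℤ) ∨ S = (e : ℤ) + 1 by omega) with hS | hS
    · left
      refine ⟨hS, ?_⟩
      subst hS
      have : (k : ℤ) = 0 := by linarith
      exact_mod_cast this
    · right
      constructor
      · have hz : ∑ ψ : IrrCharacter G, (c ν ψ - c ν' ψ) ^ 2 = 0 := by
          rw [hsq, hn1, hn2, hS]; ring
        funext ψ
        have := (Finset.sum_eq_zero_iff_of_nonneg
          (fun ψ _ => sq_nonneg (c ν ψ - c ν' ψ))).mp hz ψ (Finset.mem_univ _)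
        have := pow_eq_zero_iff (by norm_num) |>.mp this
        omega
      · subst hS
        have : (k : ℤ) = p := by linarith
        exact_mod_cast this
  refine ⟨{ν : IrrCharacter P // ν ≠ triv P}, inferInstance, fun ν ψ => c ν.1 ψ, ?_,
    fun ν => hone ν.1 ν.2, fun ν => hnorm ν.1 ν.2, ?_, fun ν => hdeg ν.1 ν.2, ?_, ?_⟩
  · rw [Fintype.card_subtype_compl, Fintype.card_subtype_eq, ← Nat.card_eq_fintype_card,
      hcardIrr]
  · intro ν ν'
    rcases hpair ν.1 ν'.1 ν.2 ν'.2 with h | h
    · left; exact h.1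
    · right
      funext ψ
      exact congrFun h.1 ψ
  · intro ψ
    refine ⟨(m ψ (triv P) : ℤ), ?_⟩
    have h1 := hdegsum ψ
    rw [Fintype.sum_eq_add_sum_subtype_ne _ (triv P)] at h1
    have h2 : ∑ ν : {ν : IrrCharacter P // ν ≠ triv P}, c ν.1 ψ =
        ∑ ν : {ν : IrrCharacter P // ν ≠ triv P}, ((m ψ (triv P) : ℤ) - (m ψ ν.1 : ℤ)) :=
      Finset.sum_congr rfl (fun ν _ => hc ν.1 ψ)
    have h3 : Fintype.card {ν : IrrCharacter P // ν ≠ triv P} = p - 1 := by
      rw [Fintype.card_subtype_compl, Fintype.card_subtype_eq, ← Nat.card_eq_fintype_card,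
        hcardIrr]
    rw [h2, Finset.sum_sub_distrib, Finset.sum_const, Finset.card_univ, h3, h1]
    push_cast
    have hp1 : ((p - 1 : ℕ) : ℤ) = (p : ℤ) - 1 := by
      have := hp.pos
      omega
    rw [nsmul_eq_mul, hp1]
    ring
  · intro ν0
    -- count the pairs `(ν, x)` with `ν = tw ν0 x`
    have h1 : (Finset.univ : Finset (Subgroup.normalizer (P : Set G))).card =
        ∑ ν : {ν : IrrCharacter P // ν ≠ triv P}, (Finset.univ.filter
          (fun x : Subgroup.normalizer (P : Set G) =>
            (⟨tw ν0.1 x, htw_ne ν0.1 x ν0.2⟩ : {ν : IrrCharacter P // ν ≠ triv P}) = ν)).card :=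
      Finset.card_eq_sum_card_fiberwise (fun _ _ => Finset.mem_univ _)
    rw [Finset.card_univ, ← Nat.card_eq_fintype_card, hN] at h1
    have h2 : ∀ ν : {ν : IrrCharacter P // ν ≠ triv P}, (Finset.univ.filter
          (fun x : Subgroup.normalizer (P : Set G) =>
            (⟨tw ν0.1 x, htw_ne ν0.1 x ν0.2⟩ : {ν : IrrCharacter P // ν ≠ triv P}) = ν)).card =
        if c ν.1 = c ν0.1 then p else 0 := by
      intro ν
      have e1 : (Finset.univ.filter
          (fun x : Subgroup.normalizer (P : Set G) =>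
            (⟨tw ν0.1 x, htw_ne ν0.1 x ν0.2⟩ : {ν : IrrCharacter P // ν ≠ triv P}) = ν)) =
          (Finset.univ.filter
          (fun x : Subgroup.normalizer (P : Set G) => ν.1 = tw ν0.1 x)) := by
        apply Finset.filter_congr
        intro x _
        constructor
        · intro h; exact (congrArg Subtype.val h).symm
        · intro h; exact Subtype.ext h.symm
      rw [e1]
      rcases hpair ν.1 ν0.1 ν.2 ν0.2 with h | h
      · rw [h.2, if_neg]
        intro heq
        have h5 := h.1
        rw [heq] at h5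
        have h6 := hnorm ν0.1 ν0.2
        have h7 : ∑ ψ : IrrCharacter G, c ν0.1 ψ ^ 2 = ∑ ψ : IrrCharacter G, c ν0.1 ψ * c ν0.1 ψ :=
          Finset.sum_congr rfl (fun ψ _ => by ring)
        omega
      · rw [h.2, if_pos h.1]
    rw [Finset.sum_congr rfl (fun ν _ => h2 ν), Finset.sum_ite, Finset.sum_const_zero, add_zero,
      Finset.sum_const, smul_eq_mul] at h1
    have h3 : (Finset.univ.filter (fun ν : {ν : IrrCharacter P // ν ≠ triv P} =>
        c ν.1 = c ν0.1)).card = e :=
      (Nat.eq_of_mul_eq_mul_right hp.pos h1).symm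
    rw [Nat.card_eq_fintype_card, Fintype.card_subtype]
    rw [← h3]

end Cfsg.Agent.Helper23.ExcGen
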