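import Mathlib

set_option autoImplicit false

namespace Cfsg.Agent.Helper23.ExcPick

/-- If all the fibres of `f` have `e` elements, and `J` has more than `L.length * e` elements,
then some value of `f` is different from all the values on `L`. -/
lemma exists_new {J V : Type*} [Fintype J] (f : J → V) (e : ℕ)
    (hfib : ∀ ν0, Nat.card {ν : J // f ν = f ν0} = e) (L : List J)
    (hL : L.length * e < Fintype.card J) : ∃ ν, ∀ ν' ∈ L, f ν ≠ f ν' := by
  classical
  by_contra hcon
  push Not at hcon
  have hsub : (Finset.univ : Finset J) ⊆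
      L.toFinset.biUnion (fun ν' => Finset.univ.filter (fun ν => f ν = f ν')) := by
    intro ν _
    obtain ⟨ν', hν', h⟩ := hcon ν
    exact Finset.mem_biUnion.mpr ⟨ν', List.mem_toFinset.mpr hν',
      Finset.mem_filter.mpr ⟨Finset.mem_univ _, h⟩⟩
  have h1 := Finset.card_le_card hsub
  have h2 := Finset.card_biUnion_le (s := L.toFinset)
    (t := fun ν' => Finset.univ.filter (fun ν => f ν = f ν'))
  have h3 : ∀ ν' ∈ L.toFinset, (Finset.univ.filter (fun ν => f ν = f ν')).card = e := by
    intro ν' _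
    rw [← hfib ν', Nat.card_eq_fintype_card, Fintype.card_subtype]
  rw [Finset.sum_congr rfl h3, Finset.sum_const, smul_eq_mul] at h2
  have h4 := List.toFinset_card_le L
  rw [Finset.card_univ] at h1
  nlinarith

/-- The sum over a family of a coordinate which is constant on one fibre and vanishes outside
it. -/
lemma sum_fibre {J V : Type*} [Fintype J] (f : J → V) (e : ℕ) (ν0 : J)
    (hfib : Nat.card {ν : J // f ν = f ν0} = e) (g : J → ℤ) (s : ℤ)
    (h1 : ∀ ν, f ν = f ν0 → g ν = s) (h0 : ∀ ν, f ν ≠ f ν0 → g ν = 0) :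
    ∑ ν, g ν = e * s := by
  classical
  have e1 : ∑ ν, g ν = ∑ ν, if f ν = f ν0 then s else 0 :=
    Finset.sum_congr rfl (fun ν _ => by
      split_ifs with h
      · exact h1 ν h
      · exact h0 ν h)
  rw [e1, Finset.sum_ite, Finset.sum_const_zero, add_zero, Finset.sum_const, ← hfib,
    Nat.card_eq_fintype_card, Fintype.card_subtype]
  simp

/-- The possible degree of an exceptional character for the prime `19` in a group of order
`5472`. -/
lemma deg_xy (x : ℕ) (a M : ℤ) (ha : a = 1 ∨ a = -1) (hx : (x : ℤ) = 19 * M - 18 * a)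
    (hd : x ∣ 5472) (hs : x ^ 2 ≤ 5472) (h1 : x ≠ 1) : a = -1 ∧ x = 18 := by
  have h0 : 0 < x := Nat.pos_of_dvd_of_pos hd (by norm_num)
  have hle : x ≤ 73 := by nlinarith
  rcases ha with rfl | rfl <;> interval_cases x <;> omega

/-- The possible degree of the remaining character. -/
lemma deg_z (z : ℕ) (s M : ℤ) (hs : s = 1 ∨ s = -1) (hz : (z : ℤ) = 19 * M - 3 * s)
    (hd : z ∣ 5472) (hsq : z ^ 2 ≤ 5472) (h1 : z ≠ 1) :
    (s = 1 ∧ z = 16) ∨ (s = -1 ∧ z = 3) := by
  have h0 : 0 < z := Nat.pos_of_dvd_of_pos hd (by norm_num)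
  have hle : z ≤ 73 := by nlinarith
  rcases hs with rfl | rfl <;> interval_cases z <;> omega

end Cfsg.Agent.Helper23.ExcPick
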