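import Mathlib
import Cfsg.Agent.Helper23.ExcInt

set_option autoImplicit false

namespace Cfsg.Agent.Helper23.ExcThree

open Cfsg.Agent.Helper23.ExcInt

/-- Splitting a finite sum at four distinct points. -/
lemma sum_split4 {I : Type*} [Fintype I] [DecidableEq I] (a b c e : I) (hab : a ≠ b)
    (hac : a ≠ c) (hae : a ≠ e) (hbc : b ≠ c) (hbe : b ≠ e) (hce : c ≠ e) (f : I → ℤ) :
    ∑ i, f i = f a + f b + f c + f e +
      ∑ i ∈ (((Finset.univ.erase a).erase b).erase c).erase e, f i := by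
  have h1 : b ∈ (Finset.univ : Finset I).erase a :=
    Finset.mem_erase.mpr ⟨hab.symm, Finset.mem_univ _⟩
  have h2 : c ∈ ((Finset.univ : Finset I).erase a).erase b :=
    Finset.mem_erase.mpr ⟨hbc.symm, Finset.mem_erase.mpr ⟨hac.symm, Finset.mem_univ _⟩⟩
  have h3 : e ∈ (((Finset.univ : Finset I).erase a).erase b).erase c :=
    Finset.mem_erase.mpr ⟨hce.symm, Finset.mem_erase.mpr ⟨hbe.symm,
      Finset.mem_erase.mpr ⟨hae.symm, Finset.mem_univ _⟩⟩⟩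
  rw [← Finset.add_sum_erase Finset.univ f (Finset.mem_univ a),
    ← Finset.add_sum_erase _ f h1, ← Finset.add_sum_erase _ f h2, ← Finset.add_sum_erase _ f h3]
  ring

/-- An integer whose square is at most three and which is nonzero is `1` or `-1`. -/
lemma sq_le_three {x : ℤ} (h0 : x ≠ 0) (h : x ^ 2 ≤ 3) : x = 1 ∨ x = -1 := by
  have h1 : -1 ≤ x := by nlinarith
  have h2 : x ≤ 1 := by nlinarith
  interval_cases x <;> simp_all

/-- The three possible patterns. -/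
def Pat (p q s : ℤ) : Prop :=
  (p = 0 ∧ q = 1 ∧ s = 1) ∨ (p = 1 ∧ q = 0 ∧ s = 1) ∨ (p = 1 ∧ q = 1 ∧ s = 0)

lemma pat_aux (p q s r : ℤ) (h1 : p + q + s = 2) (h2 : p * p + q * q + s * s + r = 3)
    (hr : 0 ≤ r) : r = 1 ∧ Pat p q s := by
  have bp : -1 ≤ p ∧ p ≤ 1 := by
    constructor <;> nlinarith [mul_self_nonneg q, mul_self_nonneg s]
  have bq : -1 ≤ q ∧ q ≤ 1 := by
    constructor <;> nlinarith [mul_self_nonneg p, mul_self_nonneg s]
  have bs : -1 ≤ s ∧ s ≤ 1 := by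
    constructor <;> nlinarith [mul_self_nonneg p, mul_self_nonneg q]
  obtain ⟨bp1, bp2⟩ := bp
  obtain ⟨bq1, bq2⟩ := bq
  obtain ⟨bs1, bs2⟩ := bs
  unfold Pat
  interval_cases p <;> interval_cases q <;> interval_cases s <;> omega

lemma pat_same (p q s p' q' s' : ℤ) (h : Pat p q s) (h' : Pat p' q' s')
    (hm : p + 2 * q = p' + 2 * q') : p * p' + q * q' + s * s' = 2 := by
  rcases h with ⟨rfl, rfl, rfl⟩ | ⟨rfl, rfl, rfl⟩ | ⟨rfl, rfl, rfl⟩ <;>
  rcases h' with ⟨rfl, rfl, rfl⟩ | ⟨rfl, rfl, rfl⟩ | ⟨rfl, rfl, rfl⟩ <;> omega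

lemma pat_diff (p q s p' q' s' : ℤ) (h : Pat p q s) (h' : Pat p' q' s')
    (hm : p + 2 * q ≠ p' + 2 * q') : p * p' + q * q' + s * s' = 1 := by
  rcases h with ⟨rfl, rfl, rfl⟩ | ⟨rfl, rfl, rfl⟩ | ⟨rfl, rfl, rfl⟩ <;>
  rcases h' with ⟨rfl, rfl, rfl⟩ | ⟨rfl, rfl, rfl⟩ | ⟨rfl, rfl, rfl⟩ <;> omega

lemma pat_eq (p q s p' q' s' : ℤ) (h : Pat p q s) (h' : Pat p' q' s')
    (hm : p + 2 * q = p' + 2 * q') : p = p' ∧ q = q' ∧ s = s' := by
  rcases h with ⟨rfl, rfl, rfl⟩ | ⟨rfl, rfl, rfl⟩ | ⟨rfl, rfl, rfl⟩ <;>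
  rcases h' with ⟨rfl, rfl, rfl⟩ | ⟨rfl, rfl, rfl⟩ | ⟨rfl, rfl, rfl⟩ <;> omega

lemma pat_m (p q s : ℤ) (h : Pat p q s) :
    p + 2 * q = 1 ∨ p + 2 * q = 2 ∨ p + 2 * q = 3 := by
  rcases h with ⟨rfl, rfl, rfl⟩ | ⟨rfl, rfl, rfl⟩ | ⟨rfl, rfl, rfl⟩ <;> omega

/-- A purely combinatorial lemma: four pairwise distinct objects force a common colour. -/
lemma all_same {T : Type*} (m : T → ℤ) (hm : ∀ t, m t = 1 ∨ m t = 2 ∨ m t = 3)
    (D Q : T → T → Prop) (Dsymm : ∀ a b, D a b → D b a)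
    (Qsymm : ∀ a b, Q a b → Q b a) (Qtrans : ∀ a b c, Q a b → Q b c → Q a c)
    (same : ∀ a b, D a b → m a = m b → ¬ Q a b)
    (diff : ∀ a b, D a b → m a ≠ m b → Q a b)
    (hmD : ∀ a b, ¬ D a b → m a = m b)
    (t1 t2 t3 t4 : T) (D12 : D t1 t2) (D13 : D t1 t3) (D14 : D t1 t4) (D23 : D t2 t3)
    (D24 : D t2 t4) (D34 : D t3 t4) : ∀ t, m t = m t1 := by
  have h12 : m t1 = m t2 := by
    by_contra h
    have q := diff _ _ D12 h
    have h31 : m t3 ≠ m t1 := by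
      intro e
      have h32 : m t3 ≠ m t2 := by rw [e]; exact h
      exact same _ _ (Dsymm _ _ D13) e
        (Qtrans _ _ _ (diff _ _ (Dsymm _ _ D23) h32) (Qsymm _ _ q))
    have h32 : m t3 ≠ m t2 := by
      intro e
      have h31' : m t3 ≠ m t1 := by rw [e]; exact fun h' => h h'.symm
      exact same _ _ (Dsymm _ _ D23) e (Qtrans _ _ _ (diff _ _ (Dsymm _ _ D13) h31') q)
    have h41 : m t4 ≠ m t1 := by
      intro e
      have h42 : m t4 ≠ m t2 := by rw [e]; exact h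
      exact same _ _ (Dsymm _ _ D14) e
        (Qtrans _ _ _ (diff _ _ (Dsymm _ _ D24) h42) (Qsymm _ _ q))
    have h42 : m t4 ≠ m t2 := by
      intro e
      have h41' : m t4 ≠ m t1 := by rw [e]; exact fun h' => h h'.symm
      exact same _ _ (Dsymm _ _ D24) e (Qtrans _ _ _ (diff _ _ (Dsymm _ _ D14) h41') q)
    have h34 : m t3 = m t4 := by
      have := hm t1
      have := hm t2
      have := hm t3
      have := hm t4
      omega
    exact same _ _ D34 h34 (Qtrans _ _ _ (diff _ _ (Dsymm _ _ D13) h31)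
      (Qsymm _ _ (diff _ _ (Dsymm _ _ D14) h41)))
  intro t
  by_cases d1 : D t t1
  · by_cases d2 : D t t2
    · by_contra h
      have q1 := diff _ _ d1 h
      have q2 := diff _ _ d2 (by rw [← h12]; exact h)
      exact same _ _ D12 h12 (Qtrans _ _ _ (Qsymm _ _ q1) q2)
    · rw [hmD _ _ d2, h12]
  · exact hmD _ _ d1

set_option maxHeartbeats 1600000 in
/-- The combinatorial core of the theory of exceptional characters for a self-centralising
subgroup of prime order of index three in its normaliser. -/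
lemma exc_three {I J : Type*} [Fintype I] [DecidableEq I] (one : I) (d : I → ℤ)
    (hd1 : d one = 1) (c : J → I → ℤ) (h1 : ∀ ν, c ν one = 1)
    (hsq : ∀ ν, ∑ i, c ν i ^ 2 = 4) (hpair : ∀ ν ν', ∑ i, c ν i * c ν' i = 3 ∨ c ν = c ν')
    (hdeg : ∀ ν, ∑ i, c ν i * d i = 0) (ν0 ν1 ν2 ν3 ν4 : J)
    (h01 : c ν1 ≠ c ν0) (h02 : c ν2 ≠ c ν0) (h03 : c ν3 ≠ c ν0) (h04 : c ν4 ≠ c ν0)
    (h12 : c ν1 ≠ c ν2) (h13 : c ν1 ≠ c ν3) (h14 : c ν1 ≠ c ν4) (h23 : c ν2 ≠ c ν3)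
    (h24 : c ν2 ≠ c ν4) (h34 : c ν3 ≠ c ν4) :
    ∃ X Y Z : I, X ≠ one ∧ Y ≠ one ∧ Z ≠ one ∧ X ≠ Y ∧ X ≠ Z ∧ Y ≠ Z ∧
      (c ν0 X = 1 ∨ c ν0 X = -1) ∧ (c ν0 Y = 1 ∨ c ν0 Y = -1) ∧ (c ν0 Z = 1 ∨ c ν0 Z = -1) ∧
      (∀ ν, c ν X = c ν0 X ∧ c ν Y = c ν0 Y) ∧ (∀ ν, c ν ≠ c ν0 → c ν Z = 0) ∧
      1 + c ν0 X * d X + c ν0 Y * d Y + c ν0 Z * d Z = 0 := by
  -- decompose the vector of `ν0`
  have hs0 := hsq ν0
  rw [← Finset.add_sum_erase Finset.univ _ (Finset.mem_univ one), h1] at hs0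
  obtain ⟨A, hAmem, hAne⟩ : ∃ A ∈ Finset.univ.erase one, c ν0 A ≠ 0 := by
    by_contra hcon
    push Not at hcon
    have : ∑ i ∈ Finset.univ.erase one, c ν0 i ^ 2 = 0 :=
      Finset.sum_eq_zero (fun i hi => by rw [hcon i hi]; ring)
    omega
  have hA1 : A ≠ one := Finset.ne_of_mem_erase hAmem
  have hs1 := hsq ν0
  rw [sum_split2 one A hA1.symm, h1] at hs1
  have hR2 : 0 ≤ ∑ i ∈ (Finset.univ.erase one).erase A, c ν0 i ^ 2 :=
    Finset.sum_nonneg (fun i _ => sq_nonneg _)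
  have hAv : c ν0 A = 1 ∨ c ν0 A = -1 := sq_le_three hAne (by omega)
  have hA2 : c ν0 A * c ν0 A = 1 := by rcases hAv with h | h <;> rw [h] <;> norm_num
  obtain ⟨B, hBmem, hBne⟩ : ∃ B ∈ (Finset.univ.erase one).erase A, c ν0 B ≠ 0 := by
    by_contra hcon
    push Not at hcon
    have : ∑ i ∈ (Finset.univ.erase one).erase A, c ν0 i ^ 2 = 0 :=
      Finset.sum_eq_zero (fun i hi => by rw [hcon i hi]; ring)
    nlinarith
  have hBA : B ≠ A := Finset.ne_of_mem_erase hBmem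
  have hB1 : B ≠ one := Finset.ne_of_mem_erase (Finset.mem_of_mem_erase hBmem)
  have hs2 := hsq ν0
  rw [sum_split3 one A B hA1.symm hB1.symm hBA.symm, h1] at hs2
  have hR3 : 0 ≤ ∑ i ∈ ((Finset.univ.erase one).erase A).erase B, c ν0 i ^ 2 :=
    Finset.sum_nonneg (fun i _ => sq_nonneg _)
  have hBv : c ν0 B = 1 ∨ c ν0 B = -1 := sq_le_three hBne (by nlinarith)
  have hB2 : c ν0 B * c ν0 B = 1 := by rcases hBv with h | h <;> rw [h] <;> norm_num
  obtain ⟨C, hCmem, hCne⟩ : ∃ C ∈ ((Finset.univ.erase one).erase A).erase B, c ν0 C ≠ 0 := by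
    by_contra hcon
    push Not at hcon
    have : ∑ i ∈ ((Finset.univ.erase one).erase A).erase B, c ν0 i ^ 2 = 0 :=
      Finset.sum_eq_zero (fun i hi => by rw [hcon i hi]; ring)
    nlinarith
  have hCB : C ≠ B := Finset.ne_of_mem_erase hCmem
  have hCA : C ≠ A := Finset.ne_of_mem_erase (Finset.mem_of_mem_erase hCmem)
  have hC1 : C ≠ one :=
    Finset.ne_of_mem_erase (Finset.mem_of_mem_erase (Finset.mem_of_mem_erase hCmem))
  have split : ∀ f : I → ℤ, ∑ i, f i = f one + f A + f B + f C +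
      ∑ i ∈ (((Finset.univ.erase one).erase A).erase B).erase C, f i :=
    sum_split4 one A B C hA1.symm hB1.symm hC1.symm hBA.symm hCA.symm hCB.symm
  obtain ⟨R, hRdef⟩ : ∃ R : Finset I,
      R = (((Finset.univ.erase one).erase A).erase B).erase C := ⟨_, rfl⟩
  rw [← hRdef] at split
  have hs3 := hsq ν0
  rw [split, h1] at hs3
  have hR4 : 0 ≤ ∑ i ∈ R, c ν0 i ^ 2 := Finset.sum_nonneg (fun i _ => sq_nonneg _)
  have hCv : c ν0 C = 1 ∨ c ν0 C = -1 := sq_le_three hCne (by nlinarith)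
  have hC2 : c ν0 C * c ν0 C = 1 := by rcases hCv with h | h <;> rw [h] <;> norm_num
  have hRz : ∑ i ∈ R, c ν0 i ^ 2 = 0 := by nlinarith
  have hzero : ∀ i ∈ R, c ν0 i = 0 := by
    intro i hi
    have := (Finset.sum_eq_zero_iff_of_nonneg (fun i _ => sq_nonneg (c ν0 i))).mp hRz i hi
    exact pow_eq_zero_iff (by norm_num) |>.mp this
  clear hs0 hs1 hs2 hs3 hR2 hR3 hR4 hRz hAmem hBmem hCmem hRdef
  -- the shape of the other vectors
  have key : ∀ ν, c ν ≠ c ν0 → ∑ i ∈ R, c ν i ^ 2 = 1 ∧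
      Pat (c ν A * c ν0 A) (c ν B * c ν0 B) (c ν C * c ν0 C) := by
    intro ν hν
    have hp := (hpair ν ν0).resolve_right hν
    rw [split, h1, h1, Finset.sum_eq_zero (fun i hi => by rw [hzero i hi, mul_zero])] at hp
    have hs := hsq ν
    rw [split, h1] at hs
    have hRν : 0 ≤ ∑ i ∈ R, c ν i ^ 2 := Finset.sum_nonneg (fun i _ => sq_nonneg _)
    exact pat_aux _ _ _ _ (by linarith)
      (by linear_combination hs + (c ν A) ^ 2 * hA2 + (c ν B) ^ 2 * hB2 + (c ν C) ^ 2 * hC2) hRν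
  have recA : ∀ ν, c ν A = c ν0 A * (c ν A * c ν0 A) := fun ν => by
    linear_combination (-(c ν A)) * hA2
  have recB : ∀ ν, c ν B = c ν0 B * (c ν B * c ν0 B) := fun ν => by
    linear_combination (-(c ν B)) * hB2
  have recC : ∀ ν, c ν C = c ν0 C * (c ν C * c ν0 C) := fun ν => by
    linear_combination (-(c ν C)) * hC2
  -- the inner product on `R` of two distinct vectors
  have hIR : ∀ ν ν', c ν ≠ c ν' → ∑ i ∈ R, c ν i * c ν' i =
      2 - ((c ν A * c ν0 A) * (c ν' A * c ν0 A) + (c ν B * c ν0 B) * (c ν' B * c ν0 B) +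
        (c ν C * c ν0 C) * (c ν' C * c ν0 C)) := by
    intro ν ν' hνν'
    have hp := (hpair ν ν').resolve_right hνν'
    rw [split, h1, h1] at hp
    linear_combination hp + (c ν A * c ν' A) * hA2 + (c ν B * c ν' B) * hB2 +
      (c ν C * c ν' C) * hC2
  -- all the other vectors have the same pattern
  have hall := all_same (T := {ν : J // c ν ≠ c ν0})
    (fun t => c t.1 A * c ν0 A + 2 * (c t.1 B * c ν0 B))
    (fun t => pat_m _ _ _ (key t.1 t.2).2)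
    (fun a b => c a.1 ≠ c b.1) (fun a b => ∀ i ∈ R, c a.1 i = c b.1 i)
    (fun a b h => Ne.symm h)
    (fun a b h i hi => (h i hi).symm)
    (fun a b e h h' i hi => (h i hi).trans (h' i hi))
    (by
      intro a b hD hm hQ
      have hm' : c a.1 A * c ν0 A + 2 * (c a.1 B * c ν0 B) =
          c b.1 A * c ν0 A + 2 * (c b.1 B * c ν0 B) := hm
      have e1 := hIR a.1 b.1 hD
      rw [pat_same _ _ _ _ _ _ (key a.1 a.2).2 (key b.1 b.2).2 hm'] at e1
      have e2 : ∑ i ∈ R, c a.1 i * c b.1 i = ∑ i ∈ R, c b.1 i ^ 2 :=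
        Finset.sum_congr rfl (fun i hi => by rw [hQ i hi]; ring)
      rw [e2, (key b.1 b.2).1] at e1
      omega)
    (by
      intro a b hD hm
      have hm' : c a.1 A * c ν0 A + 2 * (c a.1 B * c ν0 B) ≠
          c b.1 A * c ν0 A + 2 * (c b.1 B * c ν0 B) := hm
      have e1 := hIR a.1 b.1 hD
      rw [pat_diff _ _ _ _ _ _ (key a.1 a.2).2 (key b.1 b.2).2 hm'] at e1
      have hz : ∑ i ∈ R, (c a.1 i - c b.1 i) ^ 2 = 0 := by
        have e3 : ∑ i ∈ R, (c a.1 i - c b.1 i) ^ 2 =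
            ∑ i ∈ R, c a.1 i ^ 2 - 2 * ∑ i ∈ R, c a.1 i * c b.1 i + ∑ i ∈ R, c b.1 i ^ 2 := by
          rw [Finset.mul_sum, ← Finset.sum_sub_distrib, ← Finset.sum_add_distrib]
          exact Finset.sum_congr rfl (fun i _ => by ring)
        rw [e3, (key a.1 a.2).1, (key b.1 b.2).1, e1]
        norm_num
      intro i hi
      have := (Finset.sum_eq_zero_iff_of_nonneg
        (fun i _ => sq_nonneg (c a.1 i - c b.1 i))).mp hz i hi
      exact sub_eq_zero.mp (pow_eq_zero_iff (by norm_num) |>.mp this))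
    (by
      intro a b hD
      have hab : c a.1 = c b.1 := not_not.mp hD
      show c a.1 A * c ν0 A + 2 * (c a.1 B * c ν0 B) =
        c b.1 A * c ν0 A + 2 * (c b.1 B * c ν0 B)
      rw [hab])
    ⟨ν1, h01⟩ ⟨ν2, h02⟩ ⟨ν3, h03⟩ ⟨ν4, h04⟩ h12 h13 h14 h23 h24 h34
  have hpat : ∀ ν, c ν ≠ c ν0 → c ν A * c ν0 A = c ν1 A * c ν0 A ∧
      c ν B * c ν0 B = c ν1 B * c ν0 B ∧ c ν C * c ν0 C = c ν1 C * c ν0 C := by
    intro ν hν
    exact pat_eq _ _ _ _ _ _ (key ν hν).2 (key ν1 h01).2 (hall ⟨ν, hν⟩)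
  -- the degree equation
  have hdg := hdeg ν0
  rw [split, h1, hd1, Finset.sum_eq_zero (fun i hi => by rw [hzero i hi, zero_mul])] at hdg
  rcases (key ν1 h01).2 with ⟨x1, x2, x3⟩ | ⟨x1, x2, x3⟩ | ⟨x1, x2, x3⟩
  · refine ⟨B, C, A, hB1, hC1, hA1, hCB.symm, hBA, hCA, hBv, hCv, hAv, ?_, ?_, by linarith⟩
    · intro ν
      by_cases hν : c ν = c ν0
      · rw [hν]; exact ⟨rfl, rfl⟩
      · obtain ⟨e1, e2, e3⟩ := hpat ν hν
        constructor
        · rw [recB ν, e2, x2, mul_one]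
        · rw [recC ν, e3, x3, mul_one]
    · intro ν hν
      obtain ⟨e1, e2, e3⟩ := hpat ν hν
      rw [recA ν, e1, x1, mul_zero]
  · refine ⟨A, C, B, hA1, hC1, hB1, hCA.symm, hBA.symm, hCB, hAv, hCv, hBv, ?_, ?_, by linarith⟩
    · intro ν
      by_cases hν : c ν = c ν0
      · rw [hν]; exact ⟨rfl, rfl⟩
      · obtain ⟨e1, e2, e3⟩ := hpat ν hν
        constructor
        · rw [recA ν, e1, x1, mul_one]
        · rw [recC ν, e3, x3, mul_one]
    · intro ν hν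
      obtain ⟨e1, e2, e3⟩ := hpat ν hν
      rw [recB ν, e2, x2, mul_zero]
  · refine ⟨A, B, C, hA1, hB1, hC1, hBA.symm, hCA.symm, hCB.symm, hAv, hBv, hCv, ?_, ?_,
      by linarith⟩
    · intro ν
      by_cases hν : c ν = c ν0
      · rw [hν]; exact ⟨rfl, rfl⟩
      · obtain ⟨e1, e2, e3⟩ := hpat ν hν
        constructor
        · rw [recA ν, e1, x1, mul_one]
        · rw [recB ν, e2, x2, mul_one]
    · intro ν hν
      obtain ⟨e1, e2, e3⟩ := hpat ν hν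
      rw [recC ν, e3, x3, mul_zero]

end Cfsg.Agent.Helper23.ExcThree
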