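import Mathlib
import Cfsg.Agent.Lead.Transfer
import Cfsg.Agent.S1018
import Cfsg.Agent.S1019

set_option autoImplicit false

namespace Cfsg.Agent.Helper23.SimpleOrd

/-- A Sylow `p`-subgroup has order `p` when `|G| = p * m` with `p ∤ m`. -/
lemma sylow_card_eq {G : Type*} [Group G] [Finite G] {p m : ℕ} [Fact p.Prime] (P : Sylow p G)
    (h : Nat.card G = p * m) (hm : ¬ p ∣ m) : Nat.card (P : Subgroup G) = p := by
  have hp : p.Prime := Fact.out
  have hm0 : m ≠ 0 := by rintro rfl; exact hm (dvd_zero _)
  have h1 := P.card_eq_multiplicity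
  rw [h, Nat.factorization_mul hp.ne_zero hm0, Finsupp.add_apply, hp.factorization_self,
    Nat.factorization_eq_zero_of_not_dvd hm, pow_one] at h1
  exact h1

/-- The number of Sylow `p`-subgroups divides `m` when `|G| = |P| * m`. -/
lemma card_sylow_dvd_of_eq {G : Type*} [Group G] [Finite G] {p m k : ℕ} [Fact p.Prime]
    (P : Sylow p G) (h : Nat.card G = k * m) (hP : Nat.card (P : Subgroup G) = k) (hk : 0 < k) :
    Nat.card (Sylow p G) ∣ m := by
  have h1 := (P : Subgroup G).card_mul_index
  rw [h, hP] at h1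
  have h2 : (P : Subgroup G).index = m := Nat.eq_of_mul_eq_mul_left hk h1
  exact h2 ▸ P.card_dvd_index

/-- Order of the normaliser of a Sylow subgroup. -/
lemma card_normalizer_eq {G : Type*} [Group G] [Finite G] {p n m : ℕ} [Fact p.Prime]
    (P : Sylow p G) (hn : Nat.card (Sylow p G) = n) (h : Nat.card G = m * n) (hn0 : 0 < n) :
    Nat.card (Subgroup.normalizer ((P : Subgroup G) : Set G)) = m := by
  have h2 := Lead.card_normalizer_mul_card_sylow P
  rw [hn, h] at h2
  exact Nat.eq_of_mul_eq_mul_right hn0 h2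

/-- In a simple group whose order is not `p`, a Sylow subgroup of order `p` is not central in its
normaliser; so the order of the normaliser is not coprime to `p - 1`. -/
lemma not_coprime_of_simple {G : Type*} [Group G] [Finite G] [IsSimpleGroup G] {p : ℕ}
    [Fact p.Prime] (P : Sylow p G) (hP : Nat.card (P : Subgroup G) = p) (hG : Nat.card G ≠ p) :
    ¬ (Nat.card (Subgroup.normalizer ((P : Subgroup G) : Set G))).Coprime (p - 1) := by
  intro hc
  have hp : p.Prime := Fact.out
  have hNC := Lead.normalizer_le_centralizer_of_coprime (P : Subgroup G) (by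
    rw [Lead.card_mulAut_of_prime_card hP]; exact hc)
  rcases Lead.simple_sylow_card P hNC with h1 | h1
  · have h2 : Nat.card (P : Subgroup G) = 1 := h1
    rw [hP] at h2
    exact hp.one_lt.ne' h2
  · have h2 : Nat.card (P : Subgroup G) = Nat.card G := h1
    rw [hP] at h2
    exact hG h2.symm

/-- A Sylow subgroup of order `p` of a simple group of order `≠ p` is not central in its
normaliser. -/
lemma not_le_centralizer_of_simple {G : Type*} [Group G] [Finite G] [IsSimpleGroup G] {p : ℕ}
    [Fact p.Prime] (P : Sylow p G) (hP : Nat.card (P : Subgroup G) = p) (hG : Nat.card G ≠ p) :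
    ¬ Subgroup.normalizer ((P : Subgroup G) : Set G) ≤ Subgroup.centralizer (P : Set G) := by
  intro hNC
  have hp : p.Prime := Fact.out
  rcases Lead.simple_sylow_card P hNC with h1 | h1
  · have h2 : Nat.card (P : Subgroup G) = 1 := h1
    rw [hP] at h2
    exact hp.one_lt.ne' h2
  · have h2 : Nat.card (P : Subgroup G) = Nat.card G := h1
    rw [hP] at h2
    exact hG h2.symm

/-- In a simple group of order `≠ p` with Sylow `p`-subgroups of order `p`, the Sylow number is
not one. -/
lemma card_sylow_ne_one {G : Type*} [Group G] [Finite G] [IsSimpleGroup G] {p : ℕ}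
    [Fact p.Prime] (P : Sylow p G) (hP : Nat.card (P : Subgroup G) = p) (hG : Nat.card G ≠ p) :
    Nat.card (Sylow p G) ≠ 1 := by
  have hp : p.Prime := Fact.out
  apply Lead.simple_card_sylow_ne_one P
  · intro h1
    have h2 : Nat.card (P : Subgroup G) = 1 := h1
    rw [hP] at h2
    exact hp.one_lt.ne' h2
  · intro h1
    have h2 : Nat.card (P : Subgroup G) = Nat.card G := h1
    rw [hP] at h2
    exact hG h2.symm

/-- If the Sylow `p`-subgroups have order `p`, there are at least `n_p (p - 1)` elements of
order `p`. -/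
lemma card_orderOf_ge {G : Type*} [Group G] [Finite G] (p : ℕ) [Fact p.Prime]
    (h : ∀ P : Sylow p G, Nat.card (P : Subgroup G) = p) :
    Nat.card (Sylow p G) * (p - 1) ≤ Nat.card {g : G // orderOf g = p} := by
  classical
  have hp : p.Prime := Fact.out
  haveI : Fintype (Sylow p G) := Fintype.ofFinite _
  have h1 : Nat.card (Σ P : Sylow p G, {u : (P : Subgroup G) // u ≠ 1}) =
      Nat.card (Sylow p G) * (p - 1) := by
    rw [Nat.card_sigma]
    have h2 : ∀ P : Sylow p G, Nat.card {u : (P : Subgroup G) // u ≠ 1} = p - 1 := by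
      intro P
      haveI : Fintype (P : Subgroup G) := Fintype.ofFinite _
      rw [Nat.card_eq_fintype_card, Fintype.card_subtype_compl, Fintype.card_subtype_eq,
        ← Nat.card_eq_fintype_card, h P]
    simp only [h2]
    rw [Finset.sum_const, Finset.card_univ, smul_eq_mul, Nat.card_eq_fintype_card]
  rw [← h1]
  have key : ∀ (P : Sylow p G) (u : (P : Subgroup G)), u ≠ 1 → orderOf (u : G) = p := by
    intro P u hu
    have h3 : orderOf (u : G) ∣ Nat.card (P : Subgroup G) :=
      Subgroup.orderOf_dvd_natCard (P : Subgroup G) u.2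
    rw [h P] at h3
    rcases (Nat.dvd_prime hp).mp h3 with h4 | h4
    · exact absurd (Subtype.ext (orderOf_eq_one_iff.mp h4)) hu
    · exact h4
  apply Nat.card_le_card_of_injective
    (fun s : (Σ P : Sylow p G, {u : (P : Subgroup G) // u ≠ 1}) =>
      (⟨(s.2.1 : G), key s.1 s.2.1 s.2.2⟩ : {g : G // orderOf g = p}))
  rintro ⟨P, u, hu⟩ ⟨P', u', hu'⟩ hh
  have huu : (u : G) = (u' : G) := congrArg Subtype.val hh
  have hu1 : (u : G) ≠ 1 := fun h0 => hu (Subtype.ext h0)
  have hPP : P = P' := by
    apply Sylow.ext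
    rw [← S1018.zpowers_eq_of_card hp (h P) u.2 hu1,
      ← S1018.zpowers_eq_of_card hp (h P') (huu ▸ u'.2) hu1]
  subst hPP
  have : u = u' := Subtype.ext huu
  subst this
  rfl

/-- Four classes of elements of distinct orders fit into the group. -/
lemma four_orders_le {G : Type*} [Group G] [Finite G] (a b c d : ℕ) (hab : a ≠ b) (hac : a ≠ c)
    (had : a ≠ d) (hbc : b ≠ c) (hbd : b ≠ d) (hcd : c ≠ d) :
    Nat.card {g : G // orderOf g = a} + Nat.card {g : G // orderOf g = b} +
      Nat.card {g : G // orderOf g = c} + Nat.card {g : G // orderOf g = d} ≤ Nat.card G := by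
  have h0 : ∀ n : ℕ, Nat.card {g : G // orderOf g = n} = ({g : G | orderOf g = n} : Set G).ncard :=
    fun n => Nat.card_coe_set_eq _
  rw [h0, h0, h0, h0]
  have dis : ∀ m n : ℕ, m ≠ n →
      Disjoint ({g : G | orderOf g = m} : Set G) ({g : G | orderOf g = n} : Set G) := by
    intro m n hmn
    rw [Set.disjoint_left]
    intro g hg hg'
    exact hmn (hg.symm.trans hg')
  rw [← Set.ncard_union_eq (dis a b hab), ← Set.ncard_union_eq
    (Set.disjoint_union_left.mpr ⟨dis a c hac, dis b c hbc⟩), ← Set.ncard_union_eq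
    (Set.disjoint_union_left.mpr ⟨Set.disjoint_union_left.mpr ⟨dis a d had, dis b d hbd⟩,
      dis c d hcd⟩)]
  exact Set.ncard_le_card _

/-- A Sylow subgroup of order `p` has exactly `(n_p - 1) / p + 1` orbits on the cosets of its
normaliser: here in the form `orbits * p = n_p + p - 1`. -/
lemma card_orbits_mul {G : Type*} [Group G] [Finite G] (p : ℕ) [Fact p.Prime] (P : Sylow p G)
    (hP : Nat.card (P : Subgroup G) = p) :
    Nat.card (MulAction.orbitRel.Quotient (P : Subgroup G)
      (G ⧸ Subgroup.normalizer ((P : Subgroup G) : Set G))) * p =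
      Nat.card (Sylow p G) + (p - 1) := by
  classical
  have hp : p.Prime := Fact.out
  haveI : Fintype (P : Subgroup G) := Fintype.ofFinite _
  haveI : Fintype (G ⧸ Subgroup.normalizer ((P : Subgroup G) : Set G)) := Fintype.ofFinite _
  haveI : Fintype (MulAction.orbitRel.Quotient (P : Subgroup G)
      (G ⧸ Subgroup.normalizer ((P : Subgroup G) : Set G))) := Fintype.ofFinite _
  have hB := MulAction.sum_card_fixedBy_eq_card_orbits_mul_card_group (P : Subgroup G)
    (G ⧸ Subgroup.normalizer ((P : Subgroup G) : Set G))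
  have hcP : Fintype.card (P : Subgroup G) = p := by rw [← Nat.card_eq_fintype_card, hP]
  rw [hcP] at hB
  rw [Nat.card_eq_fintype_card]
  change Fintype.card (Quotient (MulAction.orbitRel (P : Subgroup G)
      (G ⧸ Subgroup.normalizer ((P : Subgroup G) : Set G)))) * p = _
  rw [← hB, ← Finset.add_sum_erase Finset.univ _ (Finset.mem_univ (1 : (P : Subgroup G)))]
  have h1 : Fintype.card (MulAction.fixedBy (G ⧸ Subgroup.normalizer ((P : Subgroup G) : Set G))
      (1 : (P : Subgroup G))) = Nat.card (Sylow p G) := by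
    rw [P.card_eq_index_normalizer, Subgroup.index, Nat.card_eq_fintype_card]
    apply Fintype.card_congr
    exact (Equiv.subtypeUnivEquiv (fun c => by simp))
  have h2 : ∀ u ∈ (Finset.univ : Finset (P : Subgroup G)).erase 1,
      Fintype.card (MulAction.fixedBy (G ⧸ Subgroup.normalizer ((P : Subgroup G) : Set G)) u)
        = 1 := by
    intro u hu
    have hu1 : u ≠ 1 := (Finset.mem_erase.mp hu).1
    have ho : orderOf (u : G) = p := by
      have h3 : orderOf (u : G) ∣ Nat.card (P : Subgroup G) :=
        Subgroup.orderOf_dvd_natCard (P : Subgroup G) u.2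
      rw [hP] at h3
      rcases (Nat.dvd_prime hp).mp h3 with h4 | h4
      · exact absurd (Subtype.ext (orderOf_eq_one_iff.mp h4)) hu1
      · exact h4
    have h5 := (S1018.result p P hP).1 (u : G) ho
    rw [Nat.card_eq_fintype_card] at h5
    rw [← h5]
    apply Fintype.card_congr
    exact Equiv.refl _
  rw [h1, Finset.sum_congr rfl h2, Finset.sum_const, Finset.card_erase_of_mem (Finset.mem_univ _),
    Finset.card_univ, hcP, smul_eq_mul, mul_one]

end Cfsg.Agent.Helper23.SimpleOrd

namespace Cfsg.Agent.Helper23.SimpleOrd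

/-- A Sylow `p`-subgroup has order `p ^ k` when `|G| = p ^ k * m` with `p ∤ m`. -/
lemma sylow_card_eq_pow {G : Type*} [Group G] [Finite G] {p k m : ℕ} [Fact p.Prime]
    (P : Sylow p G) (h : Nat.card G = p ^ k * m) (hm : ¬ p ∣ m) :
    Nat.card (P : Subgroup G) = p ^ k := by
  have hp : p.Prime := Fact.out
  have hm0 : m ≠ 0 := by rintro rfl; exact hm (dvd_zero _)
  have h1 := P.card_eq_multiplicity
  rw [h, Nat.factorization_mul (pow_ne_zero _ hp.ne_zero) hm0, Finsupp.add_apply,
    hp.factorization_pow, Finsupp.single_eq_same,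
    Nat.factorization_eq_zero_of_not_dvd hm, add_zero] at h1
  exact h1

/-- A simple group embeds in the symmetric group on the cosets of any proper subgroup. -/
lemma card_dvd_factorial_index {G : Type*} [Group G] [Finite G] [IsSimpleGroup G]
    (H : Subgroup G) (hH : H ≠ ⊤) : Nat.card G ∣ H.index.factorial := by
  classical
  have hker : (MulAction.toPermHom G (G ⧸ H)).ker = ⊥ := by
    rcases IsSimpleGroup.eq_bot_or_eq_top_of_normal _
      (MonoidHom.normal_ker (MulAction.toPermHom G (G ⧸ H))) with h | h
    · exact h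
    · exfalso
      apply hH
      rw [eq_top_iff]
      have h1 : (MulAction.toPermHom G (G ⧸ H)).ker ≤ H := by
        rw [← Subgroup.normalCore_eq_ker]; exact Subgroup.normalCore_le H
      rw [h] at h1
      exact h1
  have hinj : Function.Injective (MulAction.toPermHom G (G ⧸ H)) :=
    (MonoidHom.ker_eq_bot_iff _).mp hker
  have h1 := Subgroup.card_dvd_of_injective _ hinj
  rw [Nat.card_perm] at h1
  exact h1

/-- In a simple group, a subgroup of index at most `n` forces `|G| ∣ n!`. -/
lemma card_dvd_factorial_of_index_le {G : Type*} [Group G] [Finite G] [IsSimpleGroup G]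
    (H : Subgroup G) (hH : H ≠ ⊤) {n : ℕ} (hn : H.index ≤ n) : Nat.card G ∣ n.factorial :=
  (card_dvd_factorial_index H hH).trans (Nat.factorial_dvd_factorial hn)

/-- The normaliser of a subgroup which is neither trivial nor everything is proper in a
simple group. -/
lemma normalizer_ne_top {G : Type*} [Group G] [Finite G] [IsSimpleGroup G] (D : Subgroup G)
    (h1 : Nat.card D ≠ 1) (h2 : Nat.card D ≠ Nat.card G) :
    Subgroup.normalizer (D : Set G) ≠ ⊤ := by
  intro h
  have hn : D.Normal := Subgroup.normalizer_eq_top_iff.mp h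
  rcases IsSimpleGroup.eq_bot_or_eq_top_of_normal _ hn with h' | h'
  · apply h1; rw [h', Subgroup.card_bot]
  · apply h2; rw [h', Subgroup.card_top]

/-- If a subgroup `M` contains two distinct Sylow `p`-subgroups of `G`, then
`|M| = |P| * j` with `j ≥ p + 1`. -/
lemma card_ge_of_two_sylow {G : Type*} [Group G] [Finite G] {p : ℕ} [Fact p.Prime]
    (P R : Sylow p G) (hPR : P ≠ R) (M : Subgroup G) (hP : (P : Subgroup G) ≤ M)
    (hR : (R : Subgroup G) ≤ M) :
    ∃ j : ℕ, p + 1 ≤ j ∧ Nat.card M = Nat.card (P : Subgroup G) * j := by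
  have hp : p.Prime := Fact.out
  have hne : P.subtype hP ≠ R.subtype hR := fun h => hPR (Sylow.subtype_injective h)
  have hcard : Nat.card ((P.subtype hP : Sylow p M) : Subgroup M) = Nat.card (P : Subgroup G) := by
    rw [Sylow.coe_subtype]
    exact Nat.card_congr (Subgroup.subgroupOfEquivOfLe hP).toEquiv
  have h1 := ((P.subtype hP : Sylow p M) : Subgroup M).card_mul_index
  rw [hcard] at h1
  refine ⟨((P.subtype hP : Sylow p M) : Subgroup M).index, ?_, h1.symm⟩
  have h2 : Nat.card (Sylow p M) ∣ ((P.subtype hP : Sylow p M) : Subgroup M).index :=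
    (P.subtype hP).card_dvd_index
  have h3 : Nat.card (Sylow p M) ≡ 1 [MOD p] := card_sylow_modEq_one p M
  have h4 : 1 < Nat.card (Sylow p M) := by
    rw [Finite.one_lt_card_iff_nontrivial]
    exact ⟨⟨_, _, hne⟩⟩
  have hpos : 0 < ((P.subtype hP : Sylow p M) : Subgroup M).index := by
    rcases Nat.eq_zero_or_pos ((P.subtype hP : Sylow p M) : Subgroup M).index with h0 | h0
    · rw [h0, mul_zero] at h1
      exact absurd h1.symm (Nat.card_pos).ne'
    · exact h0
  have h5 : p + 1 ≤ Nat.card (Sylow p M) := by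
    have h6 : Nat.card (Sylow p M) % p = 1 % p := h3
    rw [Nat.mod_eq_of_lt hp.one_lt] at h6
    by_contra hlt
    push Not at hlt
    have h7 : Nat.card (Sylow p M) < p ∨ Nat.card (Sylow p M) = p := by omega
    rcases h7 with h7 | h7
    · rw [Nat.mod_eq_of_lt h7] at h6; omega
    · rw [h7, Nat.mod_self] at h6; omega
  exact h5.trans (Nat.le_of_dvd hpos h2)

end Cfsg.Agent.Helper23.SimpleOrd
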