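import Mathlib
import Cfsg.Agent.Helper23.SimpleOrd
import Cfsg.Agent.Helper22.ConjClass

set_option autoImplicit false

/-!
Fixed-point counting tools for the action of a finite (simple) group on the cosets of a
subgroup, typically the normaliser of a Sylow subgroup.  `fx H y` below is
`Nat.card (MulAction.fixedBy (G ⧸ H) y)`.
-/

namespace Cfsg.Agent.Helper23.FixTools

open Cfsg.Agent.Helper23.SimpleOrd

variable {G : Type*} [Group G] [Finite G]

/-- An `r`-element fixes a number of cosets congruent to the index modulo `r`. -/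
lemma fix_modEq_of_pow (H : Subgroup G) (y : G) (r k : ℕ) [Fact r.Prime] (hy : y ^ r ^ k = 1) :
    Nat.card (MulAction.fixedBy (G ⧸ H) y) ≡ H.index [MOD r] := by
  classical
  haveI : Fintype (G ⧸ H) := Fintype.ofFinite _
  have hσ : (MulAction.toPermHom G (G ⧸ H) y) ^ r ^ k = 1 := by
    rw [← map_pow, hy, map_one]
  have h1 := Equiv.Perm.card_compl_support_modEq hσ
  have h2 : Nat.card (MulAction.fixedBy (G ⧸ H) y) =
      (MulAction.toPermHom G (G ⧸ H) y).supportᶜ.card := by
    rw [← Set.ncard_coe_finset, ← Nat.card_coe_set_eq]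
    apply Nat.card_congr
    apply Equiv.setCongr
    ext ω
    simp [MulAction.mem_fixedBy]
  rw [h2, Subgroup.index, Nat.card_eq_fintype_card]
  exact h1

/-- The action of a simple group on the cosets of a proper subgroup is faithful. -/
lemma toPermHom_ker_eq_bot [IsSimpleGroup G] (H : Subgroup G) (hH : H ≠ ⊤) :
    (MulAction.toPermHom G (G ⧸ H)).ker = ⊥ := by
  rcases IsSimpleGroup.eq_bot_or_eq_top_of_normal _
    (MonoidHom.normal_ker (MulAction.toPermHom G (G ⧸ H))) with h | h
  · exact h
  · exfalso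
    apply hH
    rw [eq_top_iff]
    have h1 : (MulAction.toPermHom G (G ⧸ H)).ker ≤ H := by
      rw [← Subgroup.normalCore_eq_ker]; exact Subgroup.normalCore_le H
    rw [h] at h1
    exact h1

/-- A nonidentity element of a simple group moves some coset of a proper subgroup. -/
lemma fix_lt_index [IsSimpleGroup G] (H : Subgroup G) (hH : H ≠ ⊤) (y : G) (hy : y ≠ 1) :
    Nat.card (MulAction.fixedBy (G ⧸ H) y) < H.index := by
  have hne : MulAction.fixedBy (G ⧸ H) y ≠ Set.univ := by
    intro h
    apply hy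
    have hmem : y ∈ (MulAction.toPermHom G (G ⧸ H)).ker := by
      rw [MonoidHom.mem_ker]
      ext ω
      have h1 : ω ∈ MulAction.fixedBy (G ⧸ H) y := h ▸ Set.mem_univ ω
      exact h1
    rw [toPermHom_ker_eq_bot H hH] at hmem
    exact Subgroup.mem_bot.mp hmem
  rw [Nat.card_coe_set_eq]
  exact Set.ncard_lt_card hne

/-- In a simple group of order other than 2 every element of order dividing 2 acts as an even
permutation on the cosets of a subgroup: the number of moved cosets is divisible by 4. -/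
lemma four_dvd_of_sq [IsSimpleGroup G] (hG : Nat.card G ≠ 2) (H : Subgroup G) (y : G)
    (hy : y ^ 2 = 1) : 4 ∣ H.index - Nat.card (MulAction.fixedBy (G ⧸ H) y) := by
  classical
  haveI : Fintype (G ⧸ H) := Fintype.ofFinite _
  obtain ⟨σ, hσdef⟩ : ∃ σ, σ = MulAction.toPermHom G (G ⧸ H) y := ⟨_, rfl⟩
  have hσ : σ ^ 2 = 1 := by rw [hσdef, ← map_pow, hy, map_one]
  have hsign : Equiv.Perm.sign σ = 1 := by
    obtain ⟨φ, hφ⟩ : ∃ φ : G →* ℤˣ, φ = Equiv.Perm.sign.comp (MulAction.toPermHom G (G ⧸ H)) :=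
      ⟨_, rfl⟩
    rcases IsSimpleGroup.eq_bot_or_eq_top_of_normal _ (MonoidHom.normal_ker φ) with h | h
    · exfalso
      have hinj : Function.Injective φ := (MonoidHom.ker_eq_bot_iff φ).mp h
      have h1 := Subgroup.card_dvd_of_injective φ hinj
      have h2 : Nat.card ℤˣ = 2 := by
        rw [Nat.card_eq_fintype_card]; rfl
      rw [h2] at h1
      have h3 : 1 < Nat.card G := Finite.one_lt_card
      rcases (Nat.dvd_prime Nat.prime_two).mp h1 with h4 | h4
      · omega
      · exact hG h4
    · have hmem : y ∈ φ.ker := h ▸ Subgroup.mem_top y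
      rw [hσdef]
      have := MonoidHom.mem_ker.mp hmem
      rw [hφ] at this
      exact this
  have h1 := Equiv.Perm.sign_of_pow_two_eq_one hσ
  rw [hsign] at h1
  have hfix : Fintype.card (Function.fixedPoints σ) =
      Nat.card (MulAction.fixedBy (G ⧸ H) y) := by
    rw [Nat.card_eq_fintype_card]
    apply Fintype.card_congr
    apply Equiv.setCongr
    ext ω
    rw [hσdef]
    rfl
  have heven : Even ((Fintype.card (G ⧸ H) - Fintype.card (Function.fixedPoints σ)) / 2) := by
    by_contra hodd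
    rw [Nat.not_even_iff_odd] at hodd
    rw [hodd.neg_one_pow] at h1
    exact absurd h1 (by decide)
  haveI : Fact (Nat.Prime 2) := ⟨Nat.prime_two⟩
  have hpar := fix_modEq_of_pow H y 2 1 (by rw [pow_one]; exact hy)
  have hlt : Nat.card (MulAction.fixedBy (G ⧸ H) y) ≤ H.index := by
    rw [Nat.card_coe_set_eq]; exact Set.ncard_le_card _
  rw [hfix, ← Nat.card_eq_fintype_card] at heven
  change Even ((H.index - Nat.card (MulAction.fixedBy (G ⧸ H) y)) / 2) at heven
  obtain ⟨m, hm⟩ := heven
  unfold Nat.ModEq at hpar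
  omega

/-- Conjugate elements fix the same number of cosets. -/
lemma fix_conj (H : Subgroup G) (y c : G) :
    Nat.card (MulAction.fixedBy (G ⧸ H) (c * y * c⁻¹)) =
      Nat.card (MulAction.fixedBy (G ⧸ H) y) := by
  symm
  apply Nat.card_congr
  refine ⟨fun ω => ⟨c • ω.1, ?_⟩, fun ω => ⟨c⁻¹ • ω.1, ?_⟩, ?_, ?_⟩
  · have h := ω.2
    rw [MulAction.mem_fixedBy] at h ⊢
    rw [← mul_smul, inv_mul_cancel_right, mul_smul, h]
  · have h := ω.2
    rw [MulAction.mem_fixedBy] at h ⊢
    have h2 : y • c⁻¹ • ω.1 = c⁻¹ • ((c * y * c⁻¹) • ω.1) := by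
      rw [← mul_smul, ← mul_smul]; congr 1; group
    rw [h2, h]
  · intro ω
    apply Subtype.ext
    simp
  · intro ω
    apply Subtype.ext
    simp

lemma fix_isConj (H : Subgroup G) {y g : G} (h : IsConj y g) :
    Nat.card (MulAction.fixedBy (G ⧸ H) g) = Nat.card (MulAction.fixedBy (G ⧸ H) y) := by
  obtain ⟨c, hc⟩ := isConj_iff.mp h
  rw [← hc]
  exact fix_conj H y c

/-- If `P` fixes the coset `g N_G(P)` then `g` normalises `P`. -/
lemma mem_normalizer_of_fixed {p : ℕ} [Fact p.Prime] (P : Sylow p G) (g : G)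
    (h : ∀ u ∈ (P : Subgroup G), g⁻¹ * u * g ∈ Subgroup.normalizer ((P : Subgroup G) : Set G)) :
    g ∈ Subgroup.normalizer ((P : Subgroup G) : Set G) := by
  obtain ⟨Q, hQ⟩ : ∃ Q : Subgroup G, Q = (P : Subgroup G).map (MulAut.conj g⁻¹).toMonoidHom :=
    ⟨_, rfl⟩
  have hmem : ∀ x : G, x ∈ Q ↔ ∃ u ∈ (P : Subgroup G), g⁻¹ * u * g = x := by
    intro x
    rw [hQ, Subgroup.mem_map]
    constructor
    · rintro ⟨u, hu, rfl⟩
      exact ⟨u, hu, by simp⟩
    · rintro ⟨u, hu, rfl⟩
      exact ⟨u, hu, by simp⟩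
  have hQN : Q ≤ Subgroup.normalizer ((P : Subgroup G) : Set G) := by
    intro x hx
    obtain ⟨u, hu, rfl⟩ := (hmem x).mp hx
    exact h u hu
  have hQp : IsPGroup p Q := by
    rw [hQ]; exact P.isPGroup'.map _
  have hinf := hQp.inf_normalizer_sylow P
  have hQP : Q ≤ (P : Subgroup G) := fun x hx =>
    (Subgroup.mem_inf.mp (hinf.le (Subgroup.mem_inf.mpr ⟨hx, hQN hx⟩))).2
  have hcard : Nat.card Q = Nat.card (P : Subgroup G) := by
    rw [hQ]
    exact Subgroup.card_map_of_injective (MulAut.conj g⁻¹).injective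
  have hQeq : Q = (P : Subgroup G) := Subgroup.eq_of_le_of_card_ge hQP hcard.ge
  have hinv : g⁻¹ ∈ Subgroup.normalizer ((P : Subgroup G) : Set G) := by
    rw [Subgroup.mem_normalizer_iff]
    intro x
    rw [inv_inv]
    constructor
    · intro hx
      rw [← hQeq]
      exact (hmem _).mpr ⟨x, hx, rfl⟩
    · intro hx
      rw [← hQeq] at hx
      obtain ⟨u, hu, hux⟩ := (hmem _).mp hx
      have : u = x := by
        have h1 : g * (g⁻¹ * u * g) * g⁻¹ = g * (g⁻¹ * x * g) * g⁻¹ := by rw [hux]
        have h2 : g * (g⁻¹ * u * g) * g⁻¹ = u := by group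
        have h3 : g * (g⁻¹ * x * g) * g⁻¹ = x := by group
        rw [h2, h3] at h1
        exact h1
      rw [← this]; exact hu
  have := Subgroup.inv_mem _ hinv
  rw [inv_inv] at this
  exact this

/-- An element centralising a Sylow `p`-subgroup `P` fixes a number of cosets of `N_G(P)`
congruent to 1 modulo `p`. -/
lemma fix_modEq_one {p : ℕ} [Fact p.Prime] (P : Sylow p G) (y : G)
    (hy : y ∈ Subgroup.centralizer ((P : Subgroup G) : Set G)) :
    Nat.card (MulAction.fixedBy (G ⧸ Subgroup.normalizer ((P : Subgroup G) : Set G)) y)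
      ≡ 1 [MOD p] := by
  obtain ⟨N, hN⟩ : ∃ N : Subgroup G, N = Subgroup.normalizer ((P : Subgroup G) : Set G) :=
    ⟨_, rfl⟩
  rw [← hN]
  have hPN : (P : Subgroup G) ≤ N := hN ▸ Subgroup.le_normalizer
  have hyN : y ∈ N := hN ▸ (Subgroup.centralizer_le_normalizer _) hy
  have hcomm : ∀ u ∈ (P : Subgroup G), u * y = y * u := Subgroup.mem_centralizer_iff.mp hy
  let S : SubMulAction (P : Subgroup G) (G ⧸ N) :=
    { carrier := MulAction.fixedBy (G ⧸ N) y
      smul_mem' := by
        intro u ω hω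
        rw [MulAction.mem_fixedBy] at hω ⊢
        change y • ((u : G) • ω) = (u : G) • ω
        rw [← mul_smul, ← hcomm (u : G) u.2, mul_smul, hω] }
  have h1 := P.isPGroup'.card_modEq_card_fixedPoints S
  have h2 : Nat.card (MulAction.fixedPoints (P : Subgroup G) S) = 1 := by
    rw [Nat.card_eq_one_iff_unique]
    constructor
    · constructor
      rintro ⟨⟨ω, hω⟩, hfix⟩ ⟨⟨ω', hω'⟩, hfix'⟩
      apply Subtype.ext
      apply Subtype.ext
      change ω = ω'
      have key : ∀ (ω : G ⧸ N) (hω : ω ∈ S), (⟨ω, hω⟩ : S) ∈ MulAction.fixedPoints (P : Subgroup G) S →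
          ω = (QuotientGroup.mk 1 : G ⧸ N) := by
        intro ω hω hfix
        obtain ⟨g, rfl⟩ := QuotientGroup.mk_surjective ω
        have hg : g ∈ N := by
          rw [hN]
          apply mem_normalizer_of_fixed P g
          intro u hu
          rw [← hN]
          have h3 := hfix ⟨u, hu⟩
          have h4 : u • (QuotientGroup.mk g : G ⧸ N) = QuotientGroup.mk g :=
            congrArg Subtype.val h3
          exact (S1018.fix_iff N u g).mp h4
        rw [QuotientGroup.eq]
        simpa using N.inv_mem hg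
      rw [key ω hω hfix, key ω' hω' hfix']
    · have hbase : (QuotientGroup.mk 1 : G ⧸ N) ∈ S := by
        change (QuotientGroup.mk 1 : G ⧸ N) ∈ MulAction.fixedBy (G ⧸ N) y
        rw [MulAction.mem_fixedBy, S1018.fix_iff]
        simpa using hyN
      refine ⟨⟨⟨QuotientGroup.mk 1, hbase⟩, ?_⟩⟩
      intro u
      apply Subtype.ext
      change (u : G) • (QuotientGroup.mk 1 : G ⧸ N) = QuotientGroup.mk 1
      rw [S1018.fix_iff]
      simpa using hPN u.2
  rw [h2] at h1
  exact h1

/-- Class equation: the class of `y` times its centraliser is the group order. -/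
lemma card_class_mul (y : G) :
    Nat.card {g : G // IsConj y g} * Nat.card (Subgroup.centralizer ({y} : Set G)) =
      Nat.card G := by
  have h1 := Helper22.index_centralizer_eq_ncard_carrier y
  have h2 : (ConjClasses.mk y).carrier = {g : G | IsConj y g} := by
    ext g
    rw [ConjClasses.mem_carrier_iff_mk_eq]
    change _ ↔ IsConj y g
    rw [ConjClasses.mk_eq_mk_iff_isConj]
    exact ⟨fun h => h.symm, fun h => h.symm⟩
  rw [h2] at h1
  have h3 : Nat.card {g : G // IsConj y g} = ({g : G | IsConj y g} : Set G).ncard :=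
    Nat.card_coe_set_eq _
  rw [h3, ← h1, mul_comm]
  exact Subgroup.card_mul_index _

/-- The elements of square one in `K` inject into `K / Z` when `Z` is a central subgroup of `K`
of odd order. -/
lemma card_sq_eq_one_le (Z K : Subgroup G) (hZK : Z ≤ K)
    (hcen : ∀ z ∈ Z, ∀ k ∈ K, z * k = k * z) (hodd : Odd (Nat.card Z)) :
    Nat.card {g : G // g ∈ K ∧ g ^ 2 = 1} ≤ Z.relIndex K := by
  rw [Subgroup.relIndex, Subgroup.index]
  apply Nat.card_le_card_of_injective (fun g : {g : G // g ∈ K ∧ g ^ 2 = 1} =>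
    (QuotientGroup.mk (⟨g.1, g.2.1⟩ : K) : K ⧸ Z.subgroupOf K))
  rintro ⟨g, hgK, hg2⟩ ⟨g', hgK', hg2'⟩ hh
  apply Subtype.ext
  change g = g'
  have h1 : (QuotientGroup.mk (⟨g, hgK⟩ : K) : K ⧸ Z.subgroupOf K) =
      QuotientGroup.mk (⟨g', hgK'⟩ : K) := hh
  rw [QuotientGroup.eq, Subgroup.mem_subgroupOf] at h1
  have hw : g⁻¹ * g' ∈ Z := h1
  have hc : (g⁻¹ * g') * g = g * (g⁻¹ * g') := hcen _ hw g hgK
  have hgg : g' * g = g * g' := by
    have e1 : g' * g = g * (g⁻¹ * g' * g) := by group
    have e2 : g * (g * (g⁻¹ * g')) = g * g' := by group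
    rw [e1, hc, e2]
  have hw2 : (g⁻¹ * g') ^ 2 = 1 := by
    have hginv : g⁻¹ = g := by
      rw [inv_eq_iff_eq_inv, eq_inv_iff_mul_eq_one, ← pow_two]; exact hg2
    rw [hginv, pow_two]
    have e3 : g * g' * (g * g') = g * (g' * g) * g' := by group
    rw [e3, hgg]
    have e4 : g * (g * g') * g' = (g * g) * (g' * g') := by group
    rw [e4, ← pow_two, ← pow_two, hg2, hg2', one_mul]
  have ho : orderOf (g⁻¹ * g') ∣ 2 := orderOf_dvd_of_pow_eq_one hw2
  have ho2 : orderOf (g⁻¹ * g') ∣ Nat.card Z := Subgroup.orderOf_dvd_natCard Z hw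
  have h1' : orderOf (g⁻¹ * g') = 1 := by
    rcases (Nat.dvd_prime Nat.prime_two).mp ho with h | h
    · exact h
    · exfalso
      rw [h] at ho2
      exact (Nat.not_even_iff_odd.mpr hodd) (even_iff_two_dvd.mpr ho2)
  have h2 : g⁻¹ * g' = 1 := orderOf_eq_one_iff.mp h1'
  exact (inv_mul_eq_one.mp h2)

/-- The number of involutions in `K` is less than the index of a central subgroup of odd order. -/
lemma card_invol_lt (Z K : Subgroup G) (hZK : Z ≤ K)
    (hcen : ∀ z ∈ Z, ∀ k ∈ K, z * k = k * z) (hodd : Odd (Nat.card Z)) :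
    Nat.card {g : G // g ∈ K ∧ orderOf g = 2} < Z.relIndex K := by
  refine lt_of_lt_of_le ?_ (card_sq_eq_one_le Z K hZK hcen hodd)
  have e1 : Nat.card {g : G // g ∈ K ∧ orderOf g = 2} =
      ({g : G | g ∈ K ∧ orderOf g = 2} : Set G).ncard := Nat.card_coe_set_eq _
  have e2 : Nat.card {g : G // g ∈ K ∧ g ^ 2 = 1} =
      ({g : G | g ∈ K ∧ g ^ 2 = 1} : Set G).ncard := Nat.card_coe_set_eq _
  rw [e1, e2]
  apply Set.ncard_lt_ncard _ (Set.toFinite _)
  constructor
  · rintro g ⟨hgK, hg⟩
    exact ⟨hgK, by rw [← hg]; exact pow_orderOf_eq_one g⟩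
  · intro h
    have h1 : (1 : G) ∈ {g : G | g ∈ K ∧ orderOf g = 2} := h ⟨K.one_mem, one_pow 2⟩
    have h2 : orderOf (1 : G) = 2 := h1.2
    rw [orderOf_one] at h2
    omega

/-- The number of solutions of `g ^ 2 = 1` in a subgroup of even order is even. -/
lemma even_card_sq_eq_one (K : Subgroup G) (hK : Even (Nat.card K)) :
    Even (Nat.card {g : G // g ∈ K ∧ g ^ 2 = 1}) := by
  classical
  haveI : Fintype K := Fintype.ofFinite _
  haveI : Fact (Nat.Prime 2) := ⟨Nat.prime_two⟩
  have h1 := Equiv.Perm.card_fixedPoints_modEq (α := K) (f := (fun k : K => k⁻¹)) (p := 2)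
    (n := 1) (by
      rw [pow_one]
      funext k
      change (k⁻¹)⁻¹ = k
      exact inv_inv k)
  have h2 : Nat.card (Function.fixedPoints (fun k : K => k⁻¹)) =
      Nat.card {g : G // g ∈ K ∧ g ^ 2 = 1} := by
    apply Nat.card_congr
    refine ⟨fun k => ⟨(k.1 : G), k.1.2, ?_⟩, fun g => ⟨⟨g.1, g.2.1⟩, ?_⟩, ?_, ?_⟩
    · have h3 : (k.1)⁻¹ = k.1 := k.2
      have h4 : ((k.1 : K) : G)⁻¹ = (k.1 : G) := congrArg Subtype.val h3
      rw [pow_two]
      nth_rewrite 1 [← h4]
      exact inv_mul_cancel _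
    · change (⟨g.1, g.2.1⟩ : K)⁻¹ = ⟨g.1, g.2.1⟩
      apply Subtype.ext
      change (g.1)⁻¹ = g.1
      rw [inv_eq_iff_eq_inv, eq_inv_iff_mul_eq_one, ← pow_two]
      exact g.2.2
    · intro k; rfl
    · intro g; rfl
  rw [← Nat.card_eq_fintype_card, ← Nat.card_eq_fintype_card, h2] at h1
  unfold Nat.ModEq at h1
  rw [Nat.even_iff] at hK ⊢
  omega

/-- If every nonidentity element of a subgroup `E` fixes exactly `f` cosets of `H`, then
`|E|` divides `|G : H| + (|E| - 1) f`. -/
lemma card_dvd_of_fix_const (H E : Subgroup G) (f : ℕ)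
    (hf : ∀ e ∈ E, e ≠ 1 → Nat.card (MulAction.fixedBy (G ⧸ H) e) = f) :
    Nat.card E ∣ H.index + (Nat.card E - 1) * f := by
  classical
  haveI : Fintype E := Fintype.ofFinite _
  haveI : Fintype (G ⧸ H) := Fintype.ofFinite _
  haveI : Fintype (MulAction.orbitRel.Quotient E (G ⧸ H)) := Fintype.ofFinite _
  have hB := MulAction.sum_card_fixedBy_eq_card_orbits_mul_card_group E (G ⧸ H)
  rw [← Finset.add_sum_erase Finset.univ _ (Finset.mem_univ (1 : E))] at hB
  have h1 : Fintype.card (MulAction.fixedBy (G ⧸ H) (1 : E)) = H.index := by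
    rw [Subgroup.index, Nat.card_eq_fintype_card]
    apply Fintype.card_congr
    exact (Equiv.subtypeUnivEquiv (fun c => by simp))
  have h2 : ∀ u ∈ (Finset.univ : Finset E).erase 1,
      Fintype.card (MulAction.fixedBy (G ⧸ H) u) = f := by
    intro u hu
    have hu1 : u ≠ 1 := (Finset.mem_erase.mp hu).1
    have h5 := hf (u : G) u.2 (fun h0 => hu1 (Subtype.ext h0))
    rw [Nat.card_eq_fintype_card] at h5
    rw [← h5]
    apply Fintype.card_congr
    exact Equiv.refl _
  rw [h1, Finset.sum_congr rfl h2, Finset.sum_const, Finset.card_erase_of_mem (Finset.mem_univ _),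
    Finset.card_univ, smul_eq_mul, ← Nat.card_eq_fintype_card] at hB
  rw [hB]
  exact Dvd.intro_left _ rfl

/-- Elements of `N_G(P)` outside `C_G(P)` fix at most `(n_p + p - 1) / p` cosets (`|P| = p`). -/
lemma fix_mul_le_of_not_mem {p : ℕ} [Fact p.Prime] (P : Sylow p G)
    (hP : Nat.card (P : Subgroup G) = p) (x : G)
    (hxN : x ∈ Subgroup.normalizer ((P : Subgroup G) : Set G))
    (hxC : x ∉ Subgroup.centralizer ((P : Subgroup G) : Set G)) :
    Nat.card (MulAction.fixedBy (G ⧸ Subgroup.normalizer ((P : Subgroup G) : Set G)) x) * p ≤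
      Nat.card (Sylow p G) + (p - 1) := by
  have h1 := (S1018.result p P hP).2 x hxN hxC
  have h2 := card_orbits_mul p P hP
  rw [← h2]
  exact Nat.mul_le_mul_right _ h1

/-- Order of the centraliser of a Sylow subgroup of order `p` from the index in the
normaliser. -/
lemma relIndex_mul_card_centralizer (P : Subgroup G) :
    (Subgroup.centralizer (P : Set G)).relIndex (Subgroup.normalizer (P : Set G)) *
      Nat.card (Subgroup.centralizer (P : Set G)) = Nat.card (Subgroup.normalizer (P : Set G)) := by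
  have hle : Subgroup.centralizer (P : Set G) ≤ Subgroup.normalizer (P : Set G) :=
    Subgroup.centralizer_le_normalizer _
  have h1 := ((Subgroup.centralizer (P : Set G)).subgroupOf
    (Subgroup.normalizer (P : Set G))).card_mul_index
  rw [Nat.card_congr (Subgroup.subgroupOfEquivOfLe hle).toEquiv] at h1
  rw [Subgroup.relIndex, mul_comm]
  exact h1

end Cfsg.Agent.Helper23.FixTools

namespace Cfsg.Agent.Helper23.FixTools

open Cfsg.Agent.Helper23.SimpleOrd

variable {G : Type*} [Group G] [Finite G]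

lemma card_mul_relIndex {H K : Subgroup G} (h : H ≤ K) :
    Nat.card H * H.relIndex K = Nat.card K := by
  have h1 := (H.subgroupOf K).card_mul_index
  rw [Nat.card_congr (Subgroup.subgroupOfEquivOfLe h).toEquiv] at h1
  exact h1

/-- A Sylow subgroup of prime order lies in its own centraliser. -/
lemma le_centralizer_of_card_prime {p : ℕ} [Fact p.Prime] (P : Sylow p G)
    (hP : Nat.card (P : Subgroup G) = p) :
    (P : Subgroup G) ≤ Subgroup.centralizer ((P : Subgroup G) : Set G) := by
  haveI := isCyclic_of_prime_card hP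
  intro u hu
  rw [Subgroup.mem_centralizer_iff]
  intro v hv
  have := mul_comm' (⟨v, hv⟩ : (P : Subgroup G)) ⟨u, hu⟩
  exact congrArg Subtype.val this

/-- A conjugate of `u` lying in `N_G(P)` lies in `C_G(P)` as soon as `u` has more fixed cosets
than `P` has orbits. -/
lemma conj_mem_centralizer {p : ℕ} [Fact p.Prime] (P : Sylow p G)
    (hP : Nat.card (P : Subgroup G) = p) (u g : G) (hconj : IsConj u g)
    (hgN : g ∈ Subgroup.normalizer ((P : Subgroup G) : Set G))
    (hbig : Nat.card (Sylow p G) + (p - 1) <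
      Nat.card (MulAction.fixedBy (G ⧸ Subgroup.normalizer ((P : Subgroup G) : Set G)) u) * p) :
    g ∈ Subgroup.centralizer ((P : Subgroup G) : Set G) := by
  by_contra hgC
  have h1 := fix_mul_le_of_not_mem P hP g hgN hgC
  rw [fix_isConj _ hconj] at h1
  omega

/-- Under the same hypothesis, the conjugates of `u` in `N_G(P)` are among the elements of
`C_G(P)` of the same order. -/
lemma card_conj_le {p : ℕ} [Fact p.Prime] (P : Sylow p G)
    (hP : Nat.card (P : Subgroup G) = p) (u : G)
    (hbig : Nat.card (Sylow p G) + (p - 1) <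
      Nat.card (MulAction.fixedBy (G ⧸ Subgroup.normalizer ((P : Subgroup G) : Set G)) u) * p) :
    Nat.card {g : G // IsConj u g ∧ g ∈ Subgroup.normalizer ((P : Subgroup G) : Set G)} ≤
      Nat.card {g : G // g ∈ Subgroup.centralizer ((P : Subgroup G) : Set G) ∧
        orderOf g = orderOf u} := by
  apply Nat.card_le_card_of_injective
    (fun g : {g : G // IsConj u g ∧ g ∈ Subgroup.normalizer ((P : Subgroup G) : Set G)} =>
      (⟨g.1, conj_mem_centralizer P hP u g.1 g.2.1 g.2.2 hbig, by
        obtain ⟨c, hc⟩ := isConj_iff.mp g.2.1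
        rw [← hc]
        exact (MulAut.conj c).orderOf_eq u⟩ :
        {g : G // g ∈ Subgroup.centralizer ((P : Subgroup G) : Set G) ∧ orderOf g = orderOf u}))
  intro g g' hgg
  have h3 : (g : G) = (g' : G) := congrArg (fun t : {g : G // g ∈ Subgroup.centralizer
    ((P : Subgroup G) : Set G) ∧ orderOf g = orderOf u} => (t : G)) hgg
  exact Subtype.ext h3

/-- The number of involutions of `C_G(P)` is less than `|C_G(P)| / p` (`|P| = p` odd). -/
lemma card_invol_centralizer_lt {p : ℕ} [Fact p.Prime] (P : Sylow p G)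
    (hP : Nat.card (P : Subgroup G) = p) (hp : Odd p) :
    Nat.card {g : G // g ∈ Subgroup.centralizer ((P : Subgroup G) : Set G) ∧ orderOf g = 2} <
      (P : Subgroup G).relIndex (Subgroup.centralizer ((P : Subgroup G) : Set G)) :=
  card_invol_lt (P : Subgroup G) _ (le_centralizer_of_card_prime P hP)
    (fun z hz k hk => Subgroup.mem_centralizer_iff.mp hk z hz) (by rw [hP]; exact hp)

/-- An element of prime order `r` in a subgroup `K` whose order is divisible by `r`. -/
lemma exists_mem_orderOf (K : Subgroup G) (r : ℕ) [Fact r.Prime] (h : r ∣ Nat.card K) :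
    ∃ u : G, u ∈ K ∧ orderOf u = r := by
  obtain ⟨x, hx⟩ := exists_prime_orderOf_dvd_card' (G := K) r h
  exact ⟨(x : G), x.2, by rw [Subgroup.orderOf_coe]; exact hx⟩

/-- A subgroup of order `r ^ k` inside a subgroup `K` whose order is divisible by `r ^ k`. -/
lemma exists_le_card_pow (K : Subgroup G) (r k : ℕ) [Fact r.Prime] (h : r ^ k ∣ Nat.card K) :
    ∃ E : Subgroup G, E ≤ K ∧ Nat.card E = r ^ k := by
  obtain ⟨E, hE⟩ := Sylow.exists_subgroup_card_pow_prime (G := K) r h
  refine ⟨E.map K.subtype, Subgroup.map_subtype_le E, ?_⟩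
  rw [Subgroup.card_map_of_injective (Subgroup.subtype_injective K), hE]

/-- Elements of a subgroup of order `m` have `m`-th power one. -/
lemma pow_card_eq_one_of_mem (E : Subgroup G) {e : G} (he : e ∈ E) : e ^ Nat.card E = 1 := by
  have h1 : (⟨e, he⟩ : E) ^ Nat.card E = 1 := pow_card_eq_one'
  exact congrArg Subtype.val h1

end Cfsg.Agent.Helper23.FixTools

namespace Cfsg.Agent.Helper23.FixTools

open Cfsg.Agent.Helper23.SimpleOrd

variable {G : Type*} [Group G] [Finite G]

/-- Basic facts on the normaliser `N` and centraliser `C` of a Sylow subgroup of prime order in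
a simple group. -/
lemma setup [IsSimpleGroup G] {p : ℕ} [Fact p.Prime] (P : Sylow p G)
    (hP : Nat.card (P : Subgroup G) = p) (hG : Nat.card G ≠ p) :
    Subgroup.normalizer ((P : Subgroup G) : Set G) ≠ ⊤ ∧
    (Subgroup.normalizer ((P : Subgroup G) : Set G)).index = Nat.card (Sylow p G) ∧
    Nat.card (Subgroup.normalizer ((P : Subgroup G) : Set G)) * Nat.card (Sylow p G) =
      Nat.card G ∧
    (Subgroup.centralizer ((P : Subgroup G) : Set G)).relIndex
      (Subgroup.normalizer ((P : Subgroup G) : Set G)) ∣ p - 1 ∧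
    (Subgroup.centralizer ((P : Subgroup G) : Set G)).relIndex
      (Subgroup.normalizer ((P : Subgroup G) : Set G)) ≠ 1 ∧
    (Subgroup.centralizer ((P : Subgroup G) : Set G)).relIndex
      (Subgroup.normalizer ((P : Subgroup G) : Set G)) *
        Nat.card (Subgroup.centralizer ((P : Subgroup G) : Set G)) =
      Nat.card (Subgroup.normalizer ((P : Subgroup G) : Set G)) ∧
    Nat.card (P : Subgroup G) * (P : Subgroup G).relIndex
      (Subgroup.centralizer ((P : Subgroup G) : Set G)) =
      Nat.card (Subgroup.centralizer ((P : Subgroup G) : Set G)) := by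
  have h1 : Nat.card (Sylow p G) ≠ 1 := card_sylow_ne_one P hP hG
  have hidx : (Subgroup.normalizer ((P : Subgroup G) : Set G)).index = Nat.card (Sylow p G) :=
    (P.card_eq_index_normalizer).symm
  refine ⟨?_, hidx, Lead.card_normalizer_mul_card_sylow P, ?_, ?_,
    relIndex_mul_card_centralizer _, card_mul_relIndex (le_centralizer_of_card_prime P hP)⟩
  · intro h0
    rw [h0, Subgroup.index_top] at hidx
    exact h1 hidx.symm
  · have := Lead.relIndex_centralizer_dvd_card_mulAut (P : Subgroup G)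
    rw [Lead.card_mulAut_of_prime_card hP] at this
    exact this
  · intro h0
    exact not_le_centralizer_of_simple P hP hG (Subgroup.relIndex_eq_one.mp h0)

end Cfsg.Agent.Helper23.FixTools
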