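import Mathlib
import Cfsg.Prelude.Def_Solvable

set_option autoImplicit false

namespace Cfsg.Agent.Helper23

open SemidirectProduct
open Pointwise

universe u v w

/-- A fixed-point-free action gives a Frobenius complement in the semidirect product. -/
theorem frobenius_of_fpf {N : Type u} {H : Type v} [Group N] [Group H] [Nontrivial N]
    [Nontrivial H] (φ : H →* MulAut N) (hfpf : ∀ h : H, h ≠ 1 → ∀ n : N, φ h n = n → n = 1) :
    Cfsg.IsFrobeniusComplement (inr : H →* N ⋊[φ] H).range := by
  refine ⟨?_, ?_, ?_⟩
  · obtain ⟨h, hh⟩ := exists_ne (1 : H)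
    intro hbot
    have h1 : (inr h : N ⋊[φ] H) ∈ (inr : H →* N ⋊[φ] H).range := ⟨h, rfl⟩
    rw [hbot, Subgroup.mem_bot] at h1
    exact hh (inr_injective (h1.trans (map_one inr).symm))
  · obtain ⟨n, hn⟩ := exists_ne (1 : N)
    intro htop
    have h1 : (inl n : N ⋊[φ] H) ∈ (inr : H →* N ⋊[φ] H).range := by
      rw [htop]
      trivial
    obtain ⟨h, hh⟩ := h1
    have h2 := congrArg SemidirectProduct.left hh
    simp only [left_inr, left_inl] at h2
    exact hn h2.symm
  · intro g hg
    rw [eq_bot_iff]
    intro x hx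
    rw [Subgroup.mem_inf] at hx
    obtain ⟨⟨k, rfl⟩, hx2⟩ := hx
    rw [Subgroup.mem_pointwise_smul_iff_inv_smul_mem] at hx2
    obtain ⟨k', hk'⟩ := hx2
    have h1 : g * inr k' = inr k * g := by
      rw [hk']
      simp [MulAut.smul_def, mul_assoc]
    have h2 := congrArg SemidirectProduct.left h1
    simp only [mul_left, left_inr, right_inr, map_one, one_mul, mul_one] at h2
    rw [Subgroup.mem_bot]
    by_contra hk
    have hk1 : k ≠ 1 := fun h => hk (by rw [h, map_one])
    have h3 : g.left = 1 := hfpf k hk1 g.left h2.symm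
    apply hg
    refine ⟨g.right, ?_⟩
    ext <;> simp [h3]

/-- Frobenius complements are preserved by isomorphisms. -/
theorem isFrobeniusComplement_map {L : Type u} {L' : Type v} [Group L] [Group L'] (e : L ≃* L')
    {K : Subgroup L} (hK : Cfsg.IsFrobeniusComplement K) :
    Cfsg.IsFrobeniusComplement (K.map e.toMonoidHom) := by
  obtain ⟨h1, h2, h3⟩ := hK
  refine ⟨?_, ?_, ?_⟩
  · intro h
    apply h1
    rwa [Subgroup.map_eq_bot_iff_of_injective _ e.injective] at h
  · intro h
    apply h2
    rw [eq_top_iff] at h ⊢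
    intro x _
    obtain ⟨y, hy, hxy⟩ := h (Subgroup.mem_top (e x))
    have h4 : y = x := e.injective hxy
    exact h4 ▸ hy
  · intro g' hg'
    obtain ⟨g, rfl⟩ := e.surjective g'
    have hg : g ∉ K := fun h => hg' ⟨g, h, rfl⟩
    rw [eq_bot_iff]
    intro x' hx'
    rw [Subgroup.mem_inf] at hx'
    obtain ⟨⟨x, hx, rfl⟩, hx2⟩ := hx'
    rw [Subgroup.mem_pointwise_smul_iff_inv_smul_mem] at hx2
    obtain ⟨y, hy, hxy⟩ := hx2
    have hy' : y = g⁻¹ * x * g := by
      apply e.injective
      have h5 : e y = (MulAut.conj (e g))⁻¹ • e x := hxy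
      rw [h5]
      simp [MulAut.smul_def]
    have hx3 : x ∈ K ⊓ (MulAut.conj g • K) := by
      rw [Subgroup.mem_inf]
      refine ⟨hx, ?_⟩
      rw [Subgroup.mem_pointwise_smul_iff_inv_smul_mem]
      have h6 : (MulAut.conj g)⁻¹ • x = g⁻¹ * x * g := by simp [MulAut.smul_def]
      rw [h6, ← hy']
      exact hy
    rw [h3 g hg, Subgroup.mem_bot] at hx3
    rw [Subgroup.mem_bot, hx3]
    exact map_one _

/-- Any finite group with a Frobenius complement can be replaced by one living in `Type`. -/
theorem exists_type0 {L : Type u} [Group L] [Finite L] {K : Subgroup L}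
    (hK : Cfsg.IsFrobeniusComplement K) {C : Type v} [Group C] (e : C ≃* K) :
    ∃ (L' : Type) (_ : Group L') (_ : Finite L') (K' : Subgroup L'),
      Cfsg.IsFrobeniusComplement K' ∧ Nonempty (C ≃* K') := by
  classical
  obtain ⟨n, ⟨f0⟩⟩ := Finite.exists_equiv_fin L
  let f : L ≃ {i : ℕ // i < n} := f0.trans Fin.equivSubtype
  letI : Group {i : ℕ // i < n} := f.symm.group
  let e' : L ≃* {i : ℕ // i < n} := (f.symm.mulEquiv).symm
  have hfin : Finite {i : ℕ // i < n} := Finite.of_equiv _ f
  exact ⟨{i : ℕ // i < n}, inferInstance, hfin, K.map e'.toMonoidHom,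
    isFrobeniusComplement_map e' hK,
    ⟨e.trans (K.equivMapOfInjective e'.toMonoidHom e'.injective)⟩⟩

/-- the homomorphism into `MulAut (Multiplicative V)` attached to a distributive action. -/
def actHom (H : Type u) (V : Type v) [Group H] [AddGroup V] [DistribMulAction H V] :
    H →* MulAut (Multiplicative V) where
  toFun h :=
    { toFun := fun x => Multiplicative.ofAdd (h • Multiplicative.toAdd x)
      invFun := fun x => Multiplicative.ofAdd (h⁻¹ • Multiplicative.toAdd x)
      left_inv := fun x => by simp
      right_inv := fun x => by simp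
      map_mul' := fun x y => by simp [smul_add] }
  map_one' := by
    ext x
    simp
  map_mul' := fun g h => by
    ext x
    simp [mul_smul]

theorem actHom_apply {H : Type u} {V : Type v} [Group H] [AddGroup V] [DistribMulAction H V]
    (h : H) (x : Multiplicative V) :
    actHom H V h x = Multiplicative.ofAdd (h • Multiplicative.toAdd x) := rfl

/-- A finite group acting fixed-point-freely (by additive automorphisms) on a nontrivial finite
additive group is a Frobenius complement. -/
theorem exists_frobenius_of_distrib {H : Type u} {V : Type v} [Group H] [AddGroup V]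
    [DistribMulAction H V] [Finite H] [Finite V] [Nontrivial H] [Nontrivial V]
    (hfpf : ∀ h : H, h ≠ 1 → ∀ v : V, h • v = v → v = 0) :
    ∃ (L : Type) (_ : Group L) (_ : Finite L) (K : Subgroup L),
      Cfsg.IsFrobeniusComplement K ∧ Nonempty (H ≃* K) := by
  have hF := frobenius_of_fpf (actHom H V) (by
    intro h hh n hn
    have h1 : h • Multiplicative.toAdd n = Multiplicative.toAdd n :=
      congrArg Multiplicative.toAdd hn
    have h2 := hfpf h hh _ h1
    exact Multiplicative.toAdd.injective h2)
  haveI : Finite (Multiplicative V ⋊[actHom H V] H) :=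
    Finite.of_equiv _ SemidirectProduct.equivProd.symm
  exact exists_type0 hF (MonoidHom.ofInjective inr_injective)

end Cfsg.Agent.Helper23
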