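import Mathlib
import Cfsg.Agent.Helper13.Syl
import Cfsg.Agent.Helper1.Fusion

/-!
# Tools for Hall subgroups that are direct products (general lemmas)
-/

set_option autoImplicit false

namespace Cfsg.Agent.Helper23.HallProdA

open Cfsg
open scoped Pointwise

variable {G : Type*} [Group G]

/-- An element all of whose primary parts lie in a subgroup lies in that subgroup. -/
lemma mem_of_primary (C : Subgroup G) :
    ∀ (n : ℕ) (y : G), orderOf y = n → 0 < n →
      (∀ z ∈ Subgroup.zpowers y, (∃ q k : ℕ, q.Prime ∧ orderOf z = q ^ k) → z ∈ C) → y ∈ C := by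
  intro n
  induction n using Nat.strong_induction_on with
  | _ n ih =>
    intro y hy hn hz
    by_cases hn1 : n = 1
    · rw [hn1] at hy
      rw [orderOf_eq_one_iff.mp hy]
      exact C.one_mem
    · have hq : (n.minFac).Prime := Nat.minFac_prime hn1
      have hqn : n.minFac ∣ n := Nat.minFac_dvd n
      obtain ⟨k, m, hqm, hnkm⟩ := Nat.exists_eq_pow_mul_and_not_dvd hn.ne' n.minFac hq.ne_one
      set q := n.minFac with hqdef
      have hk : k ≠ 0 := by
        rintro rfl
        rw [pow_zero, one_mul] at hnkm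
        rw [hnkm] at hqn
        exact hqm hqn
      have hm0 : m ≠ 0 := by
        rintro rfl
        rw [mul_zero] at hnkm
        omega
      have hqk0 : q ^ k ≠ 0 := pow_ne_zero k hq.ne_zero
      have hmn : m < n := by
        rw [hnkm]
        have h2 : 2 ≤ q ^ k := by
          calc 2 ≤ q := hq.two_le
            _ = q ^ 1 := (pow_one q).symm
            _ ≤ q ^ k := Nat.pow_le_pow_right hq.pos (Nat.pos_of_ne_zero hk)
        have hm1 : 1 ≤ m := Nat.pos_of_ne_zero hm0
        nlinarith
      have ho1 : orderOf (y ^ m) = q ^ k := by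
        rw [orderOf_pow_of_dvd hm0 (by rw [hy, hnkm]; exact dvd_mul_left m _), hy, hnkm,
          Nat.mul_div_cancel _ (Nat.pos_of_ne_zero hm0)]
      have ho2 : orderOf (y ^ (q ^ k)) = m := by
        rw [orderOf_pow_of_dvd hqk0 (by rw [hy, hnkm]; exact dvd_mul_right _ m), hy, hnkm,
          Nat.mul_div_cancel_left _ (Nat.pos_of_ne_zero hqk0)]
      have h1 : y ^ m ∈ C :=
        hz _ (Subgroup.pow_mem _ (Subgroup.mem_zpowers y) m) ⟨q, k, hq, ho1⟩
      have h2 : y ^ (q ^ k) ∈ C := by
        apply ih m hmn (y ^ (q ^ k)) ho2 (Nat.pos_of_ne_zero hm0)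
        intro z hzz hzq
        apply hz z _ hzq
        exact (Subgroup.zpowers_le.mpr (Subgroup.pow_mem _ (Subgroup.mem_zpowers y) _)) hzz
      have hcop : Nat.Coprime m (q ^ k) :=
        Nat.Coprime.pow_right k ((Nat.Prime.coprime_iff_not_dvd hq).mpr hqm).symm
      obtain ⟨u, v, huv⟩ := Nat.isCoprime_iff_coprime.mpr hcop
      have hy1 : y = (y ^ m) ^ u * (y ^ (q ^ k)) ^ v := by
        rw [← zpow_natCast y m, ← zpow_natCast y (q ^ k), ← zpow_mul, ← zpow_mul, ← zpow_add]
        have : (m : ℤ) * u + ((q ^ k : ℕ) : ℤ) * v = 1 := by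
          rw [mul_comm (m : ℤ), mul_comm ((q ^ k : ℕ) : ℤ)]; exact huv
        rw [this, zpow_one]
      rw [hy1]
      exact C.mul_mem (C.zpow_mem h1 u) (C.zpow_mem h2 v)

variable [Finite G]

/-- If a Sylow `p`-subgroup of `G` centralizes the subgroup `S`, every `p`-element normalizing
`S` centralizes it. -/
lemma cent_of_sylow_cent {p : ℕ} [Fact p.Prime] (S : Subgroup G) (P : Sylow p G)
    (hP : (P : Subgroup G) ≤ Subgroup.centralizer (S : Set G)) (y : G)
    (hy : y ∈ Subgroup.normalizer (S : Set G)) (k : ℕ) (hyo : orderOf y = p ^ k) :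
    y ∈ Subgroup.centralizer (S : Set G) := by
  have hPN : (P : Subgroup G) ≤ Subgroup.normalizer (S : Set G) :=
    hP.trans (Subgroup.centralizer_le_normalizer _)
  have hY : IsPGroup p (Subgroup.zpowers y) :=
    Helper13.isPGroup_zpowers_of_pow_eq_one y k (by rw [← hyo]; exact pow_orderOf_eq_one y)
  obtain ⟨h, hh, hconj⟩ := Helper13.exists_conj_le_sylow_in (Subgroup.normalizer (S : Set G)) P hPN
    (Subgroup.zpowers y) (Subgroup.zpowers_le.mpr hy) hY
  have h1 : h * y * h⁻¹ ∈ Subgroup.centralizer (S : Set G) := hP (hconj y (Subgroup.mem_zpowers y))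
  rw [Subgroup.mem_centralizer_iff] at h1 ⊢
  intro x hx
  have hx' : h * x * h⁻¹ ∈ S := (Subgroup.mem_normalizer_iff.mp hh x).mp hx
  have h2 := h1 _ hx'
  have h3 : x * y = h⁻¹ * (h * x * h⁻¹ * (h * y * h⁻¹)) * h := by group
  rw [h3, h2]
  group

/-- A subgroup of index prime to `p` contains a Sylow `p`-subgroup of `G`. -/
lemma exists_sylow_le {p : ℕ} [Fact p.Prime] (L : Subgroup G) (hL : ¬ p ∣ L.index) :
    ∃ P : Sylow p G, (P : Subgroup G) ≤ L := by
  obtain ⟨P₀⟩ : Nonempty (Sylow p L) := inferInstance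
  have h1 : IsPGroup p ((P₀ : Subgroup L).map L.subtype) := P₀.2.map L.subtype
  have h2 : ¬ p ∣ ((P₀ : Subgroup L).map L.subtype).index := by
    rw [Subgroup.index_map_subtype]
    intro h
    rcases (Nat.Prime.dvd_mul Fact.out).mp h with h | h
    · exact P₀.not_dvd_index h
    · exact hL h
  refine ⟨h1.toSylow h2, ?_⟩
  rw [IsPGroup.toSylow_coe]
  exact Subgroup.map_subtype_le _

end Cfsg.Agent.Helper23.HallProdA
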