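import Mathlib
import Cfsg.Prelude.Def_OddOrderLocal
import Cfsg.Prelude.Def_HallClasses
import Cfsg.Agent.S0001
import Cfsg.Agent.Helper23.HallProdA

/-!
# Hall subgroups that are direct products `Hs × Ht` with `Hs` nilpotent: local facts
-/

set_option autoImplicit false

namespace Cfsg.Agent.Helper23.HallProdB

open Cfsg
open Cfsg.Agent.Helper23.HallProdA
open scoped Pointwise

universe u

variable {G : Type u} [Group G] [Finite G]

/-- The hypotheses on the two commuting factors of the Hall subgroup. -/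
structure Hyp (σ τ : Set ℕ) (Hs Ht : Subgroup G) : Prop where
  hd : Disjoint σ τ
  hs : Cfsg.IsPiSubgroup σ Hs
  ht : Cfsg.IsPiSubgroup τ Ht
  hsn : Group.IsNilpotent Hs
  hcomm : ∀ a ∈ Hs, ∀ b ∈ Ht, a * b = b * a
  hHall : ∀ p : ℕ, p.Prime → p ∈ σ ∪ τ → ¬ p ∣ (Hs ⊔ Ht).index
  hD : Cfsg.IsDPiGroup τ G

omit [Finite G] in
lemma card_sup_dvd (Hs Ht : Subgroup G) (hcomm : ∀ a ∈ Hs, ∀ b ∈ Ht, a * b = b * a) :
    Nat.card ↥(Hs ⊔ Ht) ∣ Nat.card Hs * Nat.card Ht := by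
  have hc : ∀ (a : Hs) (b : Ht), Commute (Hs.subtype a) (Ht.subtype b) :=
    fun a b => hcomm a a.2 b b.2
  have h1 := MonoidHom.noncommCoprod_range Hs.subtype Ht.subtype hc
  rw [Subgroup.range_subtype, Subgroup.range_subtype] at h1
  have h2 := Subgroup.card_range_dvd (MonoidHom.noncommCoprod Hs.subtype Ht.subtype hc)
  rw [h1, Nat.card_prod] at h2
  exact h2

lemma card_mul_relIndex {A L : Subgroup G} (h : A ≤ L) :
    Nat.card A * A.relIndex L = Nat.card L := by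
  have h1 := Subgroup.card_mul_index (A.subgroupOf L)
  rw [Cfsg.Agent.S0001.card_subgroupOf_of_le h] at h1
  exact h1

variable {σ τ : Set ℕ} {Hs Ht : Subgroup G}

lemma Hyp.relIndex_s (hyp : Hyp σ τ Hs Ht) : Hs.relIndex (Hs ⊔ Ht) ∣ Nat.card Ht := by
  have h1 := card_mul_relIndex (le_sup_left : Hs ≤ Hs ⊔ Ht)
  have h2 := card_sup_dvd Hs Ht hyp.hcomm
  rw [← h1] at h2
  exact Nat.dvd_of_mul_dvd_mul_left Nat.card_pos h2

lemma Hyp.relIndex_t (hyp : Hyp σ τ Hs Ht) : Ht.relIndex (Hs ⊔ Ht) ∣ Nat.card Hs := by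
  have h1 := card_mul_relIndex (le_sup_right : Ht ≤ Hs ⊔ Ht)
  have h2 := card_sup_dvd Hs Ht hyp.hcomm
  rw [← h1, mul_comm (Nat.card Hs)] at h2
  exact Nat.dvd_of_mul_dvd_mul_left Nat.card_pos h2

lemma Hyp.not_mem_both (hyp : Hyp σ τ Hs Ht) {p : ℕ} (h1 : p ∈ σ) (h2 : p ∈ τ) : False :=
  Set.disjoint_left.mp hyp.hd h1 h2

/-- `Hs` is a Hall `σ`-subgroup. -/
lemma Hyp.index_s (hyp : Hyp σ τ Hs Ht) {p : ℕ} (hp : p.Prime) (hpσ : p ∈ σ) :
    ¬ p ∣ Hs.index := by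
  rw [← Subgroup.relIndex_mul_index (le_sup_left : Hs ≤ Hs ⊔ Ht)]
  intro h
  rcases (Nat.Prime.dvd_mul hp).mp h with h | h
  · exact hyp.not_mem_both hpσ (hyp.ht p hp (h.trans hyp.relIndex_s))
  · exact hyp.hHall p hp (Or.inl hpσ) h

/-- `Ht` is a Hall `τ`-subgroup. -/
lemma Hyp.index_t (hyp : Hyp σ τ Hs Ht) {p : ℕ} (hp : p.Prime) (hpτ : p ∈ τ) :
    ¬ p ∣ Ht.index := by
  rw [← Subgroup.relIndex_mul_index (le_sup_right : Ht ≤ Hs ⊔ Ht)]
  intro h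
  rcases (Nat.Prime.dvd_mul hp).mp h with h | h
  · exact hyp.not_mem_both (hyp.hs p hp (h.trans hyp.relIndex_t)) hpτ
  · exact hyp.hHall p hp (Or.inr hpτ) h

lemma Hyp.sylow_s (hyp : Hyp σ τ Hs Ht) {p : ℕ} [Fact p.Prime] (hpσ : p ∈ σ) :
    ∃ P : Sylow p G, (P : Subgroup G) ≤ Hs :=
  exists_sylow_le Hs (hyp.index_s Fact.out hpσ)

lemma Hyp.sylow_t (hyp : Hyp σ τ Hs Ht) {p : ℕ} [Fact p.Prime] (hpτ : p ∈ τ) :
    ∃ P : Sylow p G, (P : Subgroup G) ≤ Ht :=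
  exists_sylow_le Ht (hyp.index_t Fact.out hpτ)

/-- `Ht` is a maximal `τ`-subgroup. -/
lemma Hyp.maximal_t (hyp : Hyp σ τ Hs Ht) : Maximal (Cfsg.IsPiSubgroup τ) Ht := by
  refine ⟨hyp.ht, ?_⟩
  intro T hT hle
  rw [← Subgroup.relIndex_eq_one]
  by_contra hne
  obtain ⟨q, hq, hqd⟩ := Nat.exists_prime_and_dvd hne
  have hqτ : q ∈ τ := hT q hq (hqd.trans (Subgroup.relIndex_dvd_card _ _))
  exact hyp.index_t hq hqτ (hqd.trans (Subgroup.relIndex_dvd_index_of_le hle))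

/-- A prime of `σ` dividing `|G|` divides `|Hs|`. -/
lemma Hyp.dvd_card_s (hyp : Hyp σ τ Hs Ht) {p : ℕ} (hp : p.Prime) (hpσ : p ∈ σ)
    (h : p ∣ Nat.card G) : p ∣ Nat.card Hs := by
  rw [← Subgroup.card_mul_index Hs] at h
  rcases (Nat.Prime.dvd_mul hp).mp h with h | h
  · exact h
  · exact absurd h (hyp.index_s hp hpσ)

/-- Every `τ`-subgroup lies in a conjugate of `Ht`. -/
lemma Hyp.le_conj_t (hyp : Hyp σ τ Hs Ht) (S : Subgroup G) (hS : Cfsg.IsPiSubgroup τ S) :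
    ∃ g : G, S ≤ Ht.map (MulAut.conj g).toMonoidHom := by
  obtain ⟨M₀, hle, hM₀⟩ := Finite.exists_le_maximal (p := Cfsg.IsPiSubgroup τ) (a := S) hS
  obtain ⟨g, hg⟩ := hyp.hD Ht M₀ hyp.maximal_t hM₀
  exact ⟨g, hg ▸ hle⟩

/-- Lemma A: commuting Sylow subgroups for `p ∈ σ` and any other prime of `σ ∪ τ`. -/
lemma Hyp.exists_sylow_comm (hyp : Hyp σ τ Hs Ht) {p q : ℕ} [Fact p.Prime] [Fact q.Prime]
    (hpσ : p ∈ σ) (hq : q ∈ σ ∪ τ) (hne : q ≠ p) :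
    ∃ (P : Sylow p G) (R : Sylow q G),
      (R : Subgroup G) ≤ Subgroup.centralizer ((P : Subgroup G) : Set G) := by
  obtain ⟨P, hP⟩ := hyp.sylow_s hpσ
  rcases hq with hq | hq
  · obtain ⟨R, hR⟩ := hyp.sylow_s hq
    refine ⟨P, R, ?_⟩
    haveI := hyp.hsn
    have hPn : ((P.subtype hP : Sylow p Hs) : Subgroup Hs).Normal := inferInstance
    have hRn : ((R.subtype hR : Sylow q Hs) : Subgroup Hs).Normal := inferInstance
    have hdis : Disjoint ((P.subtype hP : Sylow p Hs) : Subgroup Hs)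
        ((R.subtype hR : Sylow q Hs) : Subgroup Hs) :=
      IsPGroup.disjoint_of_ne p q hne.symm _ _ (P.subtype hP).2 (R.subtype hR).2
    intro r hr
    rw [Subgroup.mem_centralizer_iff]
    intro x hx
    have hx' : (⟨x, hP hx⟩ : Hs) ∈ ((P.subtype hP : Sylow p Hs) : Subgroup Hs) := by
      rw [Sylow.coe_subtype]
      exact Subgroup.mem_subgroupOf.mpr hx
    have hr' : (⟨r, hR hr⟩ : Hs) ∈ ((R.subtype hR : Sylow q Hs) : Subgroup Hs) := by
      rw [Sylow.coe_subtype]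
      exact Subgroup.mem_subgroupOf.mpr hr
    have h1 := Subgroup.commute_of_normal_of_disjoint _ _ hPn hRn hdis _ _ hx' hr'
    have h2 := congrArg (Subtype.val) h1.eq
    exact h2
  · obtain ⟨R, hR⟩ := hyp.sylow_t hq
    refine ⟨P, R, ?_⟩
    intro r hr
    rw [Subgroup.mem_centralizer_iff]
    intro x hx
    exact hyp.hcomm x (hP hx) r (hR hr)

/-- Lemma B: a `q`-element normalizing a `p`-subgroup (`p ∈ σ`, `q ∈ σ ∪ τ`, `q ≠ p`)
centralizes it. -/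
lemma Hyp.cent_p (hyp : Hyp σ τ Hs Ht) {p q : ℕ} [Fact p.Prime] [Fact q.Prime]
    (hpσ : p ∈ σ) (hq : q ∈ σ ∪ τ) (hne : q ≠ p) (Q : Subgroup G) (hQ : IsPGroup p Q)
    (y : G) (hy : y ∈ Subgroup.normalizer (Q : Set G)) (k : ℕ) (hyo : orderOf y = q ^ k) :
    y ∈ Subgroup.centralizer (Q : Set G) := by
  obtain ⟨P₀, R₀, hPR⟩ := hyp.exists_sylow_comm hpσ hq hne
  obtain ⟨P₁, hQP⟩ := hQ.exists_le_sylow
  obtain ⟨g, hg⟩ := MulAction.exists_smul_eq G P₀ P₁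
  refine cent_of_sylow_cent Q (g • R₀) ?_ y hy k hyo
  intro r hr
  have hr : r ∈ g • R₀ := hr
  rw [Helper13.mem_smul_sylow] at hr
  rw [Subgroup.mem_centralizer_iff]
  intro x hx
  have hx1 : x ∈ g • P₀ := by rw [hg]; exact hQP hx
  rw [Helper13.mem_smul_sylow] at hx1
  have h1 := Subgroup.mem_centralizer_iff.mp (hPR hr) _ hx1
  have h2 : x * r = g * (g⁻¹ * x * g * (g⁻¹ * r * g)) * g⁻¹ := by group
  rw [h2, h1]
  group

/-- Lemma B+: an element of `σ ∪ τ`-order prime to `p` normalizing a `p`-subgroup (`p ∈ σ`)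
centralizes it. -/
lemma Hyp.cent_p' (hyp : Hyp σ τ Hs Ht) {p : ℕ} [Fact p.Prime]
    (hpσ : p ∈ σ) (Q : Subgroup G) (hQ : IsPGroup p Q)
    (y : G) (hy : y ∈ Subgroup.normalizer (Q : Set G)) (hcop : Nat.Coprime (orderOf y) p)
    (hyπ : ∀ q : ℕ, q.Prime → q ∣ orderOf y → q ∈ σ ∪ τ) :
    y ∈ Subgroup.centralizer (Q : Set G) := by
  refine mem_of_primary _ (orderOf y) y rfl (orderOf_pos y) ?_
  rintro z hz ⟨q, k, hq, hzo⟩
  have hzN : z ∈ Subgroup.normalizer (Q : Set G) := (Subgroup.zpowers_le.mpr hy) hz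
  rcases Nat.eq_zero_or_pos k with hk | hk
  · rw [hk, pow_zero, orderOf_eq_one_iff] at hzo
    rw [hzo]
    exact Subgroup.one_mem _
  · have hqz : q ∣ orderOf z := by rw [hzo]; exact dvd_pow_self q hk.ne'
    have hqy : q ∣ orderOf y := hqz.trans (orderOf_dvd_of_mem_zpowers hz)
    haveI : Fact q.Prime := ⟨hq⟩
    have hne : q ≠ p := by
      rintro rfl
      have := Nat.eq_one_of_dvd_coprimes hcop hqy dvd_rfl
      exact hq.one_lt.ne' this
    exact hyp.cent_p hpσ (hyπ q hq hqy) hne Q hQ z hzN k hzo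

/-- Lemma C: a `p`-element (`p ∈ σ`) normalizing a `τ`-subgroup centralizes it. -/
lemma Hyp.cent_t (hyp : Hyp σ τ Hs Ht) {p : ℕ} [Fact p.Prime]
    (hpσ : p ∈ σ) (S : Subgroup G) (hS : Cfsg.IsPiSubgroup τ S)
    (y : G) (hy : y ∈ Subgroup.normalizer (S : Set G)) (k : ℕ) (hyo : orderOf y = p ^ k) :
    y ∈ Subgroup.centralizer (S : Set G) := by
  obtain ⟨g, hg⟩ := hyp.le_conj_t S hS
  obtain ⟨P₀, hP₀⟩ := hyp.sylow_s hpσ
  refine cent_of_sylow_cent S (g • P₀) ?_ y hy k hyo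
  intro x hx
  have hx : x ∈ g • P₀ := hx
  rw [Helper13.mem_smul_sylow] at hx
  rw [Subgroup.mem_centralizer_iff]
  intro s hs
  obtain ⟨b, hb, hbs⟩ := Subgroup.mem_map.mp (hg hs)
  have hbs' : s = g * b * g⁻¹ := by rw [← hbs]; rfl
  have h1 := hyp.hcomm _ (hP₀ hx) b hb
  have h2 : s * x = g * (b * (g⁻¹ * x * g)) * g⁻¹ := by rw [hbs']; group
  rw [h2, ← h1, hbs']
  group

/-- Lemma C+: a `σ`-element normalizing a `τ`-subgroup centralizes it. -/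
lemma Hyp.cent_t' (hyp : Hyp σ τ Hs Ht) (S : Subgroup G) (hS : Cfsg.IsPiSubgroup τ S)
    (y : G) (hy : y ∈ Subgroup.normalizer (S : Set G))
    (hyσ : ∀ q : ℕ, q.Prime → q ∣ orderOf y → q ∈ σ) :
    y ∈ Subgroup.centralizer (S : Set G) := by
  refine mem_of_primary _ (orderOf y) y rfl (orderOf_pos y) ?_
  rintro z hz ⟨q, k, hq, hzo⟩
  have hzN : z ∈ Subgroup.normalizer (S : Set G) := (Subgroup.zpowers_le.mpr hy) hz
  rcases Nat.eq_zero_or_pos k with hk | hk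
  · rw [hk, pow_zero, orderOf_eq_one_iff] at hzo
    rw [hzo]
    exact Subgroup.one_mem _
  · have hqz : q ∣ orderOf z := by rw [hzo]; exact dvd_pow_self q hk.ne'
    have hqy : q ∣ orderOf y := hqz.trans (orderOf_dvd_of_mem_zpowers hz)
    haveI : Fact q.Prime := ⟨hq⟩
    exact hyp.cent_t (hyσ q hq hqy) S hS z hzN k hzo

end Cfsg.Agent.Helper23.HallProdB
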