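import Mathlib
import Cfsg.Agent.Helper23.FixTools
import Cfsg.Agent.S0989
import Cfsg.Agent.S0990
import Cfsg.Agent.S0991

set_option autoImplicit false

namespace Cfsg.Agent.Helper23.InvPairs

open Cfsg.Agent.Helper23.SimpleOrd Cfsg.Agent.Helper23.FixTools

variable {G : Type*} [Group G] [Finite G]

/-- Counting pairs of involutions: if `T` is a set of elements of square one, then `|T|^2` is at
most `|T|` plus the sum of the orders of the centralisers of the nonidentity elements. -/
lemma sq_card_le_sum [Fintype G] [DecidableEq G] (T : Set G) (hT : ∀ a ∈ T, a * a = 1) :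
    T.ncard ^ 2 ≤ ∑ g : G, (if g = 1 then T.ncard else
      Nat.card (Subgroup.centralizer ({g} : Set G))) := by
  classical
  obtain ⟨Tf, hTf⟩ : ∃ Tf : Finset G, ∀ a, a ∈ Tf ↔ a ∈ T :=
    ⟨(Set.toFinite T).toFinset, fun a => Set.Finite.mem_toFinset _⟩
  have hcard : T.ncard = Tf.card := by
    rw [← Set.ncard_coe_finset Tf]
    congr 1
    ext a
    exact (hTf a).symm
  have h1 : (Tf ×ˢ Tf).card = ∑ g : G, ((Tf ×ˢ Tf).filter (fun p => p.1⁻¹ * p.2 = g)).card :=
    Finset.card_eq_sum_card_fiberwise (fun _ _ => Finset.mem_univ _)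
  rw [hcard, sq, ← Finset.card_product, h1]
  apply Finset.sum_le_sum
  intro g _
  by_cases hg : g = 1
  · rw [if_pos hg]
    apply Finset.card_le_card_of_injOn (fun p => p.1)
    · intro p hp
      rw [Finset.mem_coe, Finset.mem_filter, Finset.mem_product] at hp
      exact hp.1.1
    · intro p hp q hq hpq
      rw [Finset.mem_coe, Finset.mem_filter, Finset.mem_product] at hp hq
      have h2 : p.1 = p.2 := inv_mul_eq_one.mp (hp.2.trans hg)
      have h3 : q.1 = q.2 := inv_mul_eq_one.mp (hq.2.trans hg)
      have hpq' : p.1 = q.1 := hpq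
      exact Prod.ext hpq' (by rw [← h2, ← h3]; exact hpq')
  · rw [if_neg hg]
    rcases ((Tf ×ˢ Tf).filter (fun p => p.1⁻¹ * p.2 = g)).eq_empty_or_nonempty with he | ⟨p0, hp0⟩
    · rw [he, Finset.card_empty]; exact Nat.zero_le _
    · have hC : Nat.card (Subgroup.centralizer ({g} : Set G)) =
          (Finset.univ.filter (fun c : G => c ∈ Subgroup.centralizer ({g} : Set G))).card := by
        rw [Nat.card_eq_fintype_card]
        exact Fintype.card_of_subtype _ (fun x => by simp)
      rw [hC]
      rw [Finset.mem_filter, Finset.mem_product] at hp0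
      obtain ⟨⟨ha0, hb0⟩, hg0⟩ := hp0
      have ha0' := hT _ ((hTf _).mp ha0)
      have hb0' := hT _ ((hTf _).mp hb0)
      have hb0e : p0.2 = p0.1 * g := by rw [← hg0]; group
      rw [hb0e] at hb0'
      -- `g * a0 = a0 * g⁻¹`
      have key0 : g * p0.1 = p0.1 * g⁻¹ := by
        have e1 : g * p0.1 = p0.1⁻¹ * (p0.1 * g * (p0.1 * g)) * g⁻¹ := by group
        have e2 : p0.1⁻¹ = p0.1 := inv_eq_of_mul_eq_one_right ha0'
        rw [e1, hb0', e2]; group
      apply Finset.card_le_card_of_injOn (fun p => p0.1⁻¹ * p.1)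
      · intro p hp
        rw [Finset.mem_coe, Finset.mem_filter, Finset.mem_product] at hp
        obtain ⟨⟨ha, hb⟩, hgp⟩ := hp
        have ha' := hT _ ((hTf _).mp ha)
        have hb' := hT _ ((hTf _).mp hb)
        have hbe : p.2 = p.1 * g := by rw [← hgp]; group
        rw [hbe] at hb'
        have keyp : g * p.1 = p.1 * g⁻¹ := by
          have e1 : g * p.1 = p.1⁻¹ * (p.1 * g * (p.1 * g)) * g⁻¹ := by group
          have e2 : p.1⁻¹ = p.1 := inv_eq_of_mul_eq_one_right ha'
          rw [e1, hb', e2]; group
        have key : g⁻¹ * p.1 = p.1 * g := by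
          have e : g⁻¹ * p.1 = g⁻¹ * (p.1 * g⁻¹) * g := by group
          rw [e, ← keyp]; group
        rw [Finset.mem_coe, Finset.mem_filter]
        refine ⟨Finset.mem_univ _, ?_⟩
        rw [Subgroup.mem_centralizer_iff]
        intro h hh
        rw [Set.mem_singleton_iff] at hh
        subst hh
        have e2 : p0.1⁻¹ = p0.1 := inv_eq_of_mul_eq_one_right ha0'
        rw [e2]
        calc h * (p0.1 * p.1) = (h * p0.1) * p.1 := by group
          _ = p0.1 * h⁻¹ * p.1 := by rw [key0]
          _ = p0.1 * (h⁻¹ * p.1) := by group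
          _ = p0.1 * (p.1 * h) := by rw [key]
          _ = p0.1 * p.1 * h := by group
      · intro p hp q hq hpq
        rw [Finset.mem_coe, Finset.mem_filter, Finset.mem_product] at hp hq
        have h2 : p.1 = q.1 := mul_left_cancel hpq
        have h3 : p.2 = p.1 * g := by rw [← hp.2]; group
        have h4 : q.2 = q.1 * g := by rw [← hq.2]; group
        exact Prod.ext h2 (by rw [h3, h4, h2])

/-- The sum of an indicator function is the number of elements. -/
lemma sum_ite_eq_card [Fintype G] (p : G → Prop) [DecidablePred p] :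
    ∑ g : G, (if p g then 1 else 0) = Nat.card {g : G // p g} := by
  rw [Finset.sum_boole, Nat.card_eq_fintype_card, Fintype.card_subtype]
  simp

/-- Conjugate elements have centralisers of the same order. -/
lemma card_centralizer_of_isConj {t g : G} (h : IsConj t g) :
    Nat.card (Subgroup.centralizer ({g} : Set G)) =
      Nat.card (Subgroup.centralizer ({t} : Set G)) := by
  have h1 := card_class_mul g
  have h2 := card_class_mul t
  have h3 : Nat.card {x : G // IsConj g x} = Nat.card {x : G // IsConj t x} :=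
    Nat.card_congr (Equiv.subtypeEquivRight (fun x => ⟨fun hg => h.trans hg,
      fun ht => h.symm.trans ht⟩))
  rw [h3] at h1
  have hpos : 0 < Nat.card {x : G // IsConj t x} := by
    haveI : Nonempty {x : G // IsConj t x} := ⟨⟨t, IsConj.refl t⟩⟩
    exact Nat.card_pos
  exact Nat.eq_of_mul_eq_mul_left hpos (h1.trans h2.symm)

/-- The centraliser of an element is the centraliser of the cyclic group it generates. -/
lemma centralizer_zpowers_eq (u : G) :
    Subgroup.centralizer ((Subgroup.zpowers u : Subgroup G) : Set G) =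
      Subgroup.centralizer ({u} : Set G) := by
  ext x
  rw [Subgroup.mem_centralizer_iff, Subgroup.mem_centralizer_iff]
  constructor
  · intro h y hy
    rw [Set.mem_singleton_iff] at hy
    subst hy
    exact h y (Subgroup.mem_zpowers y)
  · intro h y hy
    obtain ⟨k, rfl⟩ := Subgroup.mem_zpowers_iff.mp hy
    have h1 : Commute u x := h u rfl
    exact (h1.zpow_left k).eq

/-- A simple group whose order is not prime is not commutative. -/
lemma not_comm_of_card [IsSimpleGroup G] (h : ¬ (Nat.card G).Prime) : ¬ IsMulCommutative G := by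
  intro hc
  letI : CommGroup G := { ‹Group G› with mul_comm := fun a b => mul_comm' a b }
  exact h IsSimpleGroup.prime_card

/-- If a non-abelian simple group has a subgroup of odd prime index `p`, then the normaliser of
a subgroup of order `p` has order dividing `p (p - 1) / 2`. -/
lemma two_mul_card_normalizer_dvd [IsSimpleGroup G] (hG : ¬ IsMulCommutative G) (p : ℕ)
    [Fact p.Prime] (hp2 : p ≠ 2) (H : Subgroup G) (hH : H.index = p) (P : Subgroup G)
    (hP : Nat.card P = p) :
    2 * Nat.card (Subgroup.normalizer (P : Set G)) ∣ p * (p - 1) := by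
  classical
  have hp : p.Prime := Fact.out
  have hHtop : H ≠ ⊤ := by
    intro h
    rw [h, Subgroup.index_top] at hH
    exact hp.one_lt.ne hH
  obtain ⟨f, hf⟩ := S0991.result hG H hHtop
  revert f
  rw [hH]
  intro f hf
  have hα : Fintype.card (Fin p) = p := Fintype.card_fin p
  obtain ⟨P', hP'⟩ : ∃ P' : Subgroup ↥(alternatingGroup (Fin p)), P' = P.map f := ⟨_, rfl⟩
  have hP'card : Nat.card P' = p := by
    rw [hP', Subgroup.card_map_of_injective hf, hP]
  obtain ⟨P'', hP''⟩ : ∃ P'' : Subgroup (Equiv.Perm (Fin p)),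
      P'' = P'.map (alternatingGroup (Fin p)).subtype := ⟨_, rfl⟩
  have hP''card : Nat.card P'' = p := by
    rw [hP'', Subgroup.card_map_of_injective (Subgroup.subtype_injective _), hP'card]
  have hfac : (Nat.card (Equiv.Perm (Fin p))).factorization p = 1 := by
    rw [Nat.card_perm, Nat.card_eq_fintype_card, hα]
    obtain ⟨k, rfl⟩ : ∃ k, p = k + 1 := ⟨p - 1, by have := hp.pos; omega⟩
    rw [Nat.factorial_succ, Nat.factorization_mul (Nat.succ_ne_zero k) (Nat.factorial_ne_zero k),
      Finsupp.add_apply, hp.factorization_self,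
      Nat.factorization_eq_zero_of_not_dvd (by
        rw [hp.dvd_factorial]; omega)]
  obtain ⟨S, hS⟩ : ∃ S : Sylow p (Equiv.Perm (Fin p)), (S : Subgroup _) = P'' :=
    ⟨Sylow.ofCard P'' (by rw [hP''card, hfac, pow_one]), rfl⟩
  have h1 := S0989.result (α := Fin p) p (Or.inl hα) S
  have h2 := (S0990.result (α := Fin p) (by rw [hα]; exact hp.two_le) p hp2 S).2
  rw [h1] at h2
  have h3 : (S : Subgroup (Equiv.Perm (Fin p))).subgroupOf (alternatingGroup (Fin p)) = P' := by
    rw [hS, hP'']
    ext x
    rw [Subgroup.mem_subgroupOf, Subgroup.mem_map]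
    constructor
    · rintro ⟨u, hu, hux⟩
      have : u = x := Subtype.ext hux
      exact this ▸ hu
    · intro hx
      exact ⟨x, hx, rfl⟩
  rw [h3] at h2
  have h5 : (Subgroup.normalizer (P : Set G)).map f ≤
      Subgroup.normalizer (P' : Set ↥(alternatingGroup (Fin p))) := by
    rw [hP']
    exact Subgroup.le_normalizer_map f
  have h6 := Subgroup.card_dvd_of_le h5
  rw [Subgroup.card_map_of_injective hf] at h6
  rw [← h2]
  exact Nat.mul_dvd_mul_left 2 h6

end Cfsg.Agent.Helper23.InvPairs
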