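import Mathlib
import Cfsg.Prelude.Def_HallClasses
import Cfsg.Agent.Helper17.Basic
import Cfsg.Agent.Helper13.PPrime

set_option autoImplicit false

namespace Cfsg.Agent.Helper23.Pron

open Cfsg.Agent.Helper17

variable {G : Type*} [Group G]

/-- `L` is conjugate to `K` by an element of `K ⊔ L`. -/
def PC (K L : Subgroup G) : Prop := ∃ x ∈ K ⊔ L, L = cj x K

theorem pron_iff (K : Subgroup G) : Cfsg.IsPronormal K ↔ ∀ g, PC K (cj g K) := Iff.rfl

theorem pc_of_mul {K L : Subgroup G} {l : G} (hl : l ∈ K ⊔ L) (h : PC K (cj l⁻¹ L)) : PC K L := by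
  obtain ⟨x, hx, hxe⟩ := h
  have hle : K ⊔ cj l⁻¹ L ≤ K ⊔ L := by
    apply sup_le le_sup_left
    calc cj l⁻¹ L ≤ cj l⁻¹ (K ⊔ L) := cj_mono le_sup_right
      _ = K ⊔ L := cj_eq_self_of_mem (inv_mem hl)
  refine ⟨l * x, mul_mem hl (hle hx), ?_⟩
  rw [cj_mul, ← hxe, cj_cj_inv]

theorem map_cj {H : Type*} [Group H] (f : G →* H) (g : G) (K : Subgroup G) :
    (cj g K).map f = cj (f g) (K.map f) := by
  ext y
  constructor
  · rintro ⟨_, ⟨k, hk, rfl⟩, rfl⟩
    exact ⟨f k, ⟨k, hk, rfl⟩, by simp⟩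
  · rintro ⟨_, ⟨k, hk, rfl⟩, rfl⟩
    exact ⟨g * k * g⁻¹, ⟨k, hk, rfl⟩, by simp⟩

theorem pron_cj {K : Subgroup G} (h : Cfsg.IsPronormal K) (a : G) :
    Cfsg.IsPronormal (cj a K) := by
  intro g
  obtain ⟨y, hy, hye⟩ := h (a⁻¹ * g * a)
  have hye' : cj (a⁻¹ * g * a) K = cj y K := hye
  refine ⟨a * y * a⁻¹, ?_, ?_⟩
  · have h1 : a * y * a⁻¹ ∈ cj a (K ⊔ cj (a⁻¹ * g * a) K) := conj_mem_cj hy
    rw [cj_sup, ← cj_mul] at h1
    have e : a * (a⁻¹ * g * a) = g * a := by group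
    rw [e, cj_mul] at h1
    exact h1
  · show cj g (cj a K) = cj (a * y * a⁻¹) (cj a K)
    rw [← cj_mul, ← cj_mul]
    have e : a * y * a⁻¹ * a = a * y := by group
    rw [e, cj_mul a y, ← hye', ← cj_mul]
    congr 1; group

theorem pron_map {H : Type*} [Group H] (f : G →* H) (hf : Function.Surjective f)
    {K : Subgroup G} (h : Cfsg.IsPronormal K) : Cfsg.IsPronormal (K.map f) := by
  intro y
  obtain ⟨g, rfl⟩ := hf y
  obtain ⟨x, hx, hxe⟩ := h g
  have hxe' : cj g K = cj x K := hxe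
  refine ⟨f x, ?_, ?_⟩
  · have h1 : f x ∈ (K ⊔ cj g K).map f := Subgroup.mem_map_of_mem f hx
    rw [Subgroup.map_sup, map_cj] at h1
    exact h1
  · show cj (f g) (K.map f) = cj (f x) (K.map f)
    rw [← map_cj, ← map_cj, hxe']

theorem pron_of_map_inj {H : Type*} [Group H] (f : H →* G) (hf : Function.Injective f)
    {K : Subgroup H} (h : Cfsg.IsPronormal (K.map f)) : Cfsg.IsPronormal K := by
  intro y
  obtain ⟨x, hx, hxe⟩ := h (f y)
  have hxe' : cj (f y) (K.map f) = cj x (K.map f) := hxe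
  have hx' : x ∈ (K ⊔ cj y K).map f := by
    rw [Subgroup.map_sup, map_cj]; exact hx
  obtain ⟨z, hz, rfl⟩ := hx'
  refine ⟨z, hz, ?_⟩
  apply Subgroup.map_injective hf
  show (cj y K).map f = (cj z K).map f
  rw [map_cj, map_cj]; exact hxe'

theorem frat [Finite G] {p : ℕ} [Fact p.Prime] {D T : Subgroup G} (hTD : T ≤ D)
    (hTp : IsPGroup p T) (hidx : ¬ p ∣ T.relIndex D) {u : G}
    (hu : u ∈ Subgroup.normalizer (D : Set G)) :
    ∃ h ∈ D, h * u ∈ Subgroup.normalizer (T : Set G) := by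
  have hQD : cj u T ≤ D := by
    calc cj u T ≤ cj u D := cj_mono hTD
      _ = D := cj_eq_self_of_mem_normalizer hu
  obtain ⟨h, hh, hq⟩ := Cfsg.Agent.Helper13.exists_conj_le_of_relIndex D T (cj u T) hTp hidx hQD
    (hTp.map _)
  refine ⟨h, hh, mem_normalizer_of_cj_le ?_⟩
  rw [cj_mul]
  rintro _ ⟨q, hq', rfl⟩
  exact hq q hq'

/-- a `p`-subgroup of `G` containing a Sylow `p`-subgroup of `A` meets `A` in it. -/
theorem sylA_inf {p : ℕ} [Fact p.Prime] (A : Subgroup G) (PA : Sylow p ↥A)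
    {Q : Subgroup G} (hQ : IsPGroup p Q) (hTQ : (PA : Subgroup ↥A).map A.subtype ≤ Q) :
    Q ⊓ A = (PA : Subgroup ↥A).map A.subtype := by
  have h1 : (Q ⊓ A).subgroupOf A = (PA : Subgroup ↥A) := by
    apply PA.is_maximal' ((hQ.to_le inf_le_left).comap_subtype)
    intro x hx
    show (x : G) ∈ Q ⊓ A
    exact ⟨hTQ (Subgroup.mem_map_of_mem _ hx), x.2⟩
  rw [← h1, Subgroup.subgroupOf_map_subtype, inf_assoc, inf_idem]

/-- a Sylow subgroup of `G` containing a Sylow subgroup `T` of the normal subgroup `A`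
normalizes `T`. -/
theorem sylA_norm {p : ℕ} [Fact p.Prime] (A : Subgroup G) [A.Normal] (PA : Sylow p ↥A)
    {Q : Subgroup G} (hQ : IsPGroup p Q) (hTQ : (PA : Subgroup ↥A).map A.subtype ≤ Q) :
    Q ≤ Subgroup.normalizer (((PA : Subgroup ↥A).map A.subtype : Subgroup G) : Set G) := by
  intro s hs
  apply mem_normalizer_of_cj_eq_self
  have h := sylA_inf A PA hQ hTQ
  rw [← h, cj_inf, cj_eq_self_of_mem hs, cj_eq_of_normal]

/-- the index of a Sylow subgroup `T` of `A` in `K ⊓ A` is prime to `p`. -/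
theorem sylA_relIndex [Finite G] {p : ℕ} [Fact p.Prime] (A : Subgroup G) (PA : Sylow p ↥A)
    {K : Subgroup G} (hTK : (PA : Subgroup ↥A).map A.subtype ≤ K) :
    ¬ p ∣ ((PA : Subgroup ↥A).map A.subtype).relIndex (K ⊓ A) := by
  intro hdvd
  have hTA : (PA : Subgroup ↥A).map A.subtype ≤ A := Subgroup.map_subtype_le _
  have h1 := Subgroup.relIndex_mul_relIndex (H := (PA : Subgroup ↥A).map A.subtype)
    (K := K ⊓ A) (L := A) (le_inf hTK hTA) inf_le_right
  have h2 : ((PA : Subgroup ↥A).map A.subtype).relIndex A = (PA : Subgroup ↥A).index := by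
    unfold Subgroup.relIndex
    congr 1
    ext x
    rw [Subgroup.mem_subgroupOf]
    constructor
    · rintro ⟨y, hy, hyx⟩
      have : y = x := Subtype.ext hyx
      rwa [← this]
    · intro hx
      exact Subgroup.mem_map_of_mem _ hx
  have h3 : ¬ p ∣ (PA : Subgroup ↥A).index := PA.not_dvd_index
  apply h3
  rw [← h2, ← h1]
  exact Dvd.dvd.mul_right hdvd _

end Cfsg.Agent.Helper23.Pron
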