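import Mathlib
import Cfsg.Prelude.Def_HallClasses
import Cfsg.Agent.Helper17.Basic
import Cfsg.Agent.Helper13.PPrime
import Cfsg.Agent.Helper23.PronA

set_option autoImplicit false

namespace Cfsg.Agent.Helper23.Pron

open Cfsg.Agent.Helper17

variable {G : Type*} [Group G]

/-- the normalizer condition follows from pronormality. -/
theorem fwd_b (A : Subgroup G) [A.Normal] {K : Subgroup G} (hK : Cfsg.IsPronormal K) :
    (Subgroup.normalizer (K : Set G)).map (QuotientGroup.mk' A) =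
      Subgroup.normalizer ((K.map (QuotientGroup.mk' A) : Subgroup (G ⧸ A)) : Set (G ⧸ A)) := by
  apply le_antisymm (Subgroup.le_normalizer_map _)
  intro gb hgb
  obtain ⟨g, rfl⟩ := QuotientGroup.mk'_surjective A gb
  have h1 : cj (QuotientGroup.mk' A g) (K.map (QuotientGroup.mk' A)) = K.map (QuotientGroup.mk' A) :=
    cj_eq_self_of_mem_normalizer hgb
  rw [← map_cj] at h1
  have h2 : cj g K ≤ A ⊔ K := by
    rw [← QuotientGroup.comap_map_mk' A K, ← h1]
    exact Subgroup.le_comap_map _ _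
  obtain ⟨x, hx, hxe⟩ := hK g
  have hxe' : cj g K = cj x K := hxe
  have hx' : x ∈ A ⊔ K := (sup_le le_sup_right h2) hx
  have hx'' : QuotientGroup.mk' A x ∈ K.map (QuotientGroup.mk' A) := by
    have h3 : QuotientGroup.mk' A x ∈ (A ⊔ K).map (QuotientGroup.mk' A) :=
      Subgroup.mem_map_of_mem _ hx'
    rw [Subgroup.map_sup] at h3
    have h4 : A.map (QuotientGroup.mk' A) = ⊥ := by
      rw [eq_bot_iff]
      rintro _ ⟨a, ha, rfl⟩
      rw [Subgroup.mem_bot]
      exact (QuotientGroup.eq_one_iff a).mpr ha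
    rw [h4, bot_sup_eq] at h3
    exact h3
  obtain ⟨k, hk, hke⟩ := hx''
  have hn : x⁻¹ * g ∈ Subgroup.normalizer (K : Set G) := by
    apply mem_normalizer_of_cj_eq_self
    rw [cj_mul, hxe', cj_inv_cj]
  refine ⟨k * (x⁻¹ * g), mul_mem (Subgroup.le_normalizer hk) hn, ?_⟩
  rw [map_mul, hke, ← map_mul]
  congr 1
  group

/-- forward direction (a): overgroups of Sylow subgroups in `N_G(T)/T` are pronormal. -/
theorem fwd_a [Finite G] {p : ℕ} [Fact p.Prime] (A : Subgroup G) [A.Normal] (T : Subgroup G)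
    (hT : ∃ P : Sylow p ↥A, (P : Subgroup ↥A).map A.subtype = T)
    (Y : Subgroup G) (hYT : Y = Subgroup.normalizer (T : Set G))
    [(T.subgroupOf Y).Normal]
    (hW : ∀ K : Subgroup G, (∃ P : Sylow p G, (P : Subgroup G) ≤ K) → Cfsg.IsPronormal K)
    (K : Subgroup (↥Y ⧸ T.subgroupOf Y))
    (hK : ∃ P : Sylow p (↥Y ⧸ T.subgroupOf Y), (P : Subgroup (↥Y ⧸ T.subgroupOf Y)) ≤ K) :
    Cfsg.IsPronormal K := by
  obtain ⟨P, hP⟩ := hK
  obtain ⟨PA, hPA⟩ := hT
  have hTp : IsPGroup p T := by rw [← hPA]; exact PA.isPGroup'.map _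
  obtain ⟨S, hTS⟩ := hTp.exists_le_sylow
  have hSY : (S : Subgroup G) ≤ Y := by
    have h0 := sylA_norm A PA S.isPGroup' (by rw [hPA]; exact hTS)
    rw [hPA] at h0
    rw [hYT]
    exact h0
  have hfs : Function.Surjective (QuotientGroup.mk' (T.subgroupOf Y)) :=
    QuotientGroup.mk'_surjective _
  have hP'p : IsPGroup p ((P : Subgroup (↥Y ⧸ T.subgroupOf Y)).comap
      (QuotientGroup.mk' (T.subgroupOf Y))) := by
    apply P.isPGroup'.comap_of_ker_isPGroup
    rw [QuotientGroup.ker_mk']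
    exact hTp.comap_subtype
  have hidx : ¬ p ∣ (((P : Subgroup (↥Y ⧸ T.subgroupOf Y)).comap
      (QuotientGroup.mk' (T.subgroupOf Y))).map Y.subtype).index := by
    rw [Subgroup.index_map_subtype, Subgroup.index_comap_of_surjective _ hfs]
    intro hdvd
    rcases (Nat.Prime.dvd_mul (Fact.out)).mp hdvd with h | h
    · exact P.not_dvd_index h
    · exact S.not_dvd_index (h.trans (Subgroup.index_dvd_of_le hSY))
  have h1 : Cfsg.IsPronormal ((K.comap (QuotientGroup.mk' (T.subgroupOf Y))).map Y.subtype) :=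
    hW _ ⟨(hP'p.map _).toSylow hidx, Subgroup.map_mono (Subgroup.comap_mono hP)⟩
  have h2 : Cfsg.IsPronormal (K.comap (QuotientGroup.mk' (T.subgroupOf Y))) :=
    pron_of_map_inj Y.subtype Y.subtype_injective h1
  have h3 := pron_map (QuotientGroup.mk' (T.subgroupOf Y)) hfs h2
  rwa [Subgroup.map_comap_eq_self_of_surjective hfs] at h3

end Cfsg.Agent.Helper23.Pron
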