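import Mathlib
import Cfsg.Prelude.Def_HallClasses
import Cfsg.Agent.Helper17.Basic
import Cfsg.Agent.Helper13.PPrime
import Cfsg.Agent.Helper23.PronA
import Cfsg.Agent.Helper23.PronB

set_option autoImplicit false

namespace Cfsg.Agent.Helper23.Pron

open Cfsg.Agent.Helper17

variable {G : Type*} [Group G]

/-- Step 5. -/
theorem step5 [Finite G] {p : ℕ} [Fact p.Prime] (T : Subgroup G)
    (Y : Subgroup G) [(T.subgroupOf Y).Normal]
    (hY : ∀ K : Subgroup (↥Y ⧸ T.subgroupOf Y), (∃ P : Sylow p (↥Y ⧸ T.subgroupOf Y),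
      (P : Subgroup (↥Y ⧸ T.subgroupOf Y)) ≤ K) → Cfsg.IsPronormal K)
    (K D : Subgroup G) (S : Sylow p G) (hTS : T ≤ S) (hSK : (S : Subgroup G) ≤ K)
    (hSY : (S : Subgroup G) ≤ Y)
    (hDK : D ≤ K) (hKD : K ≤ Subgroup.normalizer (D : Set G))
    (hfr : ∀ k ∈ K, ∃ h ∈ D, h * k ∈ Y)
    {a : G} (haD : a ∈ Subgroup.normalizer (D : Set G)) (haY : a ∈ Y) : PC K (cj a K) := by
  have hfs : Function.Surjective (QuotientGroup.mk' (T.subgroupOf Y)) :=
    QuotientGroup.mk'_surjective _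
  have hKt : Cfsg.IsPronormal ((K.subgroupOf Y).map (QuotientGroup.mk' (T.subgroupOf Y))) := by
    apply hY
    refine ⟨(S.subtype hSY).mapSurjective hfs, ?_⟩
    rw [Sylow.coe_mapSurjective, Sylow.coe_subtype]
    apply Subgroup.map_mono
    intro x hx
    exact hSK hx
  obtain ⟨xt, hxt, hxte⟩ := hKt (QuotientGroup.mk' (T.subgroupOf Y) ⟨a, haY⟩)
  have hxte' : cj (QuotientGroup.mk' (T.subgroupOf Y) ⟨a, haY⟩)
      ((K.subgroupOf Y).map (QuotientGroup.mk' (T.subgroupOf Y))) =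
      cj xt ((K.subgroupOf Y).map (QuotientGroup.mk' (T.subgroupOf Y))) := hxte
  have hxt' : xt ∈ (K.subgroupOf Y ⊔ cj (⟨a, haY⟩ : Y) (K.subgroupOf Y)).map
      (QuotientGroup.mk' (T.subgroupOf Y)) := by
    rw [Subgroup.map_sup, map_cj]; exact hxt
  obtain ⟨l', hl', rfl⟩ := hxt'
  rw [← map_cj, ← map_cj] at hxte'
  have hker : ∀ y : Y, (QuotientGroup.mk' (T.subgroupOf Y)).ker ≤ cj y (K.subgroupOf Y) := by
    intro y
    rw [QuotientGroup.ker_mk']
    calc T.subgroupOf Y = cj y (T.subgroupOf Y) := (cj_eq_of_normal y _).symm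
      _ ≤ cj y (K.subgroupOf Y) := cj_mono (fun x hx => hSK (hTS hx))
  have h1 : cj (⟨a, haY⟩ : Y) (K.subgroupOf Y) = cj l' (K.subgroupOf Y) := by
    rw [← Subgroup.comap_map_eq_self (hker ⟨a, haY⟩), hxte',
      Subgroup.comap_map_eq_self (hker l')]
  have h2 : cj a (K ⊓ Y) = cj (l' : G) (K ⊓ Y) := by
    have h := congrArg (Subgroup.map Y.subtype) h1
    rw [map_cj, map_cj, Subgroup.subgroupOf_map_subtype] at h
    exact h
  have hl : (l' : G) ∈ (K ⊓ Y) ⊔ cj a (K ⊓ Y) := by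
    have h := Subgroup.mem_map_of_mem Y.subtype hl'
    rw [Subgroup.map_sup, map_cj, Subgroup.subgroupOf_map_subtype] at h
    exact h
  have hlK : (l' : G) ∈ K ⊔ cj a K := (sup_le_sup inf_le_left (cj_mono inf_le_left)) hl
  have hlD : (l' : G) ∈ Subgroup.normalizer (D : Set G) := by
    have h : (K ⊓ Y) ⊔ cj a (K ⊓ Y) ≤ Subgroup.normalizer (D : Set G) := by
      apply sup_le (inf_le_left.trans hKD)
      calc cj a (K ⊓ Y) ≤ cj a (Subgroup.normalizer (D : Set G)) :=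
            cj_mono (inf_le_left.trans hKD)
        _ = Subgroup.normalizer (D : Set G) := cj_eq_self_of_mem haD
    exact h hl
  have hnD : cj ((l' : G)⁻¹ * a) D = D :=
    cj_eq_self_of_mem_normalizer (mul_mem (inv_mem hlD) haD)
  have hnKY : cj ((l' : G)⁻¹ * a) (K ⊓ Y) = K ⊓ Y := by
    rw [cj_mul, h2, cj_inv_cj]
  have hK : K = D ⊔ (K ⊓ Y) := by
    apply le_antisymm
    · intro k hk
      obtain ⟨h, hh, hhk⟩ := hfr k hk
      have e : k = h⁻¹ * (h * k) := by group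
      rw [e]
      exact mul_mem (Subgroup.mem_sup_left (inv_mem hh))
        (Subgroup.mem_sup_right ⟨mul_mem (hDK hh) hk, hhk⟩)
    · exact sup_le hDK inf_le_left
  have hnK : cj ((l' : G)⁻¹ * a) K = K := by
    conv_lhs => rw [hK, cj_sup, hnD, hnKY]
    exact hK.symm
  refine ⟨(l' : G), hlK, ?_⟩
  have e : a = (l' : G) * ((l' : G)⁻¹ * a) := by group
  conv_lhs => rw [e, cj_mul, hnK]

/-- Steps 3 and 4. -/
theorem step34 [Finite G] {p : ℕ} [Fact p.Prime] (A : Subgroup G) [A.Normal]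
    (hA : ∀ K : Subgroup ↥A, (∃ P : Sylow p ↥A, (P : Subgroup ↥A) ≤ K) → Cfsg.IsPronormal K)
    (PA : Sylow p ↥A) (K : Subgroup G) (hTK : (PA : Subgroup ↥A).map A.subtype ≤ K)
    (h5 : ∀ a : G, a ∈ Subgroup.normalizer ((K ⊓ A : Subgroup G) : Set G) →
      a ∈ Subgroup.normalizer (((PA : Subgroup ↥A).map A.subtype : Subgroup G) : Set G) →
      PC K (cj a K))
    {a : G} (ha : a ∈ A) : PC K (cj a K) := by
  have hTp : IsPGroup p ((PA : Subgroup ↥A).map A.subtype) := PA.isPGroup'.map _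
  have hTA : (PA : Subgroup ↥A).map A.subtype ≤ A := Subgroup.map_subtype_le _
  have hTD : (PA : Subgroup ↥A).map A.subtype ≤ K ⊓ A := le_inf hTK hTA
  have hidx := sylA_relIndex A PA hTK
  have hKA : Cfsg.IsPronormal (K.subgroupOf A) := by
    apply hA
    refine ⟨PA, ?_⟩
    intro x hx
    exact hTK (Subgroup.mem_map_of_mem _ hx)
  obtain ⟨b', hb', hbe⟩ := hKA ⟨a, ha⟩
  have hbe' : cj (⟨a, ha⟩ : A) (K.subgroupOf A) = cj b' (K.subgroupOf A) := hbe
  have h2 : cj a (K ⊓ A) = cj (b' : G) (K ⊓ A) := by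
    have h := congrArg (Subgroup.map A.subtype) hbe'
    rw [map_cj, map_cj, Subgroup.subgroupOf_map_subtype] at h
    exact h
  have hb : (b' : G) ∈ (K ⊓ A) ⊔ cj a (K ⊓ A) := by
    have h := Subgroup.mem_map_of_mem A.subtype hb'
    rw [Subgroup.map_sup, map_cj, Subgroup.subgroupOf_map_subtype] at h
    exact h
  have hbK : (b' : G) ∈ K ⊔ cj a K := (sup_le_sup inf_le_left (cj_mono inf_le_left)) hb
  apply pc_of_mul hbK
  rw [← cj_mul]
  have ha1 : (b' : G)⁻¹ * a ∈ Subgroup.normalizer ((K ⊓ A : Subgroup G) : Set G) := by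
    apply mem_normalizer_of_cj_eq_self
    rw [cj_mul, h2, cj_inv_cj]
  obtain ⟨h, hh, hhu⟩ := frat hTD hTp hidx ha1
  have hhK : h⁻¹ ∈ K ⊔ cj ((b' : G)⁻¹ * a) K := Subgroup.mem_sup_left (inv_mem hh.1)
  apply pc_of_mul hhK
  rw [inv_inv, ← cj_mul]
  exact h5 _ (mul_mem (Subgroup.le_normalizer hh) ha1) hhu

end Cfsg.Agent.Helper23.Pron
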