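import Mathlib
import Cfsg.Prelude.Def_HallClasses
import Cfsg.Agent.Helper17.Basic
import Cfsg.Agent.Helper13.PPrime
import Cfsg.Agent.Helper23.PronA
import Cfsg.Agent.Helper23.PronB
import Cfsg.Agent.Helper23.PronC

set_option autoImplicit false

namespace Cfsg.Agent.Helper23.Pron

open Cfsg.Agent.Helper17

variable {G : Type*} [Group G]

/-- backward direction, for a subgroup containing a Sylow subgroup `S ≥ T`. -/
theorem bwd_core [Finite G] {p : ℕ} [Fact p.Prime] (A : Subgroup G) [A.Normal]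
    (hA : ∀ K : Subgroup ↥A, (∃ P : Sylow p ↥A, (P : Subgroup ↥A) ≤ K) → Cfsg.IsPronormal K)
    (hQ : ∀ K : Subgroup (G ⧸ A), (∃ P : Sylow p (G ⧸ A), (P : Subgroup (G ⧸ A)) ≤ K) →
      Cfsg.IsPronormal K)
    (T : Subgroup G) (PA : Sylow p ↥A) (hPA : (PA : Subgroup ↥A).map A.subtype = T)
    (Y : Subgroup G) (hYT : Y = Subgroup.normalizer (T : Set G))
    [(T.subgroupOf Y).Normal]
    (hY : ∀ K : Subgroup (↥Y ⧸ T.subgroupOf Y), (∃ P : Sylow p (↥Y ⧸ T.subgroupOf Y),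
      (P : Subgroup (↥Y ⧸ T.subgroupOf Y)) ≤ K) → Cfsg.IsPronormal K)
    (hN : ∀ K : Subgroup G, (∃ P : Sylow p G, (P : Subgroup G) ≤ K) →
      (Subgroup.normalizer (K : Set G)).map (QuotientGroup.mk' A) =
        Subgroup.normalizer ((K.map (QuotientGroup.mk' A) : Subgroup (G ⧸ A)) : Set (G ⧸ A)))
    (K : Subgroup G) (S : Sylow p G) (hTS : T ≤ S) (hSK : (S : Subgroup G) ≤ K) :
    Cfsg.IsPronormal K := by
  have hTp : IsPGroup p T := by rw [← hPA]; exact PA.isPGroup'.map _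
  have hTA : T ≤ A := by rw [← hPA]; exact Subgroup.map_subtype_le _
  have hTK : T ≤ K := hTS.trans hSK
  have hSY : (S : Subgroup G) ≤ Y := by
    have h0 := sylA_norm A PA S.isPGroup' (by rw [hPA]; exact hTS)
    rw [hPA] at h0
    rw [hYT]
    exact h0
  have hidx : ¬ p ∣ T.relIndex (K ⊓ A) := by
    have h := sylA_relIndex A PA (K := K) (by rw [hPA]; exact hTK)
    rwa [hPA] at h
  have hKD : K ≤ Subgroup.normalizer ((K ⊓ A : Subgroup G) : Set G) := by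
    intro k hk
    apply mem_normalizer_of_cj_eq_self
    rw [cj_inf, cj_eq_self_of_mem hk, cj_eq_of_normal]
  have hfr : ∀ k ∈ K, ∃ h ∈ K ⊓ A, h * k ∈ Y := by
    intro k hk
    obtain ⟨h, hh, hhk⟩ := frat (le_inf hTK hTA) hTp hidx (hKD hk)
    exact ⟨h, hh, by rw [hYT]; exact hhk⟩
  intro g
  show PC K (cj g K)
  -- Step 1
  have hKbar : Cfsg.IsPronormal (K.map (QuotientGroup.mk' A)) := by
    apply hQ
    refine ⟨S.mapSurjective (QuotientGroup.mk'_surjective A), ?_⟩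
    rw [Sylow.coe_mapSurjective]
    exact Subgroup.map_mono hSK
  obtain ⟨xb, hxb, hxbe⟩ := hKbar (QuotientGroup.mk' A g)
  have hxbe' : cj (QuotientGroup.mk' A g) (K.map (QuotientGroup.mk' A)) =
      cj xb (K.map (QuotientGroup.mk' A)) := hxbe
  have hxb' : xb ∈ (K ⊔ cj g K).map (QuotientGroup.mk' A) := by
    rw [Subgroup.map_sup, map_cj]; exact hxb
  obtain ⟨l, hl, rfl⟩ := hxb'
  apply pc_of_mul hl
  rw [← cj_mul]
  have hg1 : QuotientGroup.mk' A (l⁻¹ * g) ∈ Subgroup.normalizer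
      ((K.map (QuotientGroup.mk' A) : Subgroup (G ⧸ A)) : Set (G ⧸ A)) := by
    apply mem_normalizer_of_cj_eq_self
    rw [map_mul, cj_mul, hxbe', map_inv, cj_inv_cj]
  -- Step 2
  rw [← hN K ⟨S, hSK⟩] at hg1
  obtain ⟨n, hn, hne⟩ := hg1
  have ha : l⁻¹ * g * n⁻¹ ∈ A := by
    rw [← QuotientGroup.eq_one_iff]
    have h : (QuotientGroup.mk' A) (l⁻¹ * g * n⁻¹) = 1 := by
      rw [map_mul, ← hne, map_inv, mul_inv_cancel]
    exact h
  have e1 : cj (l⁻¹ * g) K = cj (l⁻¹ * g * n⁻¹) K := by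
    have e : l⁻¹ * g = (l⁻¹ * g * n⁻¹) * n := by group
    conv_lhs => rw [e, cj_mul, cj_eq_self_of_mem_normalizer hn]
  rw [e1]
  -- Steps 3-5
  apply step34 A hA PA K (by rw [hPA]; exact hTK) _ ha
  intro a haD haT
  rw [hPA] at haT
  exact step5 T Y hY K (K ⊓ A) S hTS hSK hSY inf_le_left hKD hfr haD (by rw [hYT]; exact haT)

/-- backward direction. -/
theorem bwd [Finite G] {p : ℕ} [Fact p.Prime] (A : Subgroup G) [A.Normal]
    (hA : ∀ K : Subgroup ↥A, (∃ P : Sylow p ↥A, (P : Subgroup ↥A) ≤ K) → Cfsg.IsPronormal K)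
    (hQ : ∀ K : Subgroup (G ⧸ A), (∃ P : Sylow p (G ⧸ A), (P : Subgroup (G ⧸ A)) ≤ K) →
      Cfsg.IsPronormal K)
    (T : Subgroup G) (hT : ∃ P : Sylow p ↥A, (P : Subgroup ↥A).map A.subtype = T)
    (Y : Subgroup G) (hYT : Y = Subgroup.normalizer (T : Set G))
    [(T.subgroupOf Y).Normal]
    (hY : ∀ K : Subgroup (↥Y ⧸ T.subgroupOf Y), (∃ P : Sylow p (↥Y ⧸ T.subgroupOf Y),
      (P : Subgroup (↥Y ⧸ T.subgroupOf Y)) ≤ K) → Cfsg.IsPronormal K)
    (hN : ∀ K : Subgroup G, (∃ P : Sylow p G, (P : Subgroup G) ≤ K) →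
      (Subgroup.normalizer (K : Set G)).map (QuotientGroup.mk' A) =
        Subgroup.normalizer ((K.map (QuotientGroup.mk' A) : Subgroup (G ⧸ A)) : Set (G ⧸ A)))
    (K : Subgroup G) (hK : ∃ P : Sylow p G, (P : Subgroup G) ≤ K) :
    Cfsg.IsPronormal K := by
  obtain ⟨S₀, hS₀⟩ := hK
  obtain ⟨PA, hPA⟩ := hT
  have hTp : IsPGroup p T := by rw [← hPA]; exact PA.isPGroup'.map _
  obtain ⟨g₀, hg₀⟩ := exists_le_cj_sylow hTp S₀
  obtain ⟨S, hS⟩ := exists_sylow_cj g₀ S₀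
  have h : Cfsg.IsPronormal (cj g₀ K) :=
    bwd_core A hA hQ T PA hPA Y hYT hY hN (cj g₀ K) S (by rw [hS]; exact hg₀)
      (by rw [hS]; exact cj_mono hS₀)
  have h' := pron_cj h g₀⁻¹
  rwa [cj_inv_cj] at h'

end Cfsg.Agent.Helper23.Pron
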