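import Mathlib
import Cfsg.Prelude.Def_HallClasses
import Cfsg.Agent.Helper17.Basic
import Cfsg.Agent.Helper13.PPrime
import Cfsg.Agent.Helper23.PronA

set_option autoImplicit false

namespace Cfsg.Agent.Helper23.Pron

open Cfsg.Agent.Helper17

theorem selfnorm_key {H : Type*} [Group H] [Finite H] {p : ℕ} [Fact p.Prime] (P : Sylow p H)
    (hP : Subgroup.normalizer ((P : Subgroup H) : Set H) = P) {J : Subgroup H}
    (hPJ : (P : Subgroup H) ≤ J) {g : H} (hg : cj g (P : Subgroup H) ≤ J) :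
    ∃ h ∈ J, h⁻¹ * g ∈ (P : Subgroup H) := by
  obtain ⟨R, hR⟩ := exists_sylow_cj g P
  have hidx : ¬ p ∣ (cj g (P : Subgroup H)).relIndex J := by
    rw [← hR]
    intro hdvd
    apply R.not_dvd_index
    rw [← Subgroup.relIndex_mul_index (show (R : Subgroup H) ≤ J by rw [hR]; exact hg)]
    exact Dvd.dvd.mul_right hdvd _
  obtain ⟨h, hh, hq⟩ := Cfsg.Agent.Helper13.exists_conj_le_of_relIndex J
    (cj g (P : Subgroup H)) (P : Subgroup H) (P.isPGroup'.map _) hidx hPJ P.isPGroup'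
  refine ⟨h, hh, ?_⟩
  have h1 : cj (g⁻¹ * h) (P : Subgroup H) ≤ P := by
    rw [cj_mul, cj_le_iff, inv_inv]
    rintro _ ⟨q, hq', rfl⟩
    exact hq q hq'
  have h2 : g⁻¹ * h ∈ Subgroup.normalizer ((P : Subgroup H) : Set H) :=
    mem_normalizer_of_cj_le h1
  rw [hP] at h2
  have h3 := inv_mem h2
  rwa [mul_inv_rev, inv_inv] at h3

theorem pron_of_selfnorm {H : Type*} [Group H] [Finite H] {p : ℕ} [Fact p.Prime] (P : Sylow p H)
    (hP : Subgroup.normalizer ((P : Subgroup H) : Set H) = P) {K : Subgroup H}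
    (hPK : (P : Subgroup H) ≤ K) : Cfsg.IsPronormal K := by
  intro g
  show PC K (cj g K)
  obtain ⟨h, hh, hk⟩ := selfnorm_key P hP (J := K ⊔ cj g K) (hPK.trans le_sup_left)
    ((cj_mono hPK).trans le_sup_right)
  refine ⟨h, hh, ?_⟩
  have e : g = h * (h⁻¹ * g) := by group
  conv_lhs => rw [e, cj_mul, cj_eq_self_of_mem (hPK hk)]

theorem normalizer_of_selfnorm {H : Type*} [Group H] [Finite H] {p : ℕ} [Fact p.Prime]
    (P : Sylow p H) (hP : Subgroup.normalizer ((P : Subgroup H) : Set H) = P) {K : Subgroup H}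
    (hPK : (P : Subgroup H) ≤ K) : Subgroup.normalizer (K : Set H) = K := by
  apply le_antisymm _ Subgroup.le_normalizer
  intro g hg
  have hgK : cj g K = K := cj_eq_self_of_mem_normalizer hg
  have hgP : cj g (P : Subgroup H) ≤ K := by
    calc cj g (P : Subgroup H) ≤ cj g K := cj_mono hPK
      _ = K := hgK
  obtain ⟨h, hh, hk⟩ := selfnorm_key P hP (J := K) hPK hgP
  have e : g = h * (h⁻¹ * g) := by group
  rw [e]; exact mul_mem hh (hPK hk)

end Cfsg.Agent.Helper23.Pron
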