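import Mathlib
import Cfsg.Prelude.Def_Classical
import Cfsg.Prelude.Def_ClassicalGeometry
import Cfsg.Agent.Helper14.OInv

/-!
Piece (S3) of the team proof of S2487: the Siegel element `x ↦ x + f(x,a) b + f(x,b) a` of the
orthogonal group of the hyperbolic quadratic form over the field with two elements.
-/

set_option autoImplicit false

namespace Cfsg.Agent.S2487P

open Matrix Cfsg.Agent.Helper6 Cfsg.Agent.Helper14.OInv

/-- the Siegel map as a linear map -/
noncomputable def h23_siegelLin {F : Type*} [Field F] (m : ℕ) (a b : Fin m ⊕ Fin m → F) :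
    (Fin m ⊕ Fin m → F) →ₗ[F] (Fin m ⊕ Fin m → F) where
  toFun x := x + Cfsg.sympForm m F x a • b + Cfsg.sympForm m F x b • a
  map_add' x y := by
    rw [sf_add_left, sf_add_left, add_smul, add_smul]
    abel
  map_smul' c x := by
    rw [sf_smul_left, sf_smul_left, RingHom.id_apply, smul_add, smul_add, smul_smul, smul_smul]

theorem h23_siegelLin_apply {F : Type*} [Field F] (m : ℕ) (a b x : Fin m ⊕ Fin m → F) :
    h23_siegelLin m a b x = x + Cfsg.sympForm m F x a • b + Cfsg.sympForm m F x b • a := rfl

theorem h23_zero_or_one {F : Type*} [Field F] [Fintype F] (hF : Fintype.card F = 2) (c : F) :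
    c = 0 ∨ c = 1 := by
  classical
  by_contra h
  push Not at h
  have h3 : ({0, 1, c} : Finset F).card = 3 := by
    rw [Finset.card_insert_of_notMem, Finset.card_insert_of_notMem, Finset.card_singleton]
    · simpa using h.2.symm
    · simp only [Finset.mem_insert, Finset.mem_singleton, not_or]
      exact ⟨zero_ne_one, h.1.symm⟩
  have := Finset.card_le_univ ({0, 1, c} : Finset F)
  omega

/-- (S3) the Siegel element. -/
theorem h23_siegel {F : Type*} [Field F] [Fintype F] (hF : Fintype.card F = 2) (m : ℕ)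
    (a b : Fin m ⊕ Fin m → F)
    (ha : Cfsg.quadFormPlus m F a = 0) (hb : Cfsg.quadFormPlus m F b = 0)
    (hab : Cfsg.sympForm m F a b = 0) (ha0 : a ≠ 0) (hb0 : b ≠ 0) (hne : a ≠ b) :
    ∃ g : Matrix.GeneralLinearGroup (Fin m ⊕ Fin m) F,
      g ∈ Cfsg.isometryGroup F (Cfsg.quadFormPlus m F) ∧ g ≠ 1 ∧
      ∀ x : Fin m ⊕ Fin m → F, Cfsg.sympForm m F x a = 0 → Cfsg.sympForm m F x b = 0 →
        (g : Matrix (Fin m ⊕ Fin m) (Fin m ⊕ Fin m) F) *ᵥ x = x := by
  classical
  have hF2 : Fact (Nat.Prime 2) := ⟨Nat.prime_two⟩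
  have hchar : CharP F 2 := charP_of_card_eq_prime hF
  have h2 : ∀ c : F, c + c = 0 := fun c => CharTwo.add_self_eq_zero c
  have hba : Cfsg.sympForm m F b a = 0 := by rw [sf_symm, hab]
  set L := h23_siegelLin m a b with hL
  set M : Matrix (Fin m ⊕ Fin m) (Fin m ⊕ Fin m) F := LinearMap.toMatrix' L with hM
  have hMv : ∀ x, M *ᵥ x = x + Cfsg.sympForm m F x a • b + Cfsg.sympForm m F x b • a := by
    intro x
    rw [hM, ← Matrix.toLin'_apply, Matrix.toLin'_toMatrix']
    rfl
  -- the form values after applying `L`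
  have hfa : ∀ x, Cfsg.sympForm m F (M *ᵥ x) a = Cfsg.sympForm m F x a := by
    intro x
    rw [hMv, sf_add_left, sf_add_left, sf_smul_left, sf_smul_left, hba, sf_self]
    ring
  have hfb : ∀ x, Cfsg.sympForm m F (M *ᵥ x) b = Cfsg.sympForm m F x b := by
    intro x
    rw [hMv, sf_add_left, sf_add_left, sf_smul_left, sf_smul_left, hab, sf_self]
    ring
  have hMM : M * M = 1 := by
    apply Matrix.toLin'.injective
    apply LinearMap.ext
    intro x
    rw [Matrix.toLin'_mul, LinearMap.comp_apply, Matrix.toLin'_apply, Matrix.toLin'_apply,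
      Matrix.toLin'_one, LinearMap.id_apply, hMv (M *ᵥ x), hfa, hfb, hMv]
    have e1 : Cfsg.sympForm m F x a • b + Cfsg.sympForm m F x a • b = 0 := by
      rw [← add_smul, h2, zero_smul]
    have e2 : Cfsg.sympForm m F x b • a + Cfsg.sympForm m F x b • a = 0 := by
      rw [← add_smul, h2, zero_smul]
    calc x + Cfsg.sympForm m F x a • b + Cfsg.sympForm m F x b • a + Cfsg.sympForm m F x a • b
          + Cfsg.sympForm m F x b • a
        = x + (Cfsg.sympForm m F x a • b + Cfsg.sympForm m F x a • b)
          + (Cfsg.sympForm m F x b • a + Cfsg.sympForm m F x b • a) := by abel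
      _ = x := by rw [e1, e2, add_zero, add_zero]
  refine ⟨⟨M, M, hMM, hMM⟩, ?_, ?_, ?_⟩
  · rw [mem_isom_iff]
    intro x
    show Cfsg.quadFormPlus m F (M *ᵥ x) = Cfsg.quadFormPlus m F x
    rw [hMv, Q_add, Q_add, Q_smul, Q_smul, ha, hb, sf_smul_right, sf_smul_right, sf_add_left,
      sf_smul_left, hba]
    linear_combination h2 (Cfsg.sympForm m F x a * Cfsg.sympForm m F x b)
  · -- `g ≠ 1`
    intro h1
    have hM1 : M = 1 := congrArg Units.val h1
    -- a vector `x` with `f(x,a) ≠ 0`
    obtain ⟨x, hx⟩ : ∃ x, Cfsg.sympForm m F x a ≠ 0 := by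
      by_contra hcon
      push Not at hcon
      apply ha0
      funext k
      rcases k with i | i
      · have := hcon (Pi.single (Sum.inr i) 1)
        rw [sf_symm, sf_single_inr] at this
        simpa using this
      · have := hcon (Pi.single (Sum.inl i) 1)
        rw [sf_symm, sf_single_inl] at this
        simpa using this
    have hx1 : Cfsg.sympForm m F x a = 1 := (h23_zero_or_one hF _).resolve_left hx
    have hfix : M *ᵥ x = x := by rw [hM1, Matrix.one_mulVec]
    rw [hMv, hx1, one_smul] at hfix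
    have hz : b + Cfsg.sympForm m F x b • a = 0 := by
      have : x + (b + Cfsg.sympForm m F x b • a) = x + 0 := by rw [add_zero, ← add_assoc]; exact hfix
      exact add_left_cancel this
    rcases h23_zero_or_one hF (Cfsg.sympForm m F x b) with h0 | h1'
    · rw [h0, zero_smul, add_zero] at hz; exact hb0 hz
    · rw [h1', one_smul] at hz
      apply hne
      funext k
      have hk := congrFun hz k
      simp only [Pi.add_apply, Pi.zero_apply] at hk
      exact (CharTwo.add_eq_zero.mp hk).symm
  · intro x hxa hxb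
    show M *ᵥ x = x
    rw [hMv, hxa, hxb, zero_smul, zero_smul, add_zero, add_zero]

end Cfsg.Agent.S2487P
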