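import Mathlib
import Cfsg.Prelude.Def_Classical
import Cfsg.Prelude.Def_ClassicalGeometry
import Cfsg.Agent.Helper14.OInv
import Cfsg.Agent.Helper23.S2487S

/-!
Piece (S1) of the team proof of S2487 (backup): an isometry of the hyperbolic quadratic form over
the field with two elements fixing `e_1, …, e_n` (in dimension `2(n+1)`) has `g ^ 8 = 1`.
-/

set_option autoImplicit false

namespace Cfsg.Agent.S2487P

open Matrix Cfsg.Agent.Helper6 Cfsg.Agent.Helper14.OInv

theorem h23_arith {F : Type*} [Field F] (h01 : ∀ c : F, c = 0 ∨ c = 1) (a1 b1 a2 b2 α β : F)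
    (c1 : a1 * b1 = 0) (c2 : a2 * b2 = 0) (c3 : (a1 + a2) * (b1 + b2) = 1) :
    (α * a1 + β * a2) * a1 + (α * b1 + β * b2) * a2 = α ∧
    (α * a1 + β * a2) * b1 + (α * b1 + β * b2) * b2 = β := by
  rcases h01 a1 with h | h <;> rcases h01 b1 with h' | h' <;> rcases h01 a2 with h'' | h'' <;>
    rcases h01 b2 with h''' | h''' <;> subst h h' h'' h''' <;> simp_all

/-- (S1), backup. -/
theorem h23_pow_eight {F : Type*} [Field F] [Fintype F] (hF : Fintype.card F = 2) (n : ℕ)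
    (g : Matrix.GeneralLinearGroup (Fin (n + 1) ⊕ Fin (n + 1)) F)
    (hg : g ∈ Cfsg.isometryGroup F (Cfsg.quadFormPlus (n + 1) F))
    (hfix : ∀ i : Fin n,
      (g : Matrix (Fin (n + 1) ⊕ Fin (n + 1)) (Fin (n + 1) ⊕ Fin (n + 1)) F) *ᵥ
        (Pi.single (Sum.inl i.castSucc) 1) = Pi.single (Sum.inl i.castSucc) 1) :
    g ^ 8 = 1 := by
  classical
  have hF2 : Fact (Nat.Prime 2) := ⟨Nat.prime_two⟩
  have hchar : CharP F 2 := charP_of_card_eq_prime hF
  have h2 : ∀ c : F, c + c = 0 := fun c => CharTwo.add_self_eq_zero c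
  have h01 := h23_zero_or_one hF
  obtain ⟨A, hA⟩ : ∃ A : Matrix (Fin (n + 1) ⊕ Fin (n + 1)) (Fin (n + 1) ⊕ Fin (n + 1)) F,
      A = (g : Matrix (Fin (n + 1) ⊕ Fin (n + 1)) (Fin (n + 1) ⊕ Fin (n + 1)) F) := ⟨_, rfl⟩
  rw [← hA] at hfix
  have hQ : ∀ u, Cfsg.quadFormPlus (n + 1) F (A *ᵥ u) = Cfsg.quadFormPlus (n + 1) F u := by
    rw [hA]; exact (mem_isom_iff g).mp hg
  have hf : ∀ u v, Cfsg.sympForm (n + 1) F (A *ᵥ u) (A *ᵥ v) = Cfsg.sympForm (n + 1) F u v := by
    intro u v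
    have h := hQ (u + v)
    rw [Matrix.mulVec_add, Q_add, Q_add, hQ, hQ] at h
    exact add_left_cancel h
  have hstar : ∀ v (i : Fin n), (A *ᵥ v) (Sum.inr i.castSucc) = v (Sum.inr i.castSucc) := by
    intro v i
    have h := hf v (Pi.single (Sum.inl i.castSucc) 1)
    rw [hfix i, sf_single_inl, sf_single_inl] at h
    exact h
  -- vectors of `W0` are fixed
  have hW0 : ∀ w : Fin (n + 1) ⊕ Fin (n + 1) → F, (∀ j, w (Sum.inr j) = 0) →
      w (Sum.inl (Fin.last n)) = 0 → A *ᵥ w = w := by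
    intro w hw1 hw2
    have hdec : w = ∑ i : Fin n, w (Sum.inl i.castSucc) •
        (Pi.single (Sum.inl i.castSucc) (1 : F) : Fin (n + 1) ⊕ Fin (n + 1) → F) := by
      funext k
      rw [Finset.sum_apply]
      rcases k with j | j
      · refine Fin.lastCases ?_ (fun i0 => ?_) j
        · rw [hw2]
          symm
          apply Finset.sum_eq_zero
          intro i _
          have : Fin.last n ≠ i.castSucc := (Fin.castSucc_lt_last i).ne'
          simp [Pi.single_apply, this]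
        · simp [Pi.single_apply, Fin.castSucc_inj]
      · rw [hw1]
        symm
        apply Finset.sum_eq_zero
        intro i _
        simp [Pi.single_apply]
    have key : A *ᵥ (∑ i : Fin n, w (Sum.inl i.castSucc) •
        (Pi.single (Sum.inl i.castSucc) (1 : F) : Fin (n + 1) ⊕ Fin (n + 1) → F)) =
        ∑ i : Fin n, w (Sum.inl i.castSucc) •
        (Pi.single (Sum.inl i.castSucc) (1 : F) : Fin (n + 1) ⊕ Fin (n + 1) → F) := by
      rw [Matrix.mulVec_sum]
      exact Finset.sum_congr rfl (fun i _ => by rw [Matrix.mulVec_smul, hfix i])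
    rw [← hdec] at key
    exact key
  -- the quadratic form on `W0^⊥`
  have hQperp : ∀ u : Fin (n + 1) ⊕ Fin (n + 1) → F, (∀ i : Fin n, u (Sum.inr i.castSucc) = 0) →
      Cfsg.quadFormPlus (n + 1) F u = u (Sum.inl (Fin.last n)) * u (Sum.inr (Fin.last n)) := by
    intro u hu
    rw [Cfsg.quadFormPlus, Fin.sum_univ_castSucc]
    have : ∑ i : Fin n, u (Sum.inl i.castSucc) * u (Sum.inr i.castSucc) = 0 :=
      Finset.sum_eq_zero (fun i _ => by rw [hu i, mul_zero])
    rw [this, zero_add]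
  obtain ⟨e, he⟩ : ∃ e : Fin (n + 1) ⊕ Fin (n + 1) → F,
      e = Pi.single (Sum.inl (Fin.last n)) 1 := ⟨_, rfl⟩
  obtain ⟨f0, hf0⟩ : ∃ f0 : Fin (n + 1) ⊕ Fin (n + 1) → F,
      f0 = Pi.single (Sum.inr (Fin.last n)) 1 := ⟨_, rfl⟩
  have he_inr : ∀ j, e (Sum.inr j) = 0 := fun j => by simp [he]
  have he_last : e (Sum.inl (Fin.last n)) = 1 := by simp [he]
  have hf0_inl : ∀ j, f0 (Sum.inl j) = 0 := fun j => by simp [hf0]
  have hf0_last : f0 (Sum.inr (Fin.last n)) = 1 := by simp [hf0]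
  have hf0_cs : ∀ i : Fin n, f0 (Sum.inr i.castSucc) = 0 := fun i => by
    have : i.castSucc ≠ Fin.last n := (Fin.castSucc_lt_last i).ne
    simp [hf0, Pi.single_apply, this]
  obtain ⟨p, hp⟩ : ∃ p : Fin (n + 1) ⊕ Fin (n + 1) → F, p = A *ᵥ e := ⟨_, rfl⟩
  obtain ⟨q, hq⟩ : ∃ q : Fin (n + 1) ⊕ Fin (n + 1) → F, q = A *ᵥ f0 := ⟨_, rfl⟩
  have hp_perp : ∀ i : Fin n, p (Sum.inr i.castSucc) = 0 := fun i => by rw [hp, hstar, he_inr]
  have hq_perp : ∀ i : Fin n, q (Sum.inr i.castSucc) = 0 := fun i => by rw [hq, hstar, hf0_cs]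
  have c1 : p (Sum.inl (Fin.last n)) * p (Sum.inr (Fin.last n)) = 0 := by
    have := hQ e
    rw [← hp, hQperp p hp_perp, hQperp e (fun i => he_inr _), he_inr, mul_zero] at this
    exact this
  have c2 : q (Sum.inl (Fin.last n)) * q (Sum.inr (Fin.last n)) = 0 := by
    have := hQ f0
    rw [← hq, hQperp q hq_perp, hQperp f0 hf0_cs, hf0_inl, zero_mul] at this
    exact this
  have c3 : (p (Sum.inl (Fin.last n)) + q (Sum.inl (Fin.last n))) *
      (p (Sum.inr (Fin.last n)) + q (Sum.inr (Fin.last n))) = 1 := by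
    have := hQ (e + f0)
    rw [Matrix.mulVec_add, ← hp, ← hq,
      hQperp (p + q) (fun i => by rw [Pi.add_apply, hp_perp i, hq_perp i, add_zero]),
      hQperp (e + f0) (fun i => by rw [Pi.add_apply, he_inr, hf0_cs i, add_zero])] at this
    simp only [Pi.add_apply, he_last, hf0_inl, he_inr, hf0_last, add_zero, zero_add,
      mul_one] at this
    exact this
  -- coordinates of `A u` for `u ∈ W0^⊥`
  have hcoord : ∀ u : Fin (n + 1) ⊕ Fin (n + 1) → F, (∀ i : Fin n, u (Sum.inr i.castSucc) = 0) →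
      ∀ k, (A *ᵥ u) k = u k + u (Sum.inl (Fin.last n)) * e k + u (Sum.inr (Fin.last n)) * f0 k
        + u (Sum.inl (Fin.last n)) * p k + u (Sum.inr (Fin.last n)) * q k := by
    intro u hu k
    have hw1 : ∀ j, (u + u (Sum.inl (Fin.last n)) • e + u (Sum.inr (Fin.last n)) • f0)
        (Sum.inr j) = 0 := by
      intro j
      refine Fin.lastCases ?_ (fun i => ?_) j
      · simp only [Pi.add_apply, Pi.smul_apply, smul_eq_mul, he_inr, hf0_last, mul_zero,
          add_zero, mul_one]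
        exact h2 _
      · simp only [Pi.add_apply, Pi.smul_apply, smul_eq_mul, he_inr, hf0_cs, hu i, mul_zero,
          add_zero]
    have hw2 : (u + u (Sum.inl (Fin.last n)) • e + u (Sum.inr (Fin.last n)) • f0)
        (Sum.inl (Fin.last n)) = 0 := by
      simp only [Pi.add_apply, Pi.smul_apply, smul_eq_mul, he_last, hf0_inl, mul_zero,
        add_zero, mul_one]
      exact h2 _
    have hw := hW0 _ hw1 hw2
    rw [Matrix.mulVec_add, Matrix.mulVec_add, Matrix.mulVec_smul, Matrix.mulVec_smul,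
      ← hp, ← hq] at hw
    have hk := congrFun hw k
    simp only [Pi.add_apply, Pi.smul_apply, smul_eq_mul] at hk
    linear_combination hk - h2 (u (Sum.inl (Fin.last n)) * p k) -
      h2 (u (Sum.inr (Fin.last n)) * q k)
  have hα : ∀ u : Fin (n + 1) ⊕ Fin (n + 1) → F, (∀ i : Fin n, u (Sum.inr i.castSucc) = 0) →
      (A *ᵥ u) (Sum.inl (Fin.last n)) = u (Sum.inl (Fin.last n)) * p (Sum.inl (Fin.last n)) +
        u (Sum.inr (Fin.last n)) * q (Sum.inl (Fin.last n)) := by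
    intro u hu
    rw [hcoord u hu, he_last, hf0_inl]
    linear_combination h2 (u (Sum.inl (Fin.last n)))
  have hβ : ∀ u : Fin (n + 1) ⊕ Fin (n + 1) → F, (∀ i : Fin n, u (Sum.inr i.castSucc) = 0) →
      (A *ᵥ u) (Sum.inr (Fin.last n)) = u (Sum.inl (Fin.last n)) * p (Sum.inr (Fin.last n)) +
        u (Sum.inr (Fin.last n)) * q (Sum.inr (Fin.last n)) := by
    intro u hu
    rw [hcoord u hu, he_inr, hf0_last]
    linear_combination h2 (u (Sum.inr (Fin.last n)))
  have hperpA : ∀ u : Fin (n + 1) ⊕ Fin (n + 1) → F, (∀ i : Fin n, u (Sum.inr i.castSucc) = 0) →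
      ∀ i : Fin n, (A *ᵥ u) (Sum.inr i.castSucc) = 0 := fun u hu i => by rw [hstar, hu]
  have hAA : ∀ u : Fin (n + 1) ⊕ Fin (n + 1) → F, (∀ i : Fin n, u (Sum.inr i.castSucc) = 0) →
      (A *ᵥ (A *ᵥ u)) (Sum.inl (Fin.last n)) = u (Sum.inl (Fin.last n)) ∧
      (A *ᵥ (A *ᵥ u)) (Sum.inr (Fin.last n)) = u (Sum.inr (Fin.last n)) := by
    intro u hu
    rw [hα _ (hperpA u hu), hβ _ (hperpA u hu), hα u hu, hβ u hu]
    exact h23_arith h01 _ _ _ _ _ _ c1 c2 c3
  -- `D x = A (A x) + x`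
  have hDa : ∀ v : Fin (n + 1) ⊕ Fin (n + 1) → F, ∀ i : Fin n,
      (A *ᵥ (A *ᵥ v) + v) (Sum.inr i.castSucc) = 0 := by
    intro v i
    rw [Pi.add_apply, hstar, hstar]
    exact h2 _
  have hDb : ∀ u : Fin (n + 1) ⊕ Fin (n + 1) → F, (∀ i : Fin n, u (Sum.inr i.castSucc) = 0) →
      (∀ j, (A *ᵥ (A *ᵥ u) + u) (Sum.inr j) = 0) ∧
      (A *ᵥ (A *ᵥ u) + u) (Sum.inl (Fin.last n)) = 0 := by
    intro u hu
    obtain ⟨hαα, hββ⟩ := hAA u hu
    refine ⟨fun j => ?_, ?_⟩
    · refine Fin.lastCases ?_ (fun i => ?_) j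
      · rw [Pi.add_apply, hββ]; exact h2 _
      · exact hDa u i
    · rw [Pi.add_apply, hαα]; exact h2 _
  have hDc : ∀ w : Fin (n + 1) ⊕ Fin (n + 1) → F, (∀ j, w (Sum.inr j) = 0) →
      w (Sum.inl (Fin.last n)) = 0 → A *ᵥ (A *ᵥ w) + w = 0 := by
    intro w hw1 hw2
    rw [hW0 w hw1 hw2, hW0 w hw1 hw2]
    funext k
    exact h2 _
  -- matrix level
  have hDv : ∀ x : Fin (n + 1) ⊕ Fin (n + 1) → F, (A * A + 1) *ᵥ x = A *ᵥ (A *ᵥ x) + x := by
    intro x
    rw [Matrix.add_mulVec, Matrix.one_mulVec, Matrix.mulVec_mulVec]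
  have hD3 : (A * A + 1) * (A * A + 1) * (A * A + 1) = 0 := by
    apply Matrix.toLin'.injective
    apply LinearMap.ext
    intro v
    rw [Matrix.toLin'_apply, map_zero, LinearMap.zero_apply, ← Matrix.mulVec_mulVec,
      ← Matrix.mulVec_mulVec, hDv v, hDv (A *ᵥ (A *ᵥ v) + v), hDv]
    have hb := hDb (A *ᵥ (A *ᵥ v) + v) (hDa v)
    exact hDc _ hb.1 hb.2
  have hx1 : ∀ X : Matrix (Fin (n + 1) ⊕ Fin (n + 1)) (Fin (n + 1) ⊕ Fin (n + 1)) F,
      X + X = 0 := fun X => by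
    ext i j
    exact h2 _
  have hsq : ∀ X : Matrix (Fin (n + 1) ⊕ Fin (n + 1)) (Fin (n + 1) ⊕ Fin (n + 1)) F,
      (X + 1) * (X + 1) = X * X + 1 := by
    intro X
    rw [mul_add, add_mul, one_mul, mul_one, ← add_assoc, add_assoc (X * X), hx1, add_zero]
  have h4 : (A * A * (A * A)) * (A * A * (A * A)) + 1 = 0 := by
    have h : (A * A + 1) * (A * A + 1) * ((A * A + 1) * (A * A + 1)) = 0 := by
      rw [← mul_assoc, hD3, zero_mul]
    rw [hsq (A * A), hsq (A * A * (A * A))] at h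
    exact h
  have h8 : A ^ 8 = 1 := by
    have e8 : A ^ 8 = (A * A * (A * A)) * (A * A * (A * A)) := by
      simp only [pow_succ, pow_zero, one_mul, mul_assoc]
    rw [e8]
    calc (A * A * (A * A)) * (A * A * (A * A))
        = (A * A * (A * A)) * (A * A * (A * A)) + 1 + 1 := by rw [add_assoc, hx1, add_zero]
      _ = 1 := by rw [h4, zero_add]
  apply Units.ext
  rw [Units.val_pow_eq_pow_val, Units.val_one, ← hA]
  exact h8

end Cfsg.Agent.S2487P
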