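import Mathlib
import Cfsg.Prelude.Def_Local
import Cfsg.Agent.Helper1.TateLift
import Cfsg.Agent.Helper10.FStar
import Cfsg.Agent.Helper10.PComp
import Cfsg.Agent.Helper10.PCons
import Cfsg.Agent.Helper13.Fusion5

set_option autoImplicit false

namespace Cfsg.Agent.Helper23.TateMin

open scoped commutatorElement

universe u

/-- a normal subgroup not inside the Frattini subgroup of a group with Frattini index `p ^ 2`
has cyclic quotient: it is supplemented by a cyclic subgroup. -/
theorem cyc {Q : Type*} [Group Q] [Finite Q] {p : ℕ} (hp : p.Prime)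
    (hgen : (frattini Q).index = p ^ 2) (S : Subgroup Q)
    (hS : ¬ S ≤ frattini Q) : ∃ g : Q, S ⊔ Subgroup.zpowers g = ⊤ := by
  have hΦT : frattini Q ≤ S ⊔ frattini Q := le_sup_right
  by_cases hT : S ⊔ frattini Q = ⊤
  · exact ⟨1, by rw [frattini_nongenerating hT]; exact top_sup_eq _⟩
  have hmul := Subgroup.relIndex_mul_index hΦT
  rw [hgen] at hmul
  have hrel : (frattini Q).relIndex (S ⊔ frattini Q) ≠ 1 := by
    intro h
    exact hS (le_trans le_sup_left (Subgroup.relIndex_eq_one.mp h))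
  have hidx1 : (S ⊔ frattini Q).index ≠ 1 := fun h => hT (Subgroup.index_eq_one.mp h)
  have hdvd : (S ⊔ frattini Q).index ∣ p ^ 2 := Dvd.intro_left _ hmul
  obtain ⟨k, hk, hk2⟩ := (Nat.dvd_prime_pow hp).mp hdvd
  have hidx : (S ⊔ frattini Q).index = p := by
    interval_cases k
    · simp at hk2; exact absurd hk2 hT
    · simpa using hk2
    · exfalso
      rw [hk2] at hmul
      have hpos : 0 < p ^ 2 := pow_pos hp.pos 2
      exact hrel (Nat.eq_of_mul_eq_mul_right hpos (by rw [hmul, one_mul]))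
  obtain ⟨g, hg⟩ : ∃ g : Q, g ∉ S ⊔ frattini Q := by
    by_contra h
    push Not at h
    exact hT (eq_top_iff.mpr fun x _ => h x)
  refine ⟨g, ?_⟩
  have hle : S ⊔ frattini Q ≤ (S ⊔ frattini Q) ⊔ Subgroup.zpowers g := le_sup_left
  have hd2 : ((S ⊔ frattini Q) ⊔ Subgroup.zpowers g).index ∣ p := by
    rw [← hidx]; exact Subgroup.index_dvd_of_le hle
  have htop : (S ⊔ frattini Q) ⊔ Subgroup.zpowers g = ⊤ := by
    rcases (Nat.dvd_prime hp).mp hd2 with h1 | h1
    · exact Subgroup.index_eq_one.mp h1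
    · exfalso
      have h2 := Subgroup.relIndex_mul_index hle
      rw [h1, hidx] at h2
      have h3 : (S ⊔ frattini Q).relIndex ((S ⊔ frattini Q) ⊔ Subgroup.zpowers g) = 1 :=
        Nat.eq_of_mul_eq_mul_right hp.pos (by rw [h2, one_mul])
      have h4 := Subgroup.relIndex_eq_one.mp h3
      exact hg (h4 (le_sup_right (a := S ⊔ frattini Q) (Subgroup.mem_zpowers g)))
  apply frattini_nongenerating
  rw [sup_right_comm]
  exact htop

/-- if `S` is normal and supplemented by a cyclic subgroup then all commutators lie in `S` -/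
theorem comm_mem_of_cyc {Q : Type*} [Group Q] (S : Subgroup Q) [S.Normal] (g : Q)
    (h : S ⊔ Subgroup.zpowers g = ⊤) (x y : Q) : ⁅x, y⁆ ∈ S := by
  have key : ∀ q : Q, ∃ k : ℤ, (QuotientGroup.mk' S q) = (QuotientGroup.mk' S g) ^ k := by
    intro q
    have hq : q ∈ S ⊔ Subgroup.zpowers g := by rw [h]; trivial
    have hq' : q ∈ ((S ⊔ Subgroup.zpowers g : Subgroup Q) : Set Q) := hq
    rw [Subgroup.normal_mul] at hq'
    obtain ⟨s, hs, z, hz, rfl⟩ := Set.mem_mul.mp hq'
    obtain ⟨k, rfl⟩ := Subgroup.mem_zpowers_iff.mp hz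
    refine ⟨k, ?_⟩
    rw [map_mul, map_zpow]
    have : QuotientGroup.mk' S s = 1 := (QuotientGroup.eq_one_iff s).mpr hs
    rw [this, one_mul]
  obtain ⟨i, hi⟩ := key x
  obtain ⟨j, hj⟩ := key y
  have h1 : QuotientGroup.mk' S ⁅x, y⁆ = 1 := by
    rw [commutatorElement_def, map_mul, map_mul, map_mul, map_inv, map_inv, hi, hj]
    rw [← zpow_add, ← zpow_neg, ← zpow_add, ← zpow_neg, ← zpow_add]
    have : i + j + -i + -j = 0 := by ring
    rw [this, zpow_zero]
  exact (QuotientGroup.eq_one_iff _).mp h1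

/-- transfer: a central element of `X` lying in the commutator subgroup and in a subgroup `S`
of index prime to its order lies in `S'`. -/
theorem tr_center {X : Type*} [Group X] [Finite X] (S : Subgroup X) (z : X)
    (hz1 : z ∈ Subgroup.center X) (hz2 : z ∈ commutator X) (hzS : z ∈ S)
    (hcop : (S.index).Coprime (orderOf z)) : z ∈ ⁅S, S⁆ := by
  have key : ∀ (k : ℕ) (g₀ : X), g₀⁻¹ * z ^ k * g₀ ∈ S → g₀⁻¹ * z ^ k * g₀ = z ^ k := by
    intro k g₀ _
    have hc : z ^ k ∈ Subgroup.center X := Subgroup.pow_mem _ hz1 k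
    have := Subgroup.mem_center_iff.mp hc g₀
    rw [mul_assoc, ← this, inv_mul_cancel_left]
  have h1 := MonoidHom.transfer_eq_pow (Abelianization.of : ↥S →* Abelianization ↥S) z key
  have h2 : (MonoidHom.transfer (Abelianization.of : ↥S →* Abelianization ↥S)) z = 1 :=
    MonoidHom.mem_ker.mp (Abelianization.commutator_subset_ker _ hz2)
  rw [h2] at h1
  have h3 : (⟨z ^ S.index, Subgroup.pow_mem _ hzS _⟩ : ↥S) ∈ commutator ↥S := by
    rw [← Abelianization.ker_of, MonoidHom.mem_ker]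
    exact h1.symm
  have h4 : z ^ S.index ∈ ⁅S, S⁆ := by
    rw [← Subgroup.map_subtype_commutator]
    exact ⟨_, h3, rfl⟩
  obtain ⟨m, hm⟩ := exists_pow_eq_self_of_coprime hcop
  rw [← hm]
  exact Subgroup.pow_mem _ h4 m

/-- data of a normal `p`-complement -/
theorem npc_data {Y : Type u} [Group Y] [Finite Y] {p : ℕ} [Fact p.Prime]
    (h : Cfsg.HasNormalPComplement p Y) :
    ∃ T : Subgroup Y, T.Normal ∧ (Nat.card T).Coprime p ∧ ∃ n : ℕ, T.index = p ^ n := by
  have hp : p.Prime := Fact.out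
  obtain ⟨Q, T, hT, hc⟩ := h
  refine ⟨T, hT, ?_, ?_⟩
  · rw [← hc.index_eq_card]
    exact ((Nat.Prime.coprime_iff_not_dvd hp).mpr Q.not_dvd_index).symm
  · obtain ⟨n, hn⟩ := IsPGroup.iff_card.mp Q.2
    exact ⟨n, by rw [← hn]; exact hc.symm.index_eq_card⟩

/-- elements of order prime to `p` lie in a normal subgroup of `p`-power index -/
theorem mem_of_coprime_order {Y : Type*} [Group Y] [Finite Y] {p : ℕ} (T : Subgroup Y)
    [T.Normal] {n : ℕ} (hT : T.index = p ^ n) (x : Y) (hx : (orderOf x).Coprime p) : x ∈ T := by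
  rw [← QuotientGroup.eq_one_iff]
  have h1 : orderOf (x : Y ⧸ T) ∣ p ^ n := by
    rw [← hT]
    exact orderOf_dvd_natCard _
  have h2 : orderOf (x : Y ⧸ T) ∣ orderOf x := orderOf_map_dvd (QuotientGroup.mk' T) x
  exact orderOf_eq_one_iff.mp
    (Nat.eq_one_of_dvd_coprimes (Nat.Coprime.pow_right n hx) h2 h1)

end Cfsg.Agent.Helper23.TateMin
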