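import Mathlib
import Cfsg.Agent.Helper23.TateMinA

set_option autoImplicit false

namespace Cfsg.Agent.Helper23.TateMin

open scoped commutatorElement

universe u

/-- **Step A** (Tate): with `O_{p'}(G) = 1` and `Φ(P)` core-free, no nontrivial normal subgroup
meets `P` inside `Φ(P)`. -/
theorem stepA {G : Type u} [Group G] [Finite G] {p : ℕ} [Fact p.Prime] (P : Sylow p G)
    (hcore : Cfsg.pPrimeCore p G = ⊥)
    (hfrat : ((frattini ↥(P : Subgroup G)).map (P : Subgroup G).subtype).normalCore = ⊥)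
    (K : Subgroup G) [hKn : K.Normal] (hK : K ≠ ⊥) :
    ¬ K ⊓ (P : Subgroup G) ≤ (frattini ↥(P : Subgroup G)).map (P : Subgroup G).subtype := by
  intro h
  have hp : p.Prime := Fact.out
  obtain ⟨T, hTn, hTc, n, hTi⟩ := npc_data (Cfsg.Agent.Helper1.tate_npc P K h)
  have hTG : (T.map K.subtype).Normal := by
    constructor
    rintro _ ⟨t, ht, rfl⟩ g
    have hmem : g * (t : G) * g⁻¹ ∈ K := hKn.conj_mem _ t.2 g
    refine ⟨⟨g * (t : G) * g⁻¹, hmem⟩, ?_, rfl⟩
    apply mem_of_coprime_order T hTi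
    have h1 : orderOf (⟨g * (t : G) * g⁻¹, hmem⟩ : ↥K) = orderOf t := by
      rw [Subgroup.orderOf_mk, ← Subgroup.orderOf_coe t]
      exact (MulAut.conj g).orderOf_eq (t : G)
    rw [h1]
    have h2 : orderOf t ∣ Nat.card T := by
      have := orderOf_dvd_natCard (⟨t, ht⟩ : ↥T)
      rwa [Subgroup.orderOf_mk] at this
    exact Nat.Coprime.coprime_dvd_left h2 hTc
  have hTle : T.map K.subtype ≤ Cfsg.pPrimeCore p G :=
    Cfsg.Agent.Helper10.le_pPrimeCore p hTG
      (by rw [Subgroup.card_map_of_injective K.subtype_injective]; exact hTc)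
  rw [hcore, le_bot_iff] at hTle
  have hT : T = ⊥ := (Subgroup.map_eq_bot_iff_of_injective T K.subtype_injective).mp hTle
  rw [hT, Subgroup.index_bot] at hTi
  have hKp : IsPGroup p ↥K := IsPGroup.of_card hTi
  have hKP : K ≤ (P : Subgroup G) := hKp.le_sylow_of_normal P
  have hKΦ : K ≤ (frattini ↥(P : Subgroup G)).map (P : Subgroup G).subtype :=
    le_trans (le_inf le_rfl hKP) h
  have := Subgroup.normal_le_normalCore.mpr hKΦ
  rw [hfrat, le_bot_iff] at this
  exact hK this

/-- **Step B**: a `P`-invariant subgroup not meeting `P` inside `Φ(P)` is supplemented in `P` by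
a cyclic subgroup and contains `P'`. -/
theorem stepB {G : Type*} [Group G] [Finite G] {p : ℕ} [Fact p.Prime] (P : Sylow p G)
    (hgen : (frattini ↥(P : Subgroup G)).index = p ^ 2) (X : Subgroup G)
    (hXP : (P : Subgroup G) ≤ Subgroup.normalizer (X : Set G))
    (hX : ¬ X ⊓ (P : Subgroup G) ≤ (frattini ↥(P : Subgroup G)).map (P : Subgroup G).subtype) :
    (∃ g : ↥(P : Subgroup G), X.subgroupOf (P : Subgroup G) ⊔ Subgroup.zpowers g = ⊤) ∧
    ∀ x ∈ (P : Subgroup G), ∀ y ∈ (P : Subgroup G), ⁅x, y⁆ ∈ X := by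
  have hp : p.Prime := Fact.out
  haveI hn : (X.subgroupOf (P : Subgroup G)).Normal := by
    constructor
    intro n hn g
    rw [Subgroup.mem_subgroupOf] at hn ⊢
    have := (Subgroup.mem_set_normalizer_iff.mp (hXP g.2) (n : G)).mp hn
    simpa using this
  have hS : ¬ X.subgroupOf (P : Subgroup G) ≤ frattini ↥(P : Subgroup G) := by
    intro h
    apply hX
    intro x hx
    exact ⟨⟨x, hx.2⟩, h (Subgroup.mem_subgroupOf.mpr hx.1), rfl⟩
  obtain ⟨g, hg⟩ := cyc hp hgen _ hS
  refine ⟨⟨g, hg⟩, ?_⟩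
  intro x hx y hy
  have := comm_mem_of_cyc _ g hg ⟨x, hx⟩ ⟨y, hy⟩
  rw [Subgroup.mem_subgroupOf] at this
  simpa [commutatorElement_def] using this

/-- commutators lie in the Frattini subgroup when it has index `p ^ 2` -/
theorem comm_mem_frattini {Q : Type*} [Group Q] [Finite Q] {p : ℕ} [Fact p.Prime]
    (hgen : (frattini Q).index = p ^ 2) (x y : Q) : ⁅x, y⁆ ∈ frattini Q := by
  have hc : Nat.card (Q ⧸ frattini Q) = p ^ 2 := hgen
  have hmc := IsPGroup.isMulCommutative_of_card_eq_prime_sq hc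
  have hcomm : ∀ a b : Q ⧸ frattini Q, a * b = b * a := fun a b => hmc.is_comm.comm a b
  rw [← QuotientGroup.eq_one_iff]
  have : ((⁅x, y⁆ : Q) : Q ⧸ frattini Q) = (x : Q ⧸ frattini Q) * y * (x : Q ⧸ frattini Q)⁻¹ * (y : Q ⧸ frattini Q)⁻¹ := by
    rw [commutatorElement_def]; rfl
  rw [this, hcomm (x : Q ⧸ frattini Q) y, mul_inv_cancel_right, mul_inv_cancel]

theorem comm_le_frattini {G : Type*} [Group G] [Finite G] {p : ℕ} [Fact p.Prime] (P : Sylow p G)
    (hgen : (frattini ↥(P : Subgroup G)).index = p ^ 2) :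
    ⁅(P : Subgroup G), (P : Subgroup G)⁆ ≤
      (frattini ↥(P : Subgroup G)).map (P : Subgroup G).subtype := by
  rw [Subgroup.commutator_le]
  intro a ha b hb
  exact ⟨⁅(⟨a, ha⟩ : ↥(P : Subgroup G)), ⟨b, hb⟩⁆, comm_mem_frattini hgen _ _,
    by simp [commutatorElement_def]⟩

/-- **D1**: every component lies in the universal minimal normal subgroup `M`. -/
theorem comp_le_min {G : Type u} [Group G] [Finite G] {p : ℕ} [Fact p.Prime] (P : Sylow p G)
    (hgen : (frattini ↥(P : Subgroup G)).index = p ^ 2)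
    (M : Subgroup G) [hMn : M.Normal]
    (hM : ∀ K : Subgroup G, K.Normal → K ≠ ⊥ → M ≤ K)
    (hMA : ¬ M ⊓ (P : Subgroup G) ≤ (frattini ↥(P : Subgroup G)).map (P : Subgroup G).subtype)
    (L : Subgroup G) (hL : Cfsg.IsComponent L) : L ≤ M := by
  rcases Cfsg.Agent.Helper10.comp_le_or_comm L M hL hMn.isSubnormal with h | h
  · exact h
  exfalso
  apply hMA
  have hp : p.Prime := Fact.out
  have hLc : L ≤ Subgroup.centralizer (M : Set G) :=
    Subgroup.commutator_eq_bot_iff_le_centralizer.mp h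
  have hNc : Subgroup.normalClosure (L : Set G) ≤ Subgroup.centralizer (M : Set G) :=
    Subgroup.normalClosure_le_normal hLc
  have hLN : L ≤ Subgroup.normalClosure (L : Set G) := Subgroup.le_normalClosure
  have hNne : Subgroup.normalClosure (L : Set G) ≠ ⊥ := fun h0 =>
    Cfsg.Agent.Helper10.comp_ne_bot hL (le_bot_iff.mp (h0 ▸ hLN))
  have hMN : M ≤ Subgroup.normalClosure (L : Set G) :=
    hM _ Subgroup.normalClosure_normal hNne
  obtain ⟨N, hNdef⟩ : ∃ N : Subgroup G, N = Subgroup.normalClosure (L : Set G) := ⟨_, rfl⟩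
  rw [← hNdef] at hNc hLN hNne hMN
  haveI hNn : N.Normal := by rw [hNdef]; exact Subgroup.normalClosure_normal
  have hNperf : N ≤ ⁅N, N⁆ := by
    haveI : (⁅N, N⁆).Normal := Subgroup.commutator_normal N N
    rw [hNdef]
    apply Subgroup.normalClosure_le_normal
    rw [← hNdef]
    have : ⁅L, L⁆ ≤ ⁅N, N⁆ := Subgroup.commutator_mono hLN hLN
    rw [Cfsg.Agent.Helper10.comp_perfect hL] at this
    exact this
  have hidx : ¬ p ∣ (P : Subgroup G).relIndex N := by
    have := Cfsg.Agent.Helper13.inf_normal_sylow_in (p := p) (⊤ : Subgroup G) N (P : Subgroup G)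
      le_top P.2 (by rw [Subgroup.relIndex_top_right]; exact P.not_dvd_index) le_top
      (fun g _ => Subgroup.mem_set_normalizer_iff.mpr (fun h =>
        ⟨fun hh => hNn.conj_mem h hh g, fun hh => by
          have := hNn.conj_mem _ hh g⁻¹
          simpa [mul_assoc] using this⟩))
    rwa [Subgroup.inf_relIndex_right] at this
  intro z hz
  have hzN : z ∈ N := hMN hz.1
  have key := tr_center ((P : Subgroup G).subgroupOf N) (⟨z, hzN⟩ : ↥N) ?_ ?_ ?_ ?_
  · have h1 : z ∈ (⁅(P : Subgroup G).subgroupOf N, (P : Subgroup G).subgroupOf N⁆).map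
        N.subtype := ⟨_, key, rfl⟩
    rw [Subgroup.map_commutator] at h1
    have h2 : ((P : Subgroup G).subgroupOf N).map N.subtype ≤ (P : Subgroup G) := by
      rintro _ ⟨w, hw, rfl⟩; exact Subgroup.mem_subgroupOf.mp hw
    exact comm_le_frattini P hgen (Subgroup.commutator_mono h2 h2 h1)
  · rw [Subgroup.mem_center_iff]
    intro n
    apply Subtype.ext
    have := Subgroup.mem_centralizer_iff.mp (hNc n.2) z hz.1
    simpa using this.symm
  · have h1 : z ∈ ⁅N, N⁆ := hNperf hzN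
    rw [← Subgroup.map_subtype_commutator] at h1
    obtain ⟨w, hw, hwz⟩ := h1
    have h2 : w = ⟨z, hzN⟩ := Subtype.ext hwz
    rw [← h2]; exact hw
  · exact Subgroup.mem_subgroupOf.mpr hz.2
  · show ((P : Subgroup G).relIndex N).Coprime (orderOf (⟨z, hzN⟩ : ↥N))
    obtain ⟨k, hk⟩ := P.2 ⟨z, hz.2⟩
    have hk' : z ^ p ^ k = 1 := by simpa using congrArg Subtype.val hk
    have ho : orderOf (⟨z, hzN⟩ : ↥N) ∣ p ^ k := by
      rw [Subgroup.orderOf_mk]; exact orderOf_dvd_of_pow_eq_one hk'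
    exact Nat.Coprime.coprime_dvd_right ho
      (Nat.Coprime.pow_right k ((Nat.Prime.coprime_iff_not_dvd hp).mpr hidx).symm)

end Cfsg.Agent.Helper23.TateMin
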