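import Mathlib
import Cfsg.Agent.Helper23.TateMinB

set_option autoImplicit false

namespace Cfsg.Agent.Helper23.TateMin

open scoped commutatorElement
open scoped IsMulCommutative

universe u

/-- averaging over the cosets of a subgroup fixing `v0`: a fixed point congruent to a power of
`v0` modulo an invariant subgroup. -/
theorem avg_comm {A : Type*} [CommGroup A] {H : Type*} [Group H] [Finite H]
    (φ : H →* MulAut A) (P' : Subgroup H) (M : Subgroup A) (v0 : A)
    (hfix : ∀ u ∈ P', φ u v0 = v0) (hact : ∀ h : H, φ h v0 / v0 ∈ M) :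
    ∃ w0 : A, w0 / v0 ^ P'.index ∈ M ∧ ∀ h : H, φ h w0 = w0 := by
  classical
  haveI : Fintype (H ⧸ P') := Fintype.ofFinite _
  refine ⟨∏ q : H ⧸ P', φ (Quotient.out q) v0, ?_, ?_⟩
  · have h1 : (∏ q : H ⧸ P', φ (Quotient.out q) v0) / v0 ^ P'.index
        = ∏ q : H ⧸ P', (φ (Quotient.out q) v0 / v0) := by
      rw [Finset.prod_div_distrib, Finset.prod_const, Finset.card_univ,
        ← Nat.card_eq_fintype_card]
      rfl
    rw [h1]
    exact Subgroup.prod_mem _ (fun q _ => hact _)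
  · intro h
    rw [map_prod]
    have h2 : ∀ q : H ⧸ P', φ h (φ (Quotient.out q) v0) = φ (Quotient.out (h • q)) v0 := by
      intro q
      have hq : h • q = ((h * Quotient.out q : H) : H ⧸ P') := by
        conv_lhs => rw [← QuotientGroup.out_eq' q]
        rfl
      obtain ⟨u, hu⟩ := QuotientGroup.mk_out_eq_mul P' (h * Quotient.out q)
      rw [hq, hu, map_mul, map_mul, MulAut.mul_apply, MulAut.mul_apply, hfix u u.2]
    simp_rw [h2]
    exact Equiv.prod_comp (MulAction.toPerm h : Equiv.Perm (H ⧸ P'))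
      (fun q => φ (Quotient.out q) v0)

/-- the kernel of the action on `W / M` -/
theorem exists_G0 {G : Type*} [Group G] (W M : Subgroup G) [hWn : W.Normal] [hMn : M.Normal] :
    ∃ G0 : Subgroup G, G0.Normal ∧ ∀ h, h ∈ G0 ↔ ∀ w ∈ W, h * w * h⁻¹ * w⁻¹ ∈ M := by
  let G0 : Subgroup G :=
    { carrier := {h | ∀ w ∈ W, h * w * h⁻¹ * w⁻¹ ∈ M}
      one_mem' := by
        intro w _
        simp
      mul_mem' := by
        intro a b ha hb w hw
        have h1 := hMn.conj_mem _ (hb w hw) a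
        have h2 := ha w hw
        have := M.mul_mem h1 h2
        convert this using 1
        group
      inv_mem' := by
        intro a ha w hw
        have hw' : a⁻¹ * w * a ∈ W := by simpa using hWn.conj_mem w hw a⁻¹
        have := M.inv_mem (ha _ hw')
        convert this using 1
        group }
  have hmem : ∀ h, h ∈ G0 ↔ ∀ w ∈ W, h * w * h⁻¹ * w⁻¹ ∈ M := fun h => Iff.rfl
  refine ⟨G0, ?_, hmem⟩
  constructor
  intro h hh a
  rw [hmem] at hh ⊢
  intro w hw
  have hw' : a⁻¹ * w * a ∈ W := by simpa using hWn.conj_mem w hw a⁻¹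
  have := hMn.conj_mem _ (hh _ hw') a
  convert this using 1
  group

/-- **D2**: every normal `p`-subgroup lies in the universal minimal normal subgroup `M`. -/
theorem pnormal_le_min {G : Type u} [Group G] [Finite G] {p : ℕ} [Fact p.Prime] (P : Sylow p G)
    (hna : ∃ x ∈ (P : Subgroup G), ∃ y ∈ (P : Subgroup G), x * y ≠ y * x)
    (hgen : (frattini ↥(P : Subgroup G)).index = p ^ 2)
    (hfrat : ((frattini ↥(P : Subgroup G)).map (P : Subgroup G).subtype).normalCore = ⊥)
    (M : Subgroup G) [hMn : M.Normal]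
    (hM : ∀ K : Subgroup G, K.Normal → K ≠ ⊥ → M ≤ K)
    (hMA : ¬ M ⊓ (P : Subgroup G) ≤ (frattini ↥(P : Subgroup G)).map (P : Subgroup G).subtype)
    (W : Subgroup G) [hWn : W.Normal] (hW : IsPGroup p W) : W ≤ M := by
  by_contra hWM
  have hp : p.Prime := Fact.out
  have hWne : W ≠ ⊥ := fun h => hWM (h ▸ bot_le)
  have hMW : M ≤ W := hM W hWn hWne
  have hWP : W ≤ (P : Subgroup G) := hW.le_sylow_of_normal P
  have hWab : ∀ a ∈ W, ∀ b ∈ W, a * b = b * a := by
    haveI : (⁅W, W⁆).Normal := Subgroup.commutator_normal W W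
    have h1 : ⁅W, W⁆ ≤ (frattini ↥(P : Subgroup G)).map (P : Subgroup G).subtype :=
      le_trans (Subgroup.commutator_mono hWP hWP) (comm_le_frattini P hgen)
    have h2 := Subgroup.normal_le_normalCore.mpr h1
    rw [hfrat, le_bot_iff] at h2
    intro a ha b hb
    have h3 : ⁅a, b⁆ ∈ ⁅W, W⁆ := Subgroup.commutator_mem_commutator ha hb
    rw [h2, Subgroup.mem_bot] at h3
    exact commutatorElement_eq_one_iff_mul_comm.mp h3
  have hPM : (P : Subgroup G) ≤ Subgroup.normalizer (M : Set G) := fun a _ =>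
    Subgroup.mem_set_normalizer_iff.mpr (fun h =>
        ⟨fun hh => hMn.conj_mem h hh a, fun hh => by
          have := hMn.conj_mem _ hh a⁻¹
          simpa [mul_assoc] using this⟩)
  obtain ⟨⟨g, hg⟩, hcomm⟩ := stepB P hgen M hPM hMA
  have hdec : ∀ x ∈ (P : Subgroup G), ∃ m ∈ M, ∃ k : ℤ, x = m * (g : G) ^ k := by
    intro x hx
    have hx' : (⟨x, hx⟩ : ↥(P : Subgroup G)) ∈
        ((M.subgroupOf (P : Subgroup G) ⊔ Subgroup.zpowers g : Subgroup _) : Set _) := by
      rw [hg]; trivial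
    rw [Subgroup.normal_mul] at hx'
    obtain ⟨s, hs, z, hz, hsz⟩ := Set.mem_mul.mp hx'
    obtain ⟨k, rfl⟩ := Subgroup.mem_zpowers_iff.mp hz
    refine ⟨s, Subgroup.mem_subgroupOf.mp hs, k, ?_⟩
    have := congrArg Subtype.val hsz
    simpa using this.symm
  obtain ⟨v, hvW, hvM⟩ : ∃ v ∈ W, v ∉ M := by
    by_contra h
    push Not at h
    exact hWM h
  obtain ⟨m, hm, k, hvk⟩ := hdec v (hWP hvW)
  have hv0W : (g : G) ^ k ∈ W := by
    have : (g : G) ^ k = m⁻¹ * v := by rw [hvk, inv_mul_cancel_left]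
    rw [this]; exact W.mul_mem (W.inv_mem (hMW hm)) hvW
  have hv0M : (g : G) ^ k ∉ M := fun h => hvM (by rw [hvk]; exact M.mul_mem hm h)
  have hv0P : ∀ x ∈ (P : Subgroup G), x * (g : G) ^ k * x⁻¹ = (g : G) ^ k := by
    intro x hx
    obtain ⟨m', hm', j, rfl⟩ := hdec x hx
    have h1 : m' * (g : G) ^ k = (g : G) ^ k * m' := hWab _ (hMW hm') _ hv0W
    have h2 : (g : G) ^ j * (g : G) ^ k = (g : G) ^ k * (g : G) ^ j := by
      rw [← zpow_add, ← zpow_add, add_comm]
    have h3 : m' * (g : G) ^ j * (g : G) ^ k * (m' * (g : G) ^ j)⁻¹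
        = m' * (((g : G) ^ j * (g : G) ^ k) * ((g : G) ^ j)⁻¹) * m'⁻¹ := by group
    rw [h3, h2, mul_inv_cancel_right, h1, mul_inv_cancel_right]
  obtain ⟨G0, hG0n, hG0mem⟩ := exists_G0 W M
  have hPG0 : (P : Subgroup G) ≤ G0 := by
    intro x hx
    rw [hG0mem]
    intro w hw
    have := hcomm x hx w (hWP hw)
    rwa [commutatorElement_def] at this
  have hidx : ¬ p ∣ (P : Subgroup G).relIndex G0 := fun h =>
    P.not_dvd_index (dvd_trans h (Subgroup.relIndex_dvd_index_of_le hPG0))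
  haveI hWmc : IsMulCommutative ↥W := ⟨⟨fun a b => Subtype.ext (hWab a a.2 b b.2)⟩⟩
  obtain ⟨w0, hw0M, hw0fix⟩ := avg_comm ((MulAut.conjNormal (H := W)).comp G0.subtype)
    ((P : Subgroup G).subgroupOf G0) (M.subgroupOf W) ⟨(g : G) ^ k, hv0W⟩
    (by
      intro u hu
      apply Subtype.ext
      rw [MonoidHom.comp_apply, MulAut.conjNormal_apply]
      exact hv0P _ (Subgroup.mem_subgroupOf.mp hu))
    (by
      intro h
      rw [Subgroup.mem_subgroupOf, MonoidHom.comp_apply]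
      have := (hG0mem _).mp h.2 _ hv0W
      simpa [div_eq_mul_inv, MulAut.conjNormal_apply] using this)
  -- `w0 ∉ M`
  have hw0nM : (w0 : G) ∉ M := by
    intro hw0
    rw [Subgroup.mem_subgroupOf] at hw0M
    have h1 : ((g : G) ^ k) ^ ((P : Subgroup G).subgroupOf G0).index ∈ M := by
      have h2 : (w0 : G) * (((g : G) ^ k) ^ ((P : Subgroup G).subgroupOf G0).index)⁻¹ ∈ M := by
        simpa [div_eq_mul_inv] using hw0M
      have h3 := M.mul_mem (M.inv_mem h2) hw0
      have h4 : ((w0 : G) * (((g : G) ^ k) ^ ((P : Subgroup G).subgroupOf G0).index)⁻¹)⁻¹ * (w0 : G)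
          = ((g : G) ^ k) ^ ((P : Subgroup G).subgroupOf G0).index := by group
      rwa [h4] at h3
    obtain ⟨e, he⟩ := P.2 ⟨(g : G) ^ k, hWP hv0W⟩
    have he' : ((g : G) ^ k) ^ p ^ e = 1 := by simpa using congrArg Subtype.val he
    have ho : orderOf ((g : G) ^ k) ∣ p ^ e := orderOf_dvd_of_pow_eq_one he'
    have hcop : (((P : Subgroup G).subgroupOf G0).index).Coprime (orderOf ((g : G) ^ k)) :=
      Nat.Coprime.coprime_dvd_right ho
        (Nat.Coprime.pow_right e ((Nat.Prime.coprime_iff_not_dvd hp).mpr hidx).symm)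
    obtain ⟨r, hr⟩ := exists_pow_eq_self_of_coprime hcop
    exact hv0M (hr ▸ M.pow_mem h1 r)
  -- the fixed points of `G0` in `W`
  haveI : (Subgroup.centralizer (G0 : Set G)).Normal := Subgroup.normal_centralizer
  haveI hWcn : (W ⊓ Subgroup.centralizer (G0 : Set G)).Normal := inferInstance
  have hw0c : (w0 : G) ∈ W ⊓ Subgroup.centralizer (G0 : Set G) := by
    refine Subgroup.mem_inf.mpr ⟨w0.2, ?_⟩
    rw [Subgroup.mem_centralizer_iff]
    intro h hh
    have := congrArg Subtype.val (hw0fix ⟨h, hh⟩)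
    rw [MonoidHom.comp_apply, MulAut.conjNormal_apply] at this
    have h5 : h * (w0 : G) * h⁻¹ = (w0 : G) := this
    calc h * (w0 : G) = h * (w0 : G) * h⁻¹ * h := by group
      _ = (w0 : G) * h := by rw [h5]
  have hWcne : W ⊓ Subgroup.centralizer (G0 : Set G) ≠ ⊥ := by
    intro h
    rw [h, Subgroup.mem_bot] at hw0c
    exact hw0nM (hw0c ▸ M.one_mem)
  have hMc : M ≤ W ⊓ Subgroup.centralizer (G0 : Set G) := hM _ hWcn hWcne
  have hcen : ∀ m ∈ M, ∀ x ∈ (P : Subgroup G), x * m = m * x := by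
    intro m hm x hx
    exact Subgroup.mem_centralizer_iff.mp (hMc hm).2 x (hPG0 hx)
  obtain ⟨x, hx, y, hy, hxy⟩ := hna
  apply hxy
  obtain ⟨m1, hm1, i, rfl⟩ := hdec x hx
  obtain ⟨m2, hm2, j, rfl⟩ := hdec y hy
  have hgP : ∀ n : ℤ, (g : G) ^ n ∈ (P : Subgroup G) := fun n => Subgroup.zpow_mem _ g.2 n
  have c1 : (g : G) ^ i * m2 = m2 * (g : G) ^ i := hcen m2 hm2 _ (hgP i)
  have c2 : (g : G) ^ j * m1 = m1 * (g : G) ^ j := hcen m1 hm1 _ (hgP j)
  have c3 : m1 * m2 = m2 * m1 := hWab _ (hMW hm1) _ (hMW hm2)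
  have c4 : (g : G) ^ i * (g : G) ^ j = (g : G) ^ j * (g : G) ^ i := by
    rw [← zpow_add, ← zpow_add, add_comm]
  calc m1 * (g : G) ^ i * (m2 * (g : G) ^ j) = m1 * ((g : G) ^ i * m2) * (g : G) ^ j := by group
    _ = m1 * (m2 * (g : G) ^ i) * (g : G) ^ j := by rw [c1]
    _ = (m1 * m2) * ((g : G) ^ i * (g : G) ^ j) := by group
    _ = (m2 * m1) * ((g : G) ^ j * (g : G) ^ i) := by rw [c3, c4]
    _ = m2 * (m1 * (g : G) ^ j) * (g : G) ^ i := by group
    _ = m2 * ((g : G) ^ j * m1) * (g : G) ^ i := by rw [c2]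
    _ = m2 * (g : G) ^ j * (m1 * (g : G) ^ i) := by group

end Cfsg.Agent.Helper23.TateMin
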