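import Mathlib
import Cfsg.Agent.Helper23.TateMinC

set_option autoImplicit false

namespace Cfsg.Agent.Helper23.TateMin

open scoped commutatorElement

universe u

theorem normal_le_normalizer {G : Type*} [Group G] (Q K : Subgroup G) [hKn : K.Normal] :
    Q ≤ Subgroup.normalizer (K : Set G) := fun a _ =>
  Subgroup.mem_set_normalizer_iff.mpr (fun h =>
    ⟨fun hh => hKn.conj_mem h hh a, fun hh => by
      have := hKn.conj_mem _ hh a⁻¹
      simpa [mul_assoc] using this⟩)

theorem perfect_of_equiv {A B : Type*} [Group A] [Group B] (e : A ≃* B)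
    (hB : commutator B = ⊤) : commutator A = ⊤ := by
  rw [eq_top_iff]
  intro a _
  have h1 : e a ∈ commutator B := by rw [hB]; trivial
  have h2 : a ∈ (commutator B).map e.symm.toMonoidHom := ⟨e a, h1, e.symm_apply_apply a⟩
  rw [commutator_def, Subgroup.map_commutator] at h2
  rw [commutator_def]
  exact Subgroup.commutator_mono le_top le_top h2

/-- perfect groups with a normal `p`-complement are `p'`-groups -/
theorem perfect_npc_coprime {Y : Type u} [Group Y] [Finite Y] {p : ℕ} [Fact p.Prime]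
    (hperf : commutator Y = ⊤) (h : Cfsg.HasNormalPComplement p Y) : (Nat.card Y).Coprime p := by
  obtain ⟨T, hTn, hTc, n, hTi⟩ := npc_data h
  have hcard : Nat.card (Y ⧸ T) = p ^ n := hTi
  have hpg : IsPGroup p (Y ⧸ T) := IsPGroup.of_card hcard
  haveI : Group.IsNilpotent (Y ⧸ T) := hpg.isNilpotent
  haveI : Group.IsSolvable (Y ⧸ T) := inferInstance
  have hT : T = ⊤ := by
    by_contra hT
    obtain ⟨y, hy⟩ : ∃ y : Y, y ∉ T := by
      by_contra h
      push Not at h
      exact hT (eq_top_iff.mpr fun x _ => h x)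
    haveI : Nontrivial (Y ⧸ T) :=
      ⟨⟨(y : Y ⧸ T), 1, fun h => hy ((QuotientGroup.eq_one_iff y).mp h)⟩⟩
    have h1 := Group.IsSolvable.commutator_lt_top_of_nontrivial (Y ⧸ T)
    have h2 : commutator (Y ⧸ T) = ⊤ := by
      rw [eq_top_iff]
      intro q _
      obtain ⟨y, rfl⟩ := QuotientGroup.mk_surjective q
      have hy : y ∈ commutator Y := by rw [hperf]; trivial
      have h3 : (QuotientGroup.mk' T) y ∈ (commutator Y).map (QuotientGroup.mk' T) :=
        ⟨y, hy, rfl⟩
      rw [commutator_def, Subgroup.map_commutator] at h3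
      rw [commutator_def]
      exact Subgroup.commutator_mono le_top le_top h3
    exact (ne_of_lt h1) h2
  rw [hT] at hTc
  rwa [Subgroup.card_top] at hTc

/-- Tate in the normalizer: a perfect `P`-invariant subgroup meeting `P` inside `Φ(P)` is a
`p'`-group. -/
theorem tate_sub {G : Type u} [Group G] [Finite G] {p : ℕ} [Fact p.Prime] (P : Sylow p G)
    (X : Subgroup G) (hXP : (P : Subgroup G) ≤ Subgroup.normalizer (X : Set G))
    (hperf : ⁅X, X⁆ = X)
    (h : X ⊓ (P : Subgroup G) ≤ (frattini ↥(P : Subgroup G)).map (P : Subgroup G).subtype) :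
    (Nat.card X).Coprime p := by
  obtain ⟨H, hH⟩ : ∃ H : Subgroup G, H = Subgroup.normalizer (X : Set G) := ⟨_, rfl⟩
  have hXH : X ≤ H := hH ▸ Subgroup.le_normalizer
  have hPH : (P : Subgroup G) ≤ H := hH ▸ hXP
  haveI hXn : (X.subgroupOf H).Normal := by rw [hH]; exact Subgroup.normal_in_normalizer
  have key : Cfsg.HasNormalPComplement p ↥(X.subgroupOf H) := by
    apply Cfsg.Agent.Helper1.tate_npc (P.subtype hPH) (X.subgroupOf H)
    intro y hy
    have hyX : (y : G) ∈ X := Subgroup.mem_subgroupOf.mp hy.1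
    have hyP : (y : G) ∈ (P : Subgroup G) := by
      have h1 : y ∈ ((P.subtype hPH : Sylow p ↥H) : Subgroup ↥H) := hy.2
      rw [Sylow.coe_subtype] at h1
      exact Subgroup.mem_subgroupOf.mp h1
    obtain ⟨w, hw, hwy⟩ := h ⟨hyX, hyP⟩
    let e : ↥((P.subtype hPH : Sylow p ↥H) : Subgroup ↥H) ≃* ↥(P : Subgroup G) :=
      Subgroup.subgroupOfEquivOfLe hPH
    have h2 := frattini_le_comap_frattini_of_surjective (φ := e.symm.toMonoidHom)
      e.symm.surjective hw
    refine ⟨e.symm w, h2, ?_⟩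
    apply Subtype.ext
    exact hwy
  have hX1 : commutator ↥X = ⊤ := by
    apply Subgroup.map_injective X.subtype_injective
    rw [Subgroup.map_subtype_commutator, hperf, ← MonoidHom.range_eq_map, Subgroup.range_subtype]
  have hX2 : commutator ↥(X.subgroupOf H) = ⊤ :=
    perfect_of_equiv (Subgroup.subgroupOfEquivOfLe hXH) hX1
  have := perfect_npc_coprime hX2 key
  rwa [Nat.card_congr (Subgroup.subgroupOfEquivOfLe hXH).toEquiv] at this

/-- a nonempty `P`-invariant join of components does not meet `P` inside `Φ(P)` -/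
theorem comps_not_frattini {G : Type u} [Group G] [Finite G] {p : ℕ} [Fact p.Prime]
    (P : Sylow p G) (hcore : Cfsg.pPrimeCore p G = ⊥)
    (S : Set (Subgroup G)) (hS : ∀ K ∈ S, Cfsg.IsComponent K) (K0 : Subgroup G) (hK0 : K0 ∈ S)
    (hP : (P : Subgroup G) ≤ Subgroup.normalizer ((sSup S : Subgroup G) : Set G)) :
    ¬ sSup S ⊓ (P : Subgroup G) ≤
      (frattini ↥(P : Subgroup G)).map (P : Subgroup G).subtype := by
  intro h
  have hperf : ⁅sSup S, sSup S⁆ = sSup S := by
    apply le_antisymm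
    · rw [Subgroup.commutator_le]
      intro a ha b hb
      rw [commutatorElement_def]
      exact mul_mem (mul_mem (mul_mem ha hb) (inv_mem ha)) (inv_mem hb)
    · apply sSup_le
      intro K hK
      have := Subgroup.commutator_mono (le_sSup hK) (le_sSup hK)
      rwa [Cfsg.Agent.Helper10.comp_perfect (hS K hK)] at this
  have hc := tate_sub P (sSup S) hP hperf h
  have hK0c : (Nat.card K0).Coprime p :=
    Nat.Coprime.coprime_dvd_left (Subgroup.card_dvd_of_le (le_sSup hK0)) hc
  have := Cfsg.Agent.Helper10.subnormal_coprime_le_pPrimeCore p K0 (hS K0 hK0).1 hK0c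
  rw [hcore, le_bot_iff] at this
  exact Cfsg.Agent.Helper10.comp_ne_bot (hS K0 hK0) this

theorem map_conj_conj {G : Type*} [Group G] (K : Subgroup G) (x y : G) :
    (K.map (MulAut.conj y).toMonoidHom).map (MulAut.conj x).toMonoidHom
      = K.map (MulAut.conj (x * y)).toMonoidHom := by
  rw [Subgroup.map_map]
  congr 1
  ext g
  simp [mul_assoc]

theorem map_conj_one {G : Type*} [Group G] (K : Subgroup G) :
    K.map (MulAut.conj (1 : G)).toMonoidHom = K := by
  ext g
  simp

theorem le_normalizer_sSup {G : Type*} [Group G] (Q : Subgroup G) (S : Set (Subgroup G))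
    (h : ∀ x ∈ Q, ∀ K ∈ S, K.map (MulAut.conj x).toMonoidHom ∈ S) :
    Q ≤ Subgroup.normalizer ((sSup S : Subgroup G) : Set G) := by
  have key : ∀ x ∈ Q, ∀ n ∈ sSup S, x * n * x⁻¹ ∈ sSup S := by
    intro x hx n hn
    have h1 : (sSup S).map (MulAut.conj x).toMonoidHom ≤ sSup S := by
      rw [Subgroup.map_le_iff_le_comap]
      apply sSup_le
      intro K hK
      rw [← Subgroup.map_le_iff_le_comap]
      exact le_sSup (h x hx K hK)
    exact h1 ⟨n, hn, by simp⟩
  intro x hx
  rw [Subgroup.mem_set_normalizer_iff]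
  intro n
  constructor
  · intro hn
    exact key x hx n hn
  · intro hn
    have := key x⁻¹ (inv_mem hx) _ hn
    simpa [mul_assoc] using this

/-- **F**: `P` is transitive on the components. -/
theorem comps_trans {G : Type u} [Group G] [Finite G] {p : ℕ} [Fact p.Prime] (P : Sylow p G)
    (hgen : (frattini ↥(P : Subgroup G)).index = p ^ 2)
    (hcore : Cfsg.pPrimeCore p G = ⊥)
    (M : Subgroup G) (x0 y0 : G) (hx0 : x0 ∈ (P : Subgroup G)) (hy0 : y0 ∈ (P : Subgroup G))
    (hMc : ∀ N : Subgroup G, N.Normal → ⁅x0, y0⁆ ∈ N → M ≤ N)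
    (hKM : ∀ K : Subgroup G, Cfsg.IsComponent K → K ≤ M)
    (K L : Subgroup G) (hK : Cfsg.IsComponent K) (hL : Cfsg.IsComponent L) :
    ∃ x ∈ (P : Subgroup G), L = K.map (MulAut.conj x).toMonoidHom := by
  by_contra hno
  push Not at hno
  obtain ⟨S1, hS1⟩ : ∃ S1 : Set (Subgroup G),
      S1 = {K' | ∃ x ∈ (P : Subgroup G), K' = K.map (MulAut.conj x).toMonoidHom} := ⟨_, rfl⟩
  obtain ⟨S2, hS2⟩ : ∃ S2 : Set (Subgroup G),
      S2 = {K' | Cfsg.IsComponent K' ∧ K' ∉ S1} := ⟨_, rfl⟩
  have hS1comp : ∀ K' ∈ S1, Cfsg.IsComponent K' := by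
    intro K' hK'
    rw [hS1] at hK'
    obtain ⟨x, _, rfl⟩ := hK'
    exact Cfsg.Agent.Helper10.comp_conj hK x
  have hS2comp : ∀ K' ∈ S2, Cfsg.IsComponent K' := by
    intro K' hK'
    rw [hS2] at hK'
    exact hK'.1
  have hKS1 : K ∈ S1 := by
    rw [hS1]
    exact ⟨1, one_mem _, (map_conj_one K).symm⟩
  have hLS2 : L ∈ S2 := by
    rw [hS2]
    refine ⟨hL, ?_⟩
    rw [hS1]
    rintro ⟨x, hx, hLx⟩
    exact hno x hx hLx
  have hinv1 : ∀ x ∈ (P : Subgroup G), ∀ K' ∈ S1, K'.map (MulAut.conj x).toMonoidHom ∈ S1 := by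
    intro x hx K' hK'
    rw [hS1] at hK' ⊢
    obtain ⟨y, hy, rfl⟩ := hK'
    exact ⟨x * y, mul_mem hx hy, map_conj_conj K x y⟩
  have hinv2 : ∀ x ∈ (P : Subgroup G), ∀ K' ∈ S2, K'.map (MulAut.conj x).toMonoidHom ∈ S2 := by
    intro x hx K' hK'
    rw [hS2] at hK' ⊢
    refine ⟨Cfsg.Agent.Helper10.comp_conj hK'.1 x, fun hmem => hK'.2 ?_⟩
    have := hinv1 x⁻¹ (inv_mem hx) _ hmem
    rwa [map_conj_conj, inv_mul_cancel, map_conj_one] at this
  have hP1 := le_normalizer_sSup (P : Subgroup G) S1 hinv1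
  have hP2 := le_normalizer_sSup (P : Subgroup G) S2 hinv2
  have hn1 := comps_not_frattini P hcore S1 hS1comp K hKS1 hP1
  have hn2 := comps_not_frattini P hcore S2 hS2comp L hLS2 hP2
  have hc1 := (stepB P hgen _ hP1 hn1).2 x0 hx0 y0 hy0
  have hc2 := (stepB P hgen _ hP2 hn2).2 x0 hx0 y0 hy0
  have hcomm12 : sSup S1 ≤ Subgroup.centralizer ((sSup S2 : Subgroup G) : Set G) := by
    apply sSup_le
    intro K1 hK1
    rw [Subgroup.le_centralizer_iff]
    apply sSup_le
    intro K2 hK2
    rw [← Subgroup.commutator_eq_bot_iff_le_centralizer]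
    rcases Cfsg.Agent.Helper10.comp_eq_or_comm (hS2comp K2 hK2) (hS1comp K1 hK1) with h | h
    · exfalso
      rw [hS2] at hK2
      exact hK2.2 (h ▸ hK1)
    · exact h
  have hcE : ⁅x0, y0⁆ ∈ Subgroup.centralizer ((Cfsg.layer G : Subgroup G) : Set G) := by
    have hle : Cfsg.layer G ≤ Subgroup.centralizer ({⁅x0, y0⁆} : Set G) := by
      apply sSup_le
      intro K' hK' k hk
      rw [Subgroup.mem_centralizer_iff]
      intro h hh
      rw [Set.mem_singleton_iff] at hh
      rw [hh]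
      by_cases hK1 : K' ∈ S1
      · exact Subgroup.mem_centralizer_iff.mp (hcomm12 (le_sSup hK1 hk)) _ hc2
      · have hK2 : K' ∈ S2 := by rw [hS2]; exact ⟨hK', hK1⟩
        exact (Subgroup.mem_centralizer_iff.mp (hcomm12 hc1) _ (le_sSup hK2 hk)).symm
    rw [Subgroup.mem_centralizer_iff]
    intro e he
    exact (Subgroup.mem_centralizer_iff.mp (hle he) _ rfl).symm
  haveI := Cfsg.Agent.Helper10.layer_normal G
  haveI hCn : (Subgroup.centralizer ((Cfsg.layer G : Subgroup G) : Set G)).Normal :=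
    Subgroup.normal_centralizer
  have hMC := hMc _ hCn hcE
  have hKK : K ≤ Subgroup.centralizer (K : Set G) := by
    intro k hk
    have h1 := hMC (hKM K hK hk)
    rw [Subgroup.mem_centralizer_iff] at h1 ⊢
    intro h hh
    exact h1 h (Cfsg.Agent.Helper10.comp_le_layer hK hh)
  have := Subgroup.commutator_eq_bot_iff_le_centralizer.mpr hKK
  rw [Cfsg.Agent.Helper10.comp_perfect hK] at this
  exact Cfsg.Agent.Helper10.comp_ne_bot hK this

end Cfsg.Agent.Helper23.TateMin
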